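import Cfsg.Agent.H4.PermChar
import Cfsg.Agent.H4.Char4

/-! Small irreducible characters of `4`-transitive groups. -/

set_option autoImplicit false
set_option linter.style.haveILetI false

namespace Cfsg.Agent.H22.Fo

open Finset MulAction Cfsg.Agent.H4
open scoped ComplexConjugate

variable {G Ω : Type*} [Group G] [MulAction G Ω] [Fintype Ω] [DecidableEq Ω]

/-- tuples permuted according to a pattern -/
noncomputable def P (Ω : Type*) [MulAction G Ω] [Fintype Ω] [DecidableEq Ω] {k : ℕ} (σ : Equiv.Perm (Fin k))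
    (g : G) : Finset (Fin k ↪ Ω) := univ.filter fun t => ∀ i, g • t i = t (σ i)
/-- fixed points -/
def Fx (Ω : Type*) [MulAction G Ω] [Fintype Ω] [DecidableEq Ω] (g : G) : Finset Ω :=
  univ.filter fun x => g • x = x
/-- points in cycles of length two -/
def Sx (Ω : Type*) [MulAction G Ω] [Fintype Ω] [DecidableEq Ω] (g : G) : Finset Ω :=
  univ.filter fun x => g • x ≠ x ∧ g • g • x = x

theorem mom [Fintype G] {k : ℕ} (h : IsMultiplyPretransitive G Ω k) (hk : k ≤ Fintype.card Ω)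
    (σ : Equiv.Perm (Fin k)) : ∑ g : G, #(P Ω σ g) = Fintype.card G := by
  classical
  have hN : 0 < Fintype.card (Fin k ↪ Ω) := by
    rw [Fintype.card_embedding_eq, Fintype.card_fin]; exact Nat.descFactorial_pos.2 hk
  have key : ∀ t : Fin k ↪ Ω, Fintype.card (Fin k ↪ Ω) *
      #(univ.filter fun g : G => ∀ i, g • t i = t (σ i)) = Fintype.card G := fun t => by
    obtain ⟨u, hu⟩ := exists_smul_eq G t (σ.toEmbedding.trans t)
    rw [← card_orbit_mul_card_stabilizer_eq_card_group G t]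
    congr 1
    · simp [orbit_eq_univ]
    · rw [← Fintype.card_coe]
      refine Fintype.card_congr ⟨fun g => ⟨u⁻¹ * g, ?_⟩, fun g => ⟨u * g, ?_⟩, fun g => by simp,
        fun g => by simp⟩
      · rw [mem_stabilizer_iff, mul_smul, inv_smul_eq_iff, hu]
        ext i; exact (mem_filter.1 g.2).2 i
      · refine mem_filter.2 ⟨mem_univ _, fun i => ?_⟩
        have := congrArg (fun t : Fin k ↪ Ω => t i) (show (u * g.1) • t = _ by rw [mul_smul, g.2, hu])
        exact this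
  refine Nat.eq_of_mul_eq_mul_left hN ?_
  simp only [P, card_filter]
  rw [sum_comm, mul_sum]
  simp only [← card_filter, key, sum_const, card_univ, smul_eq_mul]

theorem P_one (k : ℕ) (g : G) : #(P Ω (1 : Equiv.Perm (Fin k)) g) = (#(Fx Ω g)).descFactorial k := by
  rw [← Fintype.card_coe, ← Fintype.card_coe (Fx Ω g)]
  refine Eq.trans ?_ ((Fintype.card_embedding_eq (α := Fin k) (β := Fx Ω g)).trans
    (by rw [Fintype.card_fin]))
  refine Fintype.card_congr ((Equiv.subtypeEquivRight fun t => ?_).trans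
    (Equiv.codRestrict (Fin k) (Fx Ω g : Set Ω)))
  simp only [P, mem_filter, mem_univ, true_and]
  simp [Fx]

theorem P_two (g : G) : #(P Ω (Equiv.swap (0 : Fin 2) 1) g) = #(Sx Ω g) := by
  refine card_bij (fun t _ => t 0) (fun t ht => ?_) (fun t ht u hu e => ?_) fun x hx => ?_
  · simp [P, Fin.forall_fin_succ] at ht
    simp [Sx, ht]
  · simp [P, Fin.forall_fin_succ] at ht hu
    ext i; fin_cases i
    · exact e
    · exact ht.1.symm.trans (e ▸ hu.1)
  · simp [Sx] at hx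
    refine ⟨⟨![x, g • x], fun i j => ?_⟩, ?_, rfl⟩
    · fin_cases i <;> fin_cases j <;> simp [hx, Ne.symm hx.1]
    · simp only [P, mem_filter, mem_univ, true_and, Fin.forall_fin_succ]
      exact ⟨rfl, hx.2, nofun⟩

theorem P_three (g : G) : #(P Ω (Equiv.swap (0 : Fin 3) 1) g) = #(Sx Ω g) * #(Fx Ω g) := by
  rw [← card_product]
  refine card_bij (fun t _ => (t 0, t 2)) (fun t ht => ?_) (fun t ht u hu e => ?_) fun x hx => ?_
  · simp [P, Fin.forall_fin_succ, Equiv.swap_apply_def] at ht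
    simp [Sx, Fx, ht]
  · simp [P, Fin.forall_fin_succ, Equiv.swap_apply_def] at ht hu e
    ext i; fin_cases i
    · exact e.1
    · exact ht.1.symm.trans (e.1 ▸ hu.1)
    · exact e.2
  · obtain ⟨x, z⟩ := x
    simp [Sx, Fx] at hx
    have a : x ≠ z := fun e => hx.1.1 (e ▸ hx.2)
    have b : g • x ≠ z := fun e => a (by rw [← hx.1.2, e, hx.2])
    refine ⟨⟨![x, g • x, z], fun i j => ?_⟩, ?_, rfl⟩
    · fin_cases i <;> fin_cases j <;> simp [hx, Ne.symm hx.1.1, a, b, a.symm, b.symm]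
    · simp only [P, mem_filter, mem_univ, true_and, Fin.forall_fin_succ]
      exact ⟨rfl, hx.1.2, hx.2, nofun⟩

theorem P_four (g : G) :
    #(P Ω (Equiv.swap (0 : Fin 4) 1) g) + #(Sx Ω g) * #(Fx Ω g) = #(Sx Ω g) * #(Fx Ω g) ^ 2 := by
  have : #(P Ω (Equiv.swap (0 : Fin 4) 1) g) = #(Sx Ω g ×ˢ (Fx Ω g).offDiag) := by
    refine card_bij (fun t _ => (t 0, t 2, t 3)) (fun t ht => ?_) (fun t ht u hu e => ?_)
      fun x hx => ?_
    · simp [P, Fin.forall_fin_succ, Equiv.swap_apply_def] at ht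
      simp [Sx, Fx, ht]
    · simp [P, Fin.forall_fin_succ, Equiv.swap_apply_def] at ht hu e
      ext i; fin_cases i
      · exact e.1
      · exact ht.1.symm.trans (e.1 ▸ hu.1)
      · exact e.2.1
      · exact e.2.2
    · obtain ⟨x, z, w⟩ := x
      simp [Sx, Fx] at hx
      have a : x ≠ z := fun e => hx.1.1 (e ▸ hx.2.1)
      have b : g • x ≠ z := fun e => a (by rw [← hx.1.2, e, hx.2.1])
      have c : x ≠ w := fun e => hx.1.1 (e ▸ hx.2.2.1)
      have d : g • x ≠ w := fun e => c (by rw [← hx.1.2, e, hx.2.2.1])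
      refine ⟨⟨![x, g • x, z, w], fun i j => ?_⟩, ?_, rfl⟩
      · fin_cases i <;> fin_cases j <;>
          simp [hx, Ne.symm hx.1.1, a, b, a.symm, b.symm, c, d, c.symm, d.symm, Ne.symm hx.2.2.2]
      · simp only [P, mem_filter, mem_univ, true_and, Fin.forall_fin_succ]
        exact ⟨rfl, hx.1.2, hx.2.1, hx.2.2.1, nofun⟩
  rw [this, card_product, offDiag_card, ← mul_add, Nat.sub_add_cancel (Nat.le_mul_self _), sq]

theorem P_four' (g : G) : #(P Ω (Equiv.swap (0 : Fin 4) 1 * Equiv.swap 2 3) g) + 2 * #(Sx Ω g) =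
    #(Sx Ω g) ^ 2 := by
  have : #(P Ω (Equiv.swap (0 : Fin 4) 1 * Equiv.swap 2 3) g) =
      #((Sx Ω g).sigma fun x => ((Sx Ω g).erase x).erase (g • x)) := by
    refine card_bij (fun t _ => ⟨t 0, t 2⟩) (fun t ht => ?_) (fun t ht u hu e => ?_)
      fun x hx => ?_
    · simp [P, Fin.forall_fin_succ, Equiv.swap_apply_def] at ht
      simp [Sx, ht]
    · simp [P, Fin.forall_fin_succ, Equiv.swap_apply_def] at ht hu e
      ext i; fin_cases i
      · exact e.1
      · exact ht.1.symm.trans (e.1 ▸ hu.1)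
      · exact e.2
      · exact ht.2.2.1.symm.trans (e.2 ▸ hu.2.2.1)
    · obtain ⟨x, z⟩ := x
      simp [Sx] at hx
      obtain ⟨⟨h1, h2⟩, h3, h4, h5, h6⟩ := hx
      have c : g • z ≠ x := fun e => h3 (by rw [← h6, e])
      refine ⟨⟨![x, g • x, z, g • z], fun i j => ?_⟩, ?_, rfl⟩
      · fin_cases i <;> fin_cases j <;>
          simp [h1, h3, h4, h5, c, Ne.symm h1, Ne.symm h3, Ne.symm h4, Ne.symm h5, c.symm]
      · simp only [P, mem_filter, mem_univ, true_and, Fin.forall_fin_succ]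
        exact ⟨rfl, h2, rfl, h6, nofun⟩
  rw [this, card_sigma, mul_comm, sq, ← smul_eq_mul, ← smul_eq_mul, ← sum_const, ← sum_const,
    ← sum_add_distrib]
  refine sum_congr rfl fun x hx => ?_
  have h := (mem_filter.1 hx).2
  rw [← card_erase_add_one hx, ← card_erase_add_one (s := (Sx Ω g).erase x) (a := g • x)
    (by simp [Sx, h, Ne.symm h.1])]

theorem pc (g : G) : permChar G Ω g = #(Fx Ω g) := by
  rw [permChar, ← Fintype.card_coe, ← Nat.card_eq_fintype_card]
  exact congrArg _ (Nat.card_congr (Equiv.subtypeEquivRight fun x => by simp [Fx]))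

theorem pc2 (g : G) : permChar G Ω (g * g) = #(Fx Ω g) + #(Sx Ω g) := by
  rw [pc, ← Nat.cast_add, ← card_union_of_disjoint (by
    simp only [Fx, Sx, disjoint_filter]; tauto)]
  congr 2
  ext x
  by_cases h : g • x = x <;> simp [Fx, Sx, mul_smul, h]

/-- the characters `(n-2,2)` and `(n-2,1,1)` -/
noncomputable def ch (Ω : Type*) [MulAction G Ω] [Fintype Ω] [DecidableEq Ω] (e : ℤ) (g : G) : ℂ :=
  2⁻¹ * (#(Fx Ω g) ^ 2 - 3 * #(Fx Ω g) + 1 - e + e * #(Sx Ω g))

theorem irr [Finite G] (h : IsMultiplyPretransitive G Ω 4) (hk : 4 ≤ Fintype.card Ω) {e : ℤ}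
    (he : e = 1 ∨ e = -1) : IsIrrCharacter G (ch Ω e) := by
  haveI := Fintype.ofFinite G
  have hπ := isCharacter_permChar' (G := G) Ω
  have m : ∀ {k} (_ : k ≤ 4) (σ : Equiv.Perm (Fin k)), ∑ g : G, (#(P Ω σ g) : ℂ) = Nat.card G :=
    fun hk' σ => by
      rw [← Nat.cast_sum, mom (isMultiplyPretransitive_of_le hk' (by simpa using hk))
        (hk'.trans hk), Nat.card_eq_fintype_card]
  refine H4.Cfsg.IsGeneralizedCharacter.isIrr_of_pos ?_ ?_ ?_
  · have hs := (hπ.sym_sq (s := e) (by rcases he with rfl | rfl <;> simp)).isGen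
    rcases he with rfl | rfl
    · convert hs.sub (hπ.isGen.add hπ.isGen) using 1
      ext g
      simp only [ch, Pi.sub_apply, Pi.add_apply, pc2, pc g]
      push_cast; ring
    · convert (hs.sub hπ.isGen).add isGen_one using 1
      ext g
      simp only [ch, Pi.sub_apply, Pi.add_apply, pc2, pc g]
      push_cast; ring
  · have e2 : (e : ℂ) ^ 2 = 1 := by rcases he with rfl | rfl <;> simp
    have key : ∀ g : G, ch Ω e g * conj (ch Ω e g) = 4⁻¹ * (#(P Ω (1 : Equiv.Perm (Fin 4)) g) +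
        (-2 * e) * #(P Ω (1 : Equiv.Perm (Fin 2)) g) + (4 * e) * #(P Ω (1 : Equiv.Perm (Fin 1)) g) +
        (2 - 2 * e) + (2 * e) * #(P Ω (Equiv.swap (0 : Fin 4) 1) g) +
        (-4 * e) * #(P Ω (Equiv.swap (0 : Fin 3) 1) g) +
        (2 * e) * #(P Ω (Equiv.swap (0 : Fin 2) 1) g) +
        #(P Ω (Equiv.swap (0 : Fin 4) 1 * Equiv.swap 2 3) g)) := fun g => by
      have a := congrArg (Nat.cast : ℕ → ℂ) (P_four (Ω := Ω) g)
      have b := congrArg (Nat.cast : ℕ → ℂ) (P_four' (Ω := Ω) g)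
      push_cast at a b
      simp only [P_one, P_two, P_three, ← descPochhammer_eval_eq_descFactorial, descPochhammer_succ_eval,
        descPochhammer_zero, Polynomial.eval_one, ch, map_mul, map_add, map_sub, map_pow,
        map_natCast, map_intCast, map_inv₀, map_ofNat, map_one]
      push_cast
      linear_combination (-2⁻¹ * e) * a - 4⁻¹ * b +
        (4⁻¹ * (1 - 2 * #(Sx Ω g) + #(Sx Ω g) ^ 2)) * e2
    have h0 : (Nat.card G : ℂ) ≠ 0 := Nat.cast_ne_zero.2 Nat.card_pos.ne'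
    simp only [classInner, key, ← mul_sum, sum_add_distrib, m le_rfl, m (by norm_num : 1 ≤ 4),
      m (by norm_num : 2 ≤ 4), m (by norm_num : 3 ≤ 4), sum_const, card_univ, nsmul_eq_mul,
      ← Nat.card_eq_fintype_card]
    field_simp
    ring
  · have a : #(Fx Ω (1 : G)) = Fintype.card Ω := by simp [Fx]
    have b : #(Sx Ω (1 : G)) = 0 := by simp [Sx]
    have : ch Ω e (1 : G) = ((2⁻¹ * (Fintype.card Ω ^ 2 - 3 * Fintype.card Ω + 1 - e) : ℝ) : ℂ) := by
      rw [ch, a, b]; push_cast; ring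
    rw [this, Complex.ofReal_re]
    have : (4 : ℝ) ≤ Fintype.card Ω := by exact_mod_cast hk
    rcases he with rfl | rfl <;> push_cast <;> nlinarith

theorem exists_alt {n : ℕ} (m : Multiset ℕ) (h1 : m.sum ≤ n) (h2 : ∀ a ∈ m, 2 ≤ a)
    (h3 : Even (m.sum + m.card)) : ∃ x : alternatingGroup (Fin n), x.1.cycleType = m ∧
      #(Fx (Fin n) x) = n - m.sum ∧ (2 ∉ m → #(Sx (Fin n) x) = 0) := by
  obtain ⟨g, rfl⟩ := (Equiv.Perm.exists_with_cycleType_iff (Fin n)).2 ⟨by simpa using h1, h2⟩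
  refine ⟨⟨g, by rw [Equiv.Perm.mem_alternatingGroup, Equiv.Perm.sign_of_cycleType,
    h3.neg_one_pow]⟩, rfl, ?_, fun h => ?_⟩
  · have := card_filter_add_card_filter_not (s := univ) fun p => g p = p
    rw [card_univ, Fintype.card_fin] at this
    exact (Nat.sub_eq_of_eq_add (this.symm.trans (congrArg₂ (· + ·) rfl (Equiv.Perm.sum_cycleType g).symm))).symm
  · rw [card_eq_zero, Sx, filter_eq_empty_iff]
    rintro x - ⟨a, b⟩
    change g x ≠ x at a
    change g (g x) = x at b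
    have hc := g.isCycle_cycleOf a
    have h4 : g.cycleOf x ^ 2 = 1 := hc.pow_eq_one_iff.2 ⟨x, by
      simpa using a, by rw [Equiv.Perm.cycleOf_pow_apply_self, sq]; exact b⟩
    have h5 := orderOf_eq_prime h4 hc.ne_one
    rw [hc.orderOf] at h5
    refine h ?_
    rw [Equiv.Perm.cycleType_def, Multiset.mem_map]
    exact ⟨g.cycleOf x, mem_def.1 (Equiv.Perm.cycleOf_mem_cycleFactorsFinset_iff.2
      (by simpa using a)), h5⟩

theorem main {n : ℕ} (hn : 7 ≤ n) {Q : alternatingGroup (Fin n) → Prop}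
    {x : alternatingGroup (Fin n)} (hx : Q x)
    (h : #(Fx (Fin n) x) = 1 ∨ #(Sx (Fin n) x) = 0 ∧ #(Fx (Fin n) x) ≤ 2) :
    ∃ χ : IrrCharacter (alternatingGroup (Fin n)),
      (∃ x, Q x ∧ (χ : alternatingGroup (Fin n) → ℂ) x = 0) ∧
      ∃ ψ : IrrCharacter (Equiv.Perm (Fin n)), ∀ x : alternatingGroup (Fin n),
        (ψ : Equiv.Perm (Fin n) → ℂ) x = (χ : alternatingGroup (Fin n) → ℂ) x := by
  have t : ∀ k ≤ 4, IsMultiplyPretransitive (alternatingGroup (Fin n)) (Fin n) k := fun k hk =>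
    haveI := alternatingGroup.isMultiplyPretransitive (Fin n)
    isMultiplyPretransitive_of_le (n := Nat.card (Fin n) - 2) (by simp; omega) (by simp)
  by_cases h1 : #(Fx (Fin n) x) = 1
  · haveI : Nontrivial (Fin n) := Fin.nontrivial_iff_two_le.2 (by omega)
    haveI := is_one_pretransitive_iff.1 (t 1 (by omega))
    exact ⟨⟨_, (isIrr_permChar_sub_one_iff (Fin n)).2 (t 2 (by omega))⟩, ⟨x, hx, by simp [pc, h1]⟩,
      ⟨_, (isIrr_permChar_sub_one_iff (Fin n)).2 (Equiv.Perm.isMultiplyPretransitive _ 2)⟩,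
      fun _ => rfl⟩
  obtain ⟨h2, h3⟩ := h.resolve_left h1
  obtain ⟨e, he, h0⟩ : ∃ e : ℤ, (e = 1 ∨ e = -1) ∧ ch (Fin n) e x = 0 := by
    by_cases h4 : #(Fx (Fin n) x) = 0
    · exact ⟨1, Or.inl rfl, by simp [ch, h2, h4]⟩
    · exact ⟨-1, Or.inr rfl, by
        simp only [ch, h2, show #(Fx (Fin n) x) = 2 by omega]; norm_num⟩
  exact ⟨⟨_, irr (t 4 le_rfl) (by simp; omega) he⟩, ⟨x, hx, h0⟩,
    ⟨_, irr (Equiv.Perm.isMultiplyPretransitive _ 4) (by simp; omega) he⟩, fun _ => rfl⟩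

theorem two {n : ℕ} (hn : 7 ≤ n) : ∃ x : alternatingGroup (Fin n), (∃ j : ℕ, orderOf x = 2 ^ j) ∧
    (#(Fx (Fin n) x) = 1 ∨ #(Sx (Fin n) x) = 0 ∧ #(Fx (Fin n) x) ≤ 2) := by
  have key : ∀ a b k : ℕ, (a = 2 ∨ a = 4) → (b = a ∨ b = 2 * a) → Even (b + k * a + (k + 1)) →
      b + k * a ≤ n → (n = b + k * a + 1 ∨ a = 4 ∧ n ≤ b + k * a + 2) →
      ∃ x : alternatingGroup (Fin n), (∃ j : ℕ, orderOf x = 2 ^ j) ∧
      (#(Fx (Fin n) x) = 1 ∨ #(Sx (Fin n) x) = 0 ∧ #(Fx (Fin n) x) ≤ 2) := by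
    intro a b k ha hb he hl h
    have mem : ∀ c ∈ b ::ₘ Multiset.replicate k a, c = b ∨ c = a := fun c hc =>
      (Multiset.mem_cons.1 hc).imp id Multiset.eq_of_mem_replicate
    obtain ⟨x, h1, h2, h3⟩ := exists_alt (n := n) (b ::ₘ Multiset.replicate k a) (by simpa using hl)
      (fun c hc => by have := mem c hc; omega) (by simpa using he)
    simp only [Multiset.sum_cons, Multiset.sum_replicate, smul_eq_mul] at h2
    refine ⟨x, ?_, h.imp (by omega) fun h => ⟨h3 fun hc => by have := mem 2 hc; omega, by omega⟩⟩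
    have : orderOf x ∣ 2 ^ 3 := by
      rw [← Subgroup.orderOf_coe, ← Equiv.Perm.lcm_cycleType, h1, Multiset.lcm_dvd]
      intro c hc
      rcases mem c hc with rfl | rfl <;> rcases ha with rfl | rfl <;> rcases hb with rfl | rfl <;>
        decide
    obtain ⟨j, -, hj⟩ := (Nat.dvd_prime_pow Nat.prime_two).1 this
    exact ⟨j, hj⟩
  rcases Nat.even_or_odd' n with ⟨m, rfl | rfl⟩
  · rcases Nat.even_or_odd' (m / 2) with ⟨k, hk | hk⟩
    · exact key 4 4 (2 * k - 1) (by omega) (by omega) (Nat.even_iff.2 (by omega)) (by omega)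
        (by omega)
    · exact key 4 8 (2 * k - 1) (by omega) (by omega) (Nat.even_iff.2 (by omega)) (by omega)
        (by omega)
  · rcases Nat.even_or_odd' m with ⟨k, rfl | rfl⟩
    · exact key 2 2 (2 * k - 1) (by omega) (by omega) (Nat.even_iff.2 (by omega)) (by omega)
        (by omega)
    · exact key 2 4 (2 * k - 1) (by omega) (by omega) (Nat.even_iff.2 (by omega)) (by omega)
        (by omega)

theorem three {n : ℕ} (hn : 7 ≤ n) : ∃ x : alternatingGroup (Fin n), orderOf x = 3 ∧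
    (#(Fx (Fin n) x) = 1 ∨ #(Sx (Fin n) x) = 0 ∧ #(Fx (Fin n) x) ≤ 2) := by
  obtain ⟨x, h1, h2, h3⟩ := exists_alt (n := n) (Multiset.replicate (n / 3) 3) (by simp; omega)
    (fun c hc => by have := Multiset.eq_of_mem_replicate hc; omega)
    (by simp [Nat.even_iff]; omega)
  simp only [Multiset.sum_replicate, smul_eq_mul] at h2
  refine ⟨x, ?_, Or.inr ⟨h3 fun hc => by have := Multiset.eq_of_mem_replicate hc; omega, by omega⟩⟩
  rw [← Subgroup.orderOf_coe, ← Equiv.Perm.lcm_cycleType, h1]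
  refine Nat.dvd_antisymm (Multiset.lcm_dvd.2 fun c hc => (Multiset.eq_of_mem_replicate hc).dvd)
    (Multiset.dvd_lcm (Multiset.mem_replicate.2 ⟨by omega, rfl⟩))

end Cfsg.Agent.H22.Fo
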