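import Cfsg.Agent.H3.Cocycle
import Cfsg.Agent.H3.PGroup1
import Cfsg.Agent.H11.Fus

/-! Sylow `2`-subgroups embedded in `GL₃(q)`. -/

set_option autoImplicit false
set_option linter.style.haveILetI false

namespace Cfsg.Agent.H22.G3

open Matrix Subgroup Finset Cfsg.Agent.H3

theorem transfer_ne {G A : Type*} [Group G] [Finite G] [CommGroup A] (S : Sylow 2 G)
    (φ : (S : Subgroup G) →* A) {j : G} (hj : j * j = 1) (hS : j ∈ (S : Subgroup G))
    (hN : ∀ g ∈ normalizer ((S : Subgroup G) : Set G), g * j * g⁻¹ = j) {a : A}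
    (h1 : φ ⟨j, hS⟩ = a) (ha : ∀ b : A, b * b = 1 → b = 1 ∨ b = a) (ha1 : a ≠ 1) :
    MonoidHom.transfer φ j ≠ 1 := by
  classical
  have := Fintype.ofFinite (G ⧸ (S : Subgroup G))
  have hc := isCocycle_tc φ
  rw [transfer_eq_prod_tc, ← prod_filter_mul_prod_filter_not univ fun y : G ⧸ (S : Subgroup G) => j • y = y]
  have e : ∀ y : G ⧸ (S : Subgroup G), j • j • y = y := fun y => by rw [smul_smul, hj, one_smul]
  rw [prod_involution (s := univ.filter fun y : G ⧸ (S : Subgroup G) => ¬ j • y = y) (fun y _ => j • y)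
    (fun y _ => by rw [mul_comm, ← hc, hj, hc.one]) (fun y hy _ => (mem_filter.1 hy).2)
    (fun y hy => mem_filter.2 ⟨mem_univ _, fun h => (mem_filter.1 hy).2 (h.symm.trans (e y))⟩)
    fun y _ => e y, mul_one]
  let Y : SubMulAction (S : Subgroup G) (G ⧸ (S : Subgroup G)) :=
    ⟨{y | j • y = y ∧ tc φ j y = a}, fun g y hy => by
      have h := hN g (le_normalizer g.2)
      refine ⟨?_, ?_⟩
      · change j • (g : G) • y = (g : G) • y
        rw [smul_smul, ← mul_inv_eq_iff_eq_mul.1 h, mul_smul, hy.1]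
      · have := hc.conj hy.1 g
        rw [h] at this
        exact this.trans hy.2⟩
  have e1 := S.2.card_modEq_card_fixedPoints Y
  have e2 := S.2.card_modEq_card_fixedPoints (G ⧸ (S : Subgroup G))
  have k : ∀ y ∈ MulAction.fixedPoints (S : Subgroup G) (G ⧸ (S : Subgroup G)), y ∈ Y := by
    intro y hy
    obtain ⟨t, rfl⟩ := QuotientGroup.mk_surjective y
    have ht : t⁻¹ ∈ normalizer ((S : Subgroup G) : Set G) := mem_normalizer_fintype fun g hg => by
      rw [inv_inv]; exact smul_coe_eq_iff.1 (hy ⟨g, hg⟩)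
    have e := hN _ ht
    rw [inv_inv] at e
    refine ⟨hy ⟨j, hS⟩, ?_⟩
    rw [tc_coe φ (e.symm ▸ hS), ← h1]
    exact congrArg φ (Subtype.ext e)
  have e3 : Nat.card (MulAction.fixedPoints (S : Subgroup G) Y) =
      Nat.card (MulAction.fixedPoints (S : Subgroup G) (G ⧸ (S : Subgroup G))) :=
    Nat.card_congr ⟨fun y => ⟨y.1.1, fun g => congrArg Subtype.val (y.2 g)⟩,
      fun y => ⟨⟨y.1, k _ y.2⟩, fun g => Subtype.ext (y.2 g)⟩, fun _ => rfl, fun _ => rfl⟩
  have e4 : ¬ 2 ∣ Nat.card Y := fun h => S.not_dvd_index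
    ((Nat.modEq_zero_iff_dvd).1 ((e2.trans (e3 ▸ e1.symm)).trans ((Nat.modEq_zero_iff_dvd).2 h)))
  have e5 : Nat.card Y = #((univ.filter fun y : G ⧸ (S : Subgroup G) => j • y = y).filter
      fun y => tc φ j y = a) := by
    rw [filter_filter, ← Fintype.card_subtype, ← Nat.card_eq_fintype_card]; rfl
  have haa : a * a = 1 := by
    rw [← h1, ← map_mul, ← map_one φ]; exact congrArg φ (Subtype.ext hj)
  rw [← prod_filter_mul_prod_filter_not _ fun y => tc φ j y = a,
    prod_congr rfl fun y hy => (mem_filter.1 hy).2, prod_const,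
    prod_eq_one fun y hy => (ha _ (by
      rw [← hc.mul_of_fixed (mem_filter.1 (mem_filter.1 hy).1).2, hj, hc.one])).resolve_right
        (mem_filter.1 hy).2, mul_one, ← e5]
  obtain ⟨n, hn⟩ := Nat.odd_iff.2 (Nat.two_dvd_ne_zero.1 e4)
  rwa [hn, pow_succ, pow_mul, sq, haa, one_pow, one_mul]

theorem transfer_eq {G A : Type*} [Group G] [Finite G] [CommGroup A] (S : Sylow 2 G)
    (hG : ∀ H : Subgroup G, H.index ≠ 2) (φ : (S : Subgroup G) →* A) (j : G) :
    MonoidHom.transfer φ j = 1 := by
  classical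
  have := Fintype.ofFinite (G ⧸ (S : Subgroup G))
  obtain ⟨n, hn⟩ := S.2.exists_card_eq
  refine (H11.no_index_two_iff.1 hG).ge.trans (pResidual_le_of_isPGroup_quotient
    (N := (MonoidHom.transfer φ).ker) fun g => ⟨n, ?_⟩) (mem_top j)
  obtain ⟨g, rfl⟩ := QuotientGroup.mk_surjective g
  rw [← QuotientGroup.mk_pow, QuotientGroup.eq_one_iff, MonoidHom.mem_ker, map_pow,
    transfer_eq_prod_tc, ← prod_pow]
  exact prod_eq_one fun y _ => by rw [tc, ← map_pow, ← hn, pow_card_eq_one', map_one]

variable {F : Type*} [Field F]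

/-- nontrivial involutions of determinant one -/
structure J (t : Matrix (Fin 3) (Fin 3) F) : Prop where
  sq : t * t = 1
  det : t.det = 1
  ne : t ≠ 1

theorem J.adj {t : Matrix (Fin 3) (Fin 3) F} (h : J t) : adjugate t = t := by
  rw [← mul_one (adjugate t), ← h.sq, ← mul_assoc, adjugate_mul, h.det, one_smul, one_mul]

theorem J.tr {t : Matrix (Fin 3) (Fin 3) F} (h : J t) : t.trace = -1 := by
  have h1 : t * t - t.trace • t + (adjugate t).trace • (1 : Matrix (Fin 3) (Fin 3) F) =
      adjugate t := by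
    ext i j
    fin_cases i <;> fin_cases j <;>
      simp [adjugate_fin_three, trace_fin_three, Matrix.mul_apply, Fin.sum_univ_three] <;> ring
  rw [h.adj, h.sq] at h1
  have h2 : (1 + t.trace) • (t - 1) = 0 := by
    rw [← sub_eq_zero.2 h1.symm]; module
  exact eq_neg_of_add_eq_zero_right ((smul_eq_zero.1 h2).resolve_right (sub_ne_zero.2 h.ne))

theorem J.sand {t : Matrix (Fin 3) (Fin 3) F} (h : J t) (x : Matrix (Fin 3) (Fin 3) F) :
    (1 + t) * x * (1 + t) = (x * (1 + t)).trace • (1 + t) := by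
  have h1 : adjugate (1 + t) = 1 + (t.trace • 1 - t) + adjugate t := by
    ext i j
    fin_cases i <;> fin_cases j <;>
      simp [adjugate_fin_three, trace_fin_three] <;> ring
  rw [h.adj, h.tr, show (1 : Matrix (Fin 3) (Fin 3) F) + ((-1 : F) • 1 - t) + t = 0 by module] at h1
  generalize 1 + t = Q at h1
  rw [adjugate_fin_three] at h1
  have a00 := congrFun (congrFun h1 0) 0
  have a01 := congrFun (congrFun h1 0) 1
  have a02 := congrFun (congrFun h1 0) 2
  have a10 := congrFun (congrFun h1 1) 0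
  have a11 := congrFun (congrFun h1 1) 1
  have a12 := congrFun (congrFun h1 1) 2
  have a20 := congrFun (congrFun h1 2) 0
  have a21 := congrFun (congrFun h1 2) 1
  have a22 := congrFun (congrFun h1 2) 2
  simp at a00 a01 a02 a10 a11 a12 a20 a21 a22
  have hm : ∀ i j k l, Q i k * Q l j = Q l k * Q i j := fun i j k l => by
    fin_cases i <;> fin_cases j <;> fin_cases k <;> fin_cases l <;> simp only [Fin.zero_eta,
      Fin.mk_one, Fin.reduceFinMk] <;> first
      | ring1 | linear_combination a00 | linear_combination -a00 | linear_combination a01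
      | linear_combination -a01 | linear_combination a02 | linear_combination -a02
      | linear_combination a10 | linear_combination -a10 | linear_combination a11
      | linear_combination -a11 | linear_combination a12 | linear_combination -a12
      | linear_combination a20 | linear_combination -a20 | linear_combination a21
      | linear_combination -a21 | linear_combination a22 | linear_combination -a22
  ext i j
  simp only [Matrix.mul_apply, Matrix.smul_apply, trace, diag_apply, smul_eq_mul, sum_mul]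
  rw [sum_comm]
  refine sum_congr rfl fun k _ => sum_congr rfl fun l _ => ?_
  rw [mul_right_comm, hm, mul_comm, mul_assoc]

theorem J.qq {t : Matrix (Fin 3) (Fin 3) F} (h : J t) : (1 + t) * (1 + t) = (2 : F) • (1 + t) := by
  rw [add_mul, mul_add, mul_add, h.sq, one_mul, one_mul, mul_one]; module

theorem J.mul_q {t x : Matrix (Fin 3) (Fin 3) F} (h : J t) (hc : Commute x t) :
    (2 : F) • (x * (1 + t)) = (x * (1 + t)).trace • (1 + t) := by
  rw [← h.sand, ← ((Commute.one_right x).add_right hc).eq, mul_assoc, h.qq, mul_smul_comm]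

theorem J.orth (h2 : (2 : F) ≠ 0) {s t : Matrix (Fin 3) (Fin 3) F} (hs : J s) (ht : J t)
    (hc : Commute s t) (hne : s ≠ t) : (1 + s) * (1 + t) = 0 := by
  have c := ((Commute.one_left (1 + t)).add_left ((Commute.one_right s).add_right hc)).eq
  have e1 := ht.mul_q ((Commute.one_left t).add_left hc)
  have e2 := hs.mul_q ((Commute.one_left s).add_left hc.symm)
  rw [← c, e1, ← sub_eq_zero, ← smul_sub, smul_eq_zero] at e2
  rcases e2 with e | e
  · rw [e, zero_smul] at e1
    exact (smul_eq_zero.1 e1).resolve_left h2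
  · exact (hne (add_left_cancel (sub_eq_zero.1 e)).symm).elim

theorem J.mul {s t : Matrix (Fin 3) (Fin 3) F} (hs : J s) (ht : J t) (hc : Commute s t)
    (hne : s ≠ t) : J (s * t) :=
  ⟨by rw [mul_assoc, ← mul_assoc t, ← hc.eq, mul_assoc, ht.sq, mul_one, hs.sq],
    by rw [det_mul, hs.det, ht.det, mul_one],
    fun e => hne (by rw [← mul_one s, ← ht.sq, ← mul_assoc, e, one_mul])⟩

theorem J.sum (h2 : (2 : F) ≠ 0) {s t : Matrix (Fin 3) (Fin 3) F} (hs : J s) (ht : J t)
    (hc : Commute s t) (hne : s ≠ t) : (1 + s) + (1 + t) + (1 + s * t) = (2 : F) • 1 := by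
  have := hs.orth h2 ht hc hne
  rw [add_mul, mul_add, mul_add, one_mul, one_mul, mul_one] at this
  rw [← add_zero ((2 : F) • (1 : Matrix (Fin 3) (Fin 3) F)), ← this]; module

theorem J.third (h2 : (2 : F) ≠ 0) {s t u : Matrix (Fin 3) (Fin 3) F} (hs : J s) (ht : J t)
    (hu : J u) (hc : Commute s t) (h1 : Commute u s) (h3 : Commute u t) (hne : s ≠ t)
    (n1 : u ≠ s) (n2 : u ≠ t) : u = s * t := by
  by_contra n3
  have := congrArg ((1 + u) * ·) (hs.sum h2 ht hc hne)
  simp only [mul_add (1 + u) (_ + _) (1 + s * t), mul_add (1 + u) (1 + s) (1 + t)] at this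
  rw [hu.orth h2 hs h1 n1, hu.orth h2 ht h3 n2,
    hu.orth h2 (hs.mul ht hc hne) (h1.mul_right h3) n3, add_zero, add_zero, mul_smul_comm, mul_one,
    eq_comm, smul_eq_zero] at this
  have := congrArg trace (this.resolve_left h2)
  rw [trace_add, hu.tr, trace_one, trace_zero] at this
  exact h2 (by simp at this; linear_combination this)

theorem J.comm (h2 : (2 : F) ≠ 0) {s t x y : Matrix (Fin 3) (Fin 3) F} (hs : J s) (ht : J t)
    (hc : Commute s t) (hne : s ≠ t) (x1 : Commute x s) (x2 : Commute x t) (y1 : Commute y s)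
    (y2 : Commute y t) : Commute x y := by
  have e : (2 : F) • (2 : F) • x = (x * (1 + s)).trace • (1 + s) + (x * (1 + t)).trace • (1 + t) +
      (x * (1 + s * t)).trace • (1 + s * t) := by
    rw [← hs.mul_q x1, ← ht.mul_q x2, ← (hs.mul ht hc hne).mul_q (x1.mul_right x2), ← smul_add,
      ← smul_add, ← mul_add, ← mul_add, hs.sum h2 ht hc hne, mul_smul_comm, mul_one]
  have o := Commute.one_left y
  have : Commute ((2 : F) • (2 : F) • x) y := by
    rw [e]
    exact (((o.add_left y1.symm).smul_left _).add_left ((o.add_left y2.symm).smul_left _)).add_left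
      ((o.add_left (y1.mul_right y2).symm).smul_left _)
  have := (this.smul_left (2 : F)⁻¹).smul_left (2 : F)⁻¹
  rwa [inv_smul_smul₀ h2, inv_smul_smul₀ h2] at this

end Cfsg.Agent.H22.G3
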