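import Cfsg.Agent.H22.GL3
import Cfsg.Agent.H27.GL2c

/-! Sylow `2`-subgroups embedded in `GL₃(q)`, conclusion. -/

set_option autoImplicit false
set_option linter.style.haveILetI false

namespace Cfsg.Agent.H22.G3

open Matrix Subgroup Finset Cfsg.Agent.H3

variable {F : Type*} [Field F] {X : Type*} [Group X] (ρ : X →* Matrix (Fin 3) (Fin 3) F)

/-- normalization to determinant one -/
def nm (x : X) : Matrix (Fin 3) (Fin 3) F := (ρ x).det • ρ x

variable {ρ}

theorem det_cases {x : X} (h : x * x = 1) : (ρ x).det = 1 ∨ (ρ x).det = -1 :=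
  mul_self_eq_one_iff.1 (by rw [← det_mul, ← map_mul, h, map_one, det_one])

theorem nm_cases {x : X} (h : x * x = 1) : nm ρ x = ρ x ∨ nm ρ x = -ρ x := by
  rcases det_cases (ρ := ρ) h with e | e <;> simp [nm, e]

theorem nm_mul (x y : X) : nm ρ (x * y) = nm ρ x * nm ρ y := by
  rw [nm, nm, nm, map_mul, det_mul, smul_mul_smul_comm]

theorem nm_J {x : X} (h : x * x = 1) (h1 : ρ x ≠ 1) (h2 : ρ x ≠ -1) : J (nm ρ x) := by
  refine ⟨by rw [← nm_mul, h, nm, map_one, det_one, one_smul], ?_, ?_⟩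
  · rw [nm, det_smul]
    rcases det_cases (ρ := ρ) h with e | e <;> rw [e] <;> norm_num
  · rcases nm_cases (ρ := ρ) h with e | e <;> rw [e]
    · exact h1
    · exact fun e' => h2 (neg_eq_iff_eq_neg.1 e')

theorem nm_comm {x y : X} (h : x * y = y * x) : Commute (ρ x) (nm ρ y) :=
  Commute.smul_right (by rw [Commute, SemiconjBy, ← map_mul, h, map_mul]) _

theorem neg_mem (h2 : (2 : F) ≠ 0) (hρ : Function.Injective ρ) (E : Subgroup X)
    (hE : ∀ x ∈ E, x * x = 1) (hc : ∀ x ∈ E, ∀ y ∈ E, x * y = y * x) (h8 : Nat.card E = 8) :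
    ∃ m ∈ E, ρ m = -1 := by
  classical
  by_contra hh
  push Not at hh
  have hJ : ∀ x ∈ E, x ≠ 1 → J (nm ρ x) := fun x hx h1 =>
    nm_J (hE x hx) (fun e => h1 (hρ (e.trans (map_one ρ).symm))) (hh x hx)
  have inj : ∀ x ∈ E, ∀ y ∈ E, nm ρ x = nm ρ y → x = y := fun x hx y hy e => by
    by_contra hn
    refine (hJ (x * y) (E.mul_mem hx hy) fun e' => hn ?_).ne ?_
    · rw [← mul_one x, ← hE y hy, ← mul_assoc, e', one_mul]
    · rw [nm_mul, e, ← nm_mul, hE y hy, nm, map_one, det_one, one_smul]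
  have big : ∀ s : Finset X, s.card ≤ 4 → ∃ x ∈ E, x ∉ s := fun s hs => by
    by_contra h
    push Not at h
    have := Nat.card_le_card_of_injective (fun x : E => (⟨x, h x x.2⟩ : s))
      fun a b e => Subtype.ext (congrArg (fun u : s => u.1) e)
    rw [h8, Nat.card_eq_fintype_card, Fintype.card_coe] at this
    omega
  obtain ⟨a, ha, a1⟩ := big {1} (by simp)
  obtain ⟨b, hb, b1⟩ := big {1, a} (card_le_two.trans (by norm_num))
  obtain ⟨c, hc', c1⟩ := big {1, a, b, a * b} card_le_four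
  simp only [Finset.mem_insert, Finset.mem_singleton, not_or] at a1 b1 c1
  have k : ∀ x ∈ E, ∀ y ∈ E, Commute (nm ρ x) (nm ρ y) := fun x hx y hy =>
    (nm_comm (hc x hx y hy)).smul_left _
  refine c1.2.2.2 (inj _ hc' _ (E.mul_mem ha hb) ?_)
  rw [nm_mul]
  exact (hJ a ha a1).third h2 (hJ b hb b1.1) (hJ c hc' c1.1) (k a ha b hb) (k c hc' a ha)
    (k c hc' b hb) (fun e => b1.2 (inj _ ha _ hb e).symm) (fun e => c1.2.1 (inj _ hc' _ ha e))
    fun e => c1.2.2.1 (inj _ hc' _ hb e)

theorem main {G : Type*} [Group G] [Finite G] (hG : ∀ H : Subgroup G, H.index ≠ 2) (X : Sylow 2 G)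
    [Fintype F] (hF : Odd (Fintype.card F)) (f : (X : Subgroup G) →* GL (Fin 3) F)
    (hf : Function.Injective f) (E : Subgroup G) (hE : E ≤ (X : Subgroup G))
    (hEa : IsElementaryAbelian 2 E) (hE8 : Nat.card E = 8) :
    IsMulCommutative (X : Subgroup G) := by
  have h2 : (2 : F) ≠ 0 := H27.two_ne_zero_iff_odd.2 hF
  let ρ : (X : Subgroup G) →* Matrix (Fin 3) (Fin 3) F := (Units.coeHom _).comp f
  have hρ : Function.Injective ρ := Units.val_injective.comp hf
  obtain ⟨m, -, hm⟩ := neg_mem h2 hρ (E.subgroupOf X)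
    (fun x hx => Subtype.ext (by simpa [sq] using hEa.2 x hx))
    (fun x hx y hy => Subtype.ext (congrArg (fun u : E => (u : G))
      (hEa.1.is_comm.comm (⟨x, hx⟩ : E) ⟨y, hy⟩)))
    (by rw [Nat.card_congr (subgroupOfEquivOfLe hE).toEquiv, hE8])
  have n11 : (-1 : Matrix (Fin 3) (Fin 3) F) ≠ 1 := fun e => h2 (by
    have := congrFun (congrFun e 0) 0
    simp at this
    linear_combination -this)
  have dm : (-1 : Matrix (Fin 3) (Fin 3) F).det = -1 := by simp [det_neg]; norm_num
  have n1 : (-1 : F) ≠ 1 := fun e => h2 (by linear_combination -e)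
  have mm : m * m = 1 := hρ (by rw [map_mul, hm, map_one]; simp)
  have mc : ∀ x, x * m = m * x := fun x => hρ (by rw [map_mul, map_mul, hm]; simp)
  by_contra hna
  obtain ⟨z, ⟨hz1, hz2⟩, zz, z1⟩ : ∃ z ∈ commutator (X : Subgroup G) ⊓ center (X : Subgroup G),
      z * z = 1 ∧ z ≠ 1 := by
    have := inf_center_ne_bot X.2.isNilpotent (commutator (X : Subgroup G)) fun h =>
      hna ⟨⟨fun a b => (commutator_eq_bot_iff_le_centralizer.1 h (mem_top b) a (mem_top a))⟩⟩
    haveI := (nontrivial_iff_ne_bot _).2 this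
    obtain ⟨n, hn, e⟩ := (X.2.to_subgroup (commutator (X : Subgroup G) ⊓ center _)).nontrivial_iff_card.1
      inferInstance
    obtain ⟨u, hu⟩ := exists_prime_orderOf_dvd_card' (G := ↥(commutator (X : Subgroup G) ⊓ center _)) 2
      (e ▸ dvd_pow_self 2 hn.ne')
    rw [← orderOf_coe] at hu
    exact ⟨u, u.2, by rw [← sq]; exact orderOf_dvd_iff_pow_eq_one.1 hu.dvd, fun e => by
      simp [e] at hu⟩
  have dc : ∀ u ∈ commutator (X : Subgroup G), (ρ u).det = 1 := fun u hu =>
    congrArg Units.val (Abelianization.commutator_subset_ker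
      (Matrix.GeneralLinearGroup.det.comp f) hu)
  have zJ : J (nm ρ z) := nm_J zz (fun e => z1 (hρ (e.trans (map_one ρ).symm))) fun e =>
    n1 (by rw [← dm, ← e, dc z hz1])
  have zn : nm ρ z = ρ z := by rw [nm, dc z hz1, one_smul]
  have cen : ∀ u ∈ center (X : Subgroup G), u * u = 1 → u ≠ 1 → u ≠ m → nm ρ u = ρ z := by
    intro u hu uu u1 um
    by_contra hn
    have uJ : J (nm ρ u) := nm_J uu (fun e => u1 (hρ (e.trans (map_one ρ).symm))) fun e =>
      um (hρ (e.trans hm.symm))
    refine hna ⟨⟨fun a b => hρ ?_⟩⟩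
    rw [map_mul, map_mul]
    exact uJ.comm h2 zJ ((nm_comm (mem_center_iff.1 hz2 u)).smul_left _) (zn ▸ hn)
      (nm_comm (mem_center_iff.1 hu a)) (nm_comm (mem_center_iff.1 hz2 a))
      (nm_comm (mem_center_iff.1 hu b)) (nm_comm (mem_center_iff.1 hz2 b))
  have zm : z ≠ m := fun e => n1 (by rw [← dm, ← hm, ← e, dc z hz1])
  have m1 : m ≠ 1 := fun e => n11 (by rw [← hm, e, map_one])
  have aut : ∀ α : MulAut (X : Subgroup G), α z = z ∧ (α m = m ∨ α m = m * z) := fun α => by
    have c1 : ∀ u ∈ center (X : Subgroup G), α u ∈ center (X : Subgroup G) := fun u hu =>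
      mem_center_iff.2 fun g => by
        obtain ⟨g, rfl⟩ := α.surjective g
        rw [← map_mul, ← map_mul, mem_center_iff.1 hu]
    have c2 : α z ∈ commutator (X : Subgroup G) :=
      (characteristic_iff_le_comap.1 inferInstance α) hz1
    have e1 : α z = z := by
      have := cen _ (c1 z hz2) (by rw [← map_mul, zz, map_one]) (by simpa using z1) fun e =>
        n1 (by rw [← dm, ← hm, ← e, dc _ c2])
      rw [nm, dc _ c2, one_smul] at this
      exact hρ this
    refine ⟨e1, or_iff_not_imp_left.2 fun hn => hρ ?_⟩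
    have mm' : α m * α m = 1 := by rw [← map_mul, mm, map_one]
    have := cen _ (c1 m (mem_center_iff.2 mc)) mm' (by simpa using m1) hn
    rcases nm_cases (ρ := ρ) mm' with e | e <;> rw [e] at this
    · exact (zm (α.injective (e1.trans (hρ this).symm))).elim
    · rw [map_mul, hm, ← this]; simp
  refine transfer_ne X (Matrix.GeneralLinearGroup.det.comp f) (j := m) (congrArg Subtype.val mm) m.2
    (fun g hg => ?_) (a := -1) (Units.ext (by
      change (ρ m).det = _
      rw [hm, dm]; rfl)) (fun b hb => ?_) (fun e => n1 (congrArg Units.val e))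
    (transfer_eq X hG _ _)
  · let N := normalizer ((X : Subgroup G) : Set G)
    let α := (X : Subgroup G).normalizerMonoidHom ⟨g, hg⟩
    have e0 : ((α m : (X : Subgroup G)) : G) = g * m * g⁻¹ := rfl
    rw [← e0]
    congr 1
    rcases (aut α).2 with e | e
    · exact e
    obtain ⟨n, hn⟩ : Odd ((X : Subgroup G).subgroupOf N).index := by
      rw [← Nat.not_even_iff_odd, even_iff_two_dvd]
      exact fun h => X.not_dvd_index (h.trans (relIndex_dvd_index_of_le le_normalizer))
    have h3 : ((⟨g, hg⟩ : N) ^ (2 * n + 1)).1 ∈ (X : Subgroup G) :=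
      hn ▸ pow_index_mem ((X : Subgroup G).subgroupOf N) ⟨g, hg⟩
    have h4 : (α ^ (2 * n + 1)) m = m := by
      rw [← map_pow]
      exact Subtype.ext (mul_inv_eq_iff_eq_mul.2 (congrArg Subtype.val (mc ⟨_, h3⟩)))
    have h5 : (α ^ 2) m = m := by
      rw [sq, MulAut.mul_apply, e, map_mul, e, (aut α).1, mul_assoc, zz, mul_one]
    have h6 : ∀ k, ((α ^ 2) ^ k) m = m := fun k => by
      induction k with
      | zero => rfl
      | succ k ih => rw [pow_succ, MulAut.mul_apply, h5, ih]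
    rwa [pow_succ', pow_mul, MulAut.mul_apply, h6] at h4
  · rcases mul_self_eq_one_iff.1 (congrArg Units.val hb : (b : F) * b = 1) with e | e
    · exact Or.inl (Units.ext e)
    · exact Or.inr (Units.ext e)

end Cfsg.Agent.H22.G3
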