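import Cfsg.Agent.H22.Kul1
import Cfsg.Agent.H10.Basic

/-! Reduction of the count of `p`-subgroups modulo `p²` to a Sylow subgroup. -/

set_option autoImplicit false
set_option linter.style.haveILetI false

namespace Cfsg.Agent.H22K

open Subgroup Cfsg.Agent.H20 Cfsg.Agent.H21

variable {G : Type*} [Group G] [Finite G] {p : ℕ} [hp : Fact p.Prime]

omit hp in
theorem dvd_cnt_of_orbits {P : Subgroup G} {n : ℕ} (Q : Subgroup G → Prop)
    (hQ : ∀ g ∈ P, ∀ H, Q H → Q (cj g H)) (h : ∀ H, Q H → n ∣ (normalizer (H : Set G)).relIndex P) :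
    (n : ℤ) ∣ cnt Q := by
  letI : MulAction P {H : Subgroup G // Q H} :=
    { smul := fun g H => ⟨cj g.1 H.1, hQ g g.2 _ H.2⟩
      one_smul := fun H => Subtype.ext (cj_one _)
      mul_smul := fun g h H => Subtype.ext (cj_mul _ _ _) }
  rw [cnt, Int.natCast_dvd_natCast, Nat.card_congr (MulAction.selfEquivSigmaOrbits P _)]
  haveI := Fintype.ofFinite (MulAction.orbitRel.Quotient P {H : Subgroup G // Q H})
  rw [Nat.card_sigma]
  refine Finset.dvd_sum fun ω _ => ?_
  rw [Nat.card_coe_set_eq, ← MulAction.index_stabilizer]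
  have : MulAction.stabilizer P ω.out = (normalizer (ω.out.1 : Set G)).subgroupOf P := by
    ext g
    rw [MulAction.mem_stabilizer_iff, mem_subgroupOf, mem_norm_iff_cj, Subtype.ext_iff]; rfl
  rw [this]
  exact h _ ω.out.2

theorem cnt_norm {P : Subgroup G} (hP : IsPGroup p P) (Q : Subgroup G → Prop)
    (hQ : ∀ g ∈ P, ∀ H, Q H → Q (cj g H)) :
    cnt Q ≡ cnt fun H => P ≤ normalizer (H : Set G) ∧ Q H [ZMOD p] :=
  Int.natCast_modEq_iff.2 (H25.card_modEq_norm hP Q hQ)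

theorem sq_dvd_sum [Fintype (Subgroup G)] {P : Subgroup G} (hP : IsPGroup p P) (F : Subgroup G → ℤ)
    (h1 : ∀ g ∈ P, ∀ K, F (cj g K) = F K) (h2 : ∀ K, (p : ℤ) ∣ F K)
    (h3 : ∀ K : Subgroup G, P ≤ normalizer (K : Set G) → F K = 0) : (p : ℤ) ^ 2 ∣ ∑ K, F K := by
  classical
  rw [show ∑ K, F K = ∑ K, id (F K) from rfl, Finset.sum_comp id F]
  refine Finset.dvd_sum fun v hv => ?_
  obtain ⟨K, -, rfl⟩ := Finset.mem_image.1 hv
  by_cases h0 : F K = 0
  · simp [h0]
  rw [nsmul_eq_mul, sq]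
  refine mul_dvd_mul ?_ (h2 K)
  have := cnt_norm hP (fun H => F H = F K) fun g hg H e => (h1 g hg H).trans e
  rw [cnt_zero (P := fun H => P ≤ normalizer (H : Set G) ∧ F H = F K)
    fun H a => h0 (a.2.symm.trans (h3 H a.1)), cnt, Nat.card_eq_fintype_card, Fintype.card_subtype] at this
  exact Int.modEq_zero_iff_dvd.1 this

omit hp in
theorem cnt_fiber [Fintype (Subgroup G)] (Q : Subgroup G → Prop) (f : Subgroup G → Subgroup G) :
    cnt Q = ∑ K, cnt fun H => Q H ∧ f H = K := by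
  classical
  simp only [cnt_eq]
  rw [Finset.sum_comm]
  refine Finset.sum_congr rfl fun H _ => ?_
  by_cases a : Q H <;> simp [a]

omit [Finite G] hp in
theorem cnt_cj (g : G) (Q : Subgroup G → Prop) : cnt (fun H => Q (cj g H)) = cnt Q :=
  congrArg (Nat.cast : ℕ → ℤ) (Nat.card_congr ⟨fun H => ⟨cj g H.1, H.2⟩, fun H => ⟨cj g⁻¹ H.1, by simpa using H.2⟩,
    fun H => Subtype.ext (by simp), fun H => Subtype.ext (by simp)⟩)

theorem red (P : Sylow p G) {a : ℕ} (ha : p ^ (a + 1) ∣ Nat.card P) :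
    cnt (fun H : Subgroup G => Nat.card H = p ^ a) ≡
      cnt fun H : Subgroup P => Nat.card H = p ^ a [ZMOD p ^ 2] := by
  classical
  haveI := Fintype.ofFinite (Subgroup G)
  obtain ⟨n, hn⟩ := P.isPGroup'.exists_card_eq
  have han : a + 1 ≤ n := (Nat.pow_dvd_pow_iff_le_right hp.out.one_lt).1 (hn ▸ ha)
  obtain ⟨n, rfl⟩ : ∃ m, n = m + 1 := ⟨n - 1, by omega⟩
  have nle : ∀ K : Subgroup G, IsPGroup p K → (P : Subgroup G) ≤ normalizer (K : Set G) → K ≤ P :=
    fun K hK h => le_sup_left.trans (P.is_maximal' (hK.to_sup_of_normal_left' P.isPGroup' h)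
      le_sup_right).le
  let X : Subgroup G → Prop := fun H => Nat.card H = p ^ a ∧ ¬ H ≤ P
  let r : Subgroup G → ℕ := fun H => (normalizer (H : Set G)).relIndex P
  have hX : ∀ g ∈ (P : Subgroup G), ∀ H, X (cj g H) ↔ X H := fun g hg H => by
    simp only [X, card_cj, cj_le_iff_of_mem hg]
  have hr : ∀ g ∈ (P : Subgroup G), ∀ H, r (cj g H) = r H := fun g hg H => by
    simp only [r]
    rw [← cj_norm, ← relIndex_cj g (normalizer (H : Set G)), cj_eq_of_mem hg]
  rw [cnt_split _ (· ≤ (P : Subgroup G)), ← cnt_under, cnt_congr fun H => and_comm]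
  refine (Int.modEq_iff_dvd.2 ?_).symm
  rw [add_sub_cancel_left, cnt_split X (r · = p)]
  refine dvd_add ?_ ?_
  swap
  · have := dvd_cnt_of_orbits (P := P) (n := p ^ 2) (fun H => X H ∧ ¬ r H = p)
      (fun g hg H h => by rwa [hX g hg, hr g hg]) fun H h => by
        obtain ⟨e, he⟩ := P.isPGroup'.index ((normalizer (H : Set G)).subgroupOf P)
        refine (pow_dvd_pow p ?_).trans (Eq.dvd he.symm)
        by_contra h2
        obtain rfl | rfl : e = 0 ∨ e = 1 := by omega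
        · exact h.1.2 (nle H (IsPGroup.of_card h.1.1) (relIndex_eq_one.1 he))
        · exact h.2 (he.trans (pow_one p))
    exact_mod_cast this
  rw [cnt_fiber _ fun H => H ⊔ P ⊓ normalizer (H : Set G)]
  have pK : ∀ H, X H → IsPGroup p ↥(H ⊔ P ⊓ normalizer (H : Set G)) := fun H h =>
    (IsPGroup.of_card h.1).to_sup_of_normal_left' (P.isPGroup'.to_le inf_le_left) inf_le_right
  refine sq_dvd_sum P.isPGroup' _ (fun g hg K => ?_) (fun K => ?_) fun K hK => cnt_zero ?_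
  · rw [← cnt_cj g]
    refine cnt_congr fun H => ?_
    rw [hX g hg, hr g hg, ← cj_norm, ← cj_inj (g := g) (B := K), cj_sup, cj_inf, cj_eq_of_mem hg]
  swap
  · rintro H ⟨h, rfl⟩
    exact h.1.2 (le_sup_left.trans (nle _ (pK H h.1) hK))
  by_cases h0 : ∃ H, (X H ∧ r H = p) ∧ H ⊔ P ⊓ normalizer (H : Set G) = K
  swap
  · rw [cnt_zero fun H h => h0 ⟨H, h⟩]; exact dvd_zero _
  have cM : ∀ H, r H = p → Nat.card ↥((P : Subgroup G) ⊓ normalizer (H : Set G)) = p ^ n := fun H h => by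
    have := (card_of_index hn).1 (show ((normalizer (H : Set G)).subgroupOf P).index = p from h)
    rwa [← inf_subgroupOf_right, H1.card_subgroupOf_of_le inf_le_right, inf_comm] at this
  have step1 : ∀ M K : Subgroup G, Nat.card M = p ^ n → IsPGroup p K → M < K →
      Nat.card K = p ^ (n + 1) := fun M K h1 h2 h3 => by
    obtain ⟨Q, hQ⟩ := h2.exists_le_sylow
    have := H9.mul_card_le_of_lt_of_isPGroup h2 h3
    have h4 := card_le_of_le hQ
    rw [Q.card_eq_multiplicity, ← P.card_eq_multiplicity, hn] at h4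
    rw [h1, ← pow_succ'] at this
    exact le_antisymm h4 this
  obtain ⟨H₀, ⟨h1, h2⟩, rfl⟩ := h0
  set M := (P : Subgroup G) ⊓ normalizer (H₀ : Set G)
  set K := H₀ ⊔ M
  have hK := pK H₀ h1
  have lt : M < K := lt_of_le_not_ge le_sup_right fun c => h1.2 (le_sup_left.trans (c.trans inf_le_left))
  have cK := step1 M K (cM _ h2) hK lt
  have mid : ∀ {A B C : Subgroup G}, Nat.card A = p ^ n → Nat.card C = p ^ (n + 1) → A ≤ B → B < C →
      A = B := fun h1 h2 h3 h4 =>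
    H9.eq_of_le_of_lt_of_card (IsPGroup.of_card h2) h3 h4 (by rw [h1, h2, pow_succ'])
  have KP : M = K ⊓ P := mid (cM _ h2) cK (le_inf le_sup_right inf_le_left)
    (lt_of_le_not_ge inf_le_left fun c => h1.2 (le_sup_left.trans (c.trans inf_le_right)))
  have nM : K ≤ normalizer (M : Set G) := by
    refine (normal_subgroupOf_iff_le_normalizer lt.le).1
      (normal_of_frattini_le hK (frattini_le_of_index hK ((card_of_index cK).2 ?_)))
    rw [H1.card_subgroupOf_of_le lt.le, cM _ h2]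
  have e1 := cnt_norm hK (fun H => H ≤ K ∧ Nat.card H = p ^ a) fun g hg H h =>
    ⟨(cj_le_iff_of_mem hg).2 h.1, (card_cj g H).trans h.2⟩
  have e2 := cnt_norm hK (fun H => H ≤ M ∧ Nat.card H = p ^ a) fun g hg H h =>
    ⟨(cj_le_iff_of_mem_norm (nM hg)).2 h.1, (card_cj g H).trans h.2⟩
  rw [cnt_under] at e1 e2
  have e3 := ((cnt_sub a (cK ▸ pow_dvd_pow p (by omega))).symm.trans e1).symm.trans
    ((cnt_sub a (cM _ h2 ▸ pow_dvd_pow p (by omega))).symm.trans e2)
  rw [cnt_split _ (· ≤ M), cnt_congr (Q := fun H => K ≤ normalizer (H : Set G) ∧ H ≤ M ∧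
    Nat.card H = p ^ a) fun H => ⟨fun h => ⟨h.1.1, h.2, h.1.2.2⟩,
      fun h => ⟨⟨h.1, h.2.1.trans lt.le, h.2.2⟩, h.2.1⟩⟩] at e3
  have e4 := e3.symm.dvd
  rw [add_sub_cancel_left] at e4
  refine e4.trans (Eq.dvd (cnt_congr fun H => ⟨fun h => ?_, fun h => ?_⟩))
  · obtain ⟨⟨a1, a2, a3⟩, a4⟩ := h
    have b1 : ¬ H ≤ P := fun c => a4 (KP ▸ le_inf a2 c)
    have b2 : M = (P : Subgroup G) ⊓ normalizer (H : Set G) := mid (cM _ h2) hn (le_inf inf_le_left (lt.le.trans a1))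
      (lt_of_le_not_ge inf_le_left fun c => b1 (nle H (IsPGroup.of_card a3) (c.trans inf_le_right)))
    refine ⟨⟨⟨a3, b1⟩, (card_of_index hn).2 ?_⟩, ?_⟩
    · rw [← inf_subgroupOf_right, H1.card_subgroupOf_of_le inf_le_right, inf_comm, ← b2, cM _ h2]
    · rw [← b2]
      by_contra c
      exact a4 (le_sup_left.trans (mid (cM _ h2) cK le_sup_right
        (lt_of_le_of_ne (sup_le a2 lt.le) c)).ge)
  · obtain ⟨⟨a1, -⟩, a3⟩ := h
    exact ⟨⟨a3.ge.trans (sup_le le_normalizer inf_le_right), le_sup_left.trans a3.le, a1.1⟩,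
      fun c => a1.2 (c.trans inf_le_left)⟩

theorem hall {a : ℕ} (ha : p ^ (a + 1) ∣ Nat.card G) :
    cnt (fun H : Subgroup G => Nat.card H = p ^ a) ≡ 1 [ZMOD p ^ 2] ∨
      cnt (fun H : Subgroup G => Nat.card H = p ^ a) ≡ 1 + p [ZMOD p ^ 2] := by
  by_cases h2 : p = 2
  · have := cnt_sub (G := G) a ((pow_dvd_pow p a.le_succ).trans ha)
    subst h2
    simp only [Int.ModEq] at this ⊢
    omega
  obtain ⟨P⟩ : Nonempty (Sylow p G) := inferInstance
  have hP : p ^ (a + 1) ∣ Nat.card P := P.pow_dvd_card_of_pow_dvd_card ha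
  have h := red P hP
  by_cases hc : IsCyclic P
  · rw [cnt_cyc ((pow_dvd_pow p a.le_succ).trans hP)] at h
    exact Or.inl h
  rcases a with _ | a
  · rw [cnt_one (K := ⊥) fun H => by simp]; exact Or.inl rfl
  obtain ⟨n, hn⟩ := P.isPGroup'.exists_card_eq
  exact Or.inr (h.trans (kul_odd h2 (by omega) n P hn hc
    ((Nat.pow_dvd_pow_iff_le_right hp.out.one_lt).1 (hn ▸ hP))))

end Cfsg.Agent.H22K
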