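import Cfsg.Agent.H22.Kul1
import Cfsg.Agent.S0113
import Cfsg.Agent.S0115

/-! Kulakoff's theorem for `2`-groups. -/

set_option autoImplicit false
set_option linter.style.haveILetI false

namespace Cfsg.Agent.H22K

open Subgroup
open scoped commutatorElement

/-- `2`-groups of maximal class -/
def MC (X : Type*) [Group X] : Prop := ¬ IsMulCommutative X ∧ (commutator X).index = 4

variable {G : Type*} [Group G]

/-- a cyclic subgroup of index two -/
structure Cy (a : G) (i : ℤ) : Prop where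
  idx : (zpowers a).index = 2
  cj : ∀ y, y ∉ zpowers a → y * a * y⁻¹ = a ^ i

theorem exists_not_mem {C : Subgroup G} (h : C.index = 2) : ∃ b, b ∉ C := by
  by_contra! h0
  rw [(eq_top_iff' _).2 h0, index_top] at h
  exact absurd h (by decide)

theorem mul_mem_two {C : Subgroup G} (h : C.index = 2) {x y : G} (hx : x ∉ C) (hy : y ∉ C) :
    x * y ∈ C := (mul_mem_iff_of_index_two h).2 (by simp [hx, hy])

theorem exists_Cy {a : G} (h : (zpowers a).index = 2) : ∃ i, Cy a i := by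
  haveI := normal_of_index_eq_two h
  obtain ⟨b, hb⟩ := exists_not_mem h
  obtain ⟨i, hi⟩ := this.conj_mem a (mem_zpowers a) b
  refine ⟨i, h, fun y hy => ?_⟩
  obtain ⟨t, ht⟩ := mul_mem_two h (mt inv_mem_iff.1 hb) hy
  have : y = b * a ^ t := by simp only at ht; rw [ht]; group
  rw [this]; simp only at hi; rw [hi]; group

theorem mem_zp_odd {x : G} {n : ℕ} (h : x ^ 2 ^ n = 1) {u : ℤ} (hu : Odd u) : x ∈ zpowers (x ^ u) := by
  obtain ⟨s, t, e⟩ : IsCoprime u (2 ^ n) := (Int.isCoprime_two_right.2 hu).pow_right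
  refine ⟨s, ?_⟩
  calc (x ^ u) ^ s = x ^ (s * u) * (x ^ 2 ^ n) ^ t := by rw [h, ← zpow_mul, mul_comm s]; simp
    _ = x ^ (s * u + t * 2 ^ n) := by rw [← zpow_natCast, ← zpow_mul, ← zpow_add]; push_cast; ring_nf
    _ = x := by rw [e, zpow_one]

namespace Cy

variable {a : G} {i : ℤ} (h : Cy a i)
include h

theorem cjz {y : G} (hy : y ∉ zpowers a) (t : ℤ) : y * a ^ t * y⁻¹ = a ^ (i * t) := by
  rw [← conj_zpow, h.cj y hy, zpow_mul]

theorem rep {b : G} (hb : b ∉ zpowers a) (x : G) : ∃ t : ℤ, x = a ^ t ∨ x = a ^ t * b := by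
  by_cases c : x ∈ zpowers a
  · obtain ⟨t, e⟩ := c; exact ⟨t, Or.inl e.symm⟩
  · obtain ⟨t, e⟩ := mul_mem_two h.idx c (mt inv_mem_iff.1 hb)
    exact ⟨t, Or.inr (by simp only at e; rw [e]; group)⟩

theorem odd (h2 : 2 ∣ orderOf a) : Odd i := by
  obtain ⟨b, hb⟩ := exists_not_mem h.idx
  have h1 := h.cj _ (mt inv_mem_iff.1 hb)
  have h3 : a ^ (i * i - 1) = 1 := by
    rw [zpow_sub, ← h.cjz hb, ← h1]; group
  have := (Int.natCast_dvd_natCast.2 h2).trans (orderOf_dvd_iff_zpow_eq_one.2 h3)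
  by_contra c
  obtain ⟨k, rfl⟩ := Int.not_odd_iff_even.1 c
  obtain ⟨l, e⟩ := this
  have : (k + k) * (k + k) = 2 * (2 * k * k) := by ring
  push_cast at e
  omega

theorem sq {y : G} (hy : y ∉ zpowers a) (t : ℤ) :
    a ^ t * y * (a ^ t * y) = a ^ (t * (1 + i)) * (y * y) := by
  calc a ^ t * y * (a ^ t * y) = a ^ t * (y * a ^ t * y⁻¹) * (y * y) := by group
    _ = _ := by rw [h.cjz hy, ← zpow_add]; ring_nf

theorem normal (k : ℤ) : (zpowers (a ^ k)).Normal := ⟨by
  rintro _ ⟨s, rfl⟩ g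
  by_cases c : g ∈ zpowers a
  · obtain ⟨t, rfl⟩ := c; exact ⟨s, by simp only; group⟩
  · exact ⟨i * s, by simp only; rw [← zpow_mul, ← zpow_mul, h.cjz c]; ring_nf⟩⟩

theorem comm_eq : commutator G = zpowers (a ^ (i - 1)) := by
  obtain ⟨b, hb⟩ := exists_not_mem h.idx
  refine le_antisymm ?_ (zpowers_le.2 ?_)
  · haveI := h.normal (i - 1)
    refine Normal.quotient_commutative_iff_commutator_le.1 ⟨⟨fun x y => ?_⟩⟩
    obtain ⟨x, rfl⟩ := QuotientGroup.mk'_surjective _ x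
    obtain ⟨y, rfl⟩ := QuotientGroup.mk'_surjective _ y
    have c : Commute (QuotientGroup.mk' (zpowers (a ^ (i - 1))) b) (QuotientGroup.mk' _ a) := by
      rw [← commutatorElement_eq_one_iff_commute, ← map_commutatorElement, commutatorElement_def,
        h.cj b hb, ← zpow_sub_one]
      exact (QuotientGroup.eq_one_iff _).2 (mem_zpowers _)
    obtain ⟨s, rfl | rfl⟩ := h.rep hb x <;> obtain ⟨t, rfl | rfl⟩ := h.rep hb y <;>
      simp only [map_mul, map_zpow]
    · exact Commute.zpow_zpow_self _ _ _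
    · exact (Commute.zpow_zpow_self _ _ _).mul_right (c.symm.zpow_left _)
    · exact (Commute.zpow_zpow_self _ _ _).mul_left (c.zpow_right _)
    · exact ((Commute.zpow_zpow_self _ _ _).mul_right (c.symm.zpow_left _)).mul_left
        ((c.zpow_right _).mul_right (Commute.refl _))
  · rw [zpow_sub_one, ← h.cj b hb]
    exact commutator_mem_commutator (mem_top b) (mem_top a)

variable [Finite G] {n : ℕ} (hG : Nat.card G = 2 ^ (n + 1))
include hG

theorem ord : orderOf a = 2 ^ n := by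
  haveI := Fact.mk Nat.prime_two
  rw [← Nat.card_zpowers]; exact (card_of_index hG).1 h.idx

theorem pw (k : ℤ) : (a ^ k) ^ 2 ^ n = 1 := by
  rw [← h.ord hG, ← zpow_natCast, ← zpow_mul, mul_comm, zpow_mul, zpow_natCast, pow_orderOf_eq_one,
    one_zpow]

theorem zp_odd (k : ℤ) {u : ℤ} (hu : Odd u) : zpowers (a ^ (k * u)) = zpowers (a ^ k) := by
  rw [zpow_mul]
  exact le_antisymm (zpowers_le.2 (zpow_mem_zpowers _ _)) (zpowers_le.2 (mem_zp_odd (h.pw hG k) hu))

theorem card_zp {r s : ℕ} (e : n = r + s) : Nat.card (zpowers (a ^ (2 ^ r : ℤ))) = 2 ^ s := by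
  rw [Nat.card_zpowers, show (2 ^ r : ℤ) = ((2 ^ r : ℕ) : ℤ) by simp, zpow_natCast,
    orderOf_pow_of_dvd (by positivity) (by rw [h.ord hG, e]; exact pow_dvd_pow _ le_self_add), h.ord hG,
    e, pow_add, Nat.mul_div_cancel_left _ (by positivity)]

theorem index_zp {r s : ℕ} (e : n = r + s) : (zpowers (a ^ (2 ^ r : ℤ))).index = 2 ^ (r + 1) := by
  have := (zpowers (a ^ (2 ^ r : ℤ))).index_mul_card
  rw [h.card_zp hG e, hG, e, show 2 ^ (r + s + 1) = 2 ^ (r + 1) * 2 ^ s by ring] at this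
  exact Nat.eq_of_mul_eq_mul_right (by positivity) this

end Cy

variable [Finite G]

theorem cyc_of_dvd (hG : IsPGroup 2 G) (h : (commutator G).index ∣ 2) : IsCyclic G := by
  haveI := Fact.mk Nat.prime_two
  haveI := hG.isNilpotent
  exact H1.isCyclic_of_isCyclic_quotient_frattini (isCyclic_of_card_dvd_prime (p := 2)
    ((index_dvd_of_le H1.commutator_le_frattini).trans h))

theorem MC.of_dvd (hG : IsPGroup 2 G) (hc : ¬ IsMulCommutative G) (h : (commutator G).index ∣ 4) :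
    MC G := by
  refine ⟨hc, ?_⟩
  obtain ⟨k, hk, e⟩ := (Nat.dvd_prime_pow Nat.prime_two (m := 2)).1 h
  rcases hk.eq_or_lt with rfl | hk
  · exact e
  · haveI := cyc_of_dvd hG (e ▸ (pow_dvd_pow 2 (by omega : k ≤ 1)).trans (pow_one 2).dvd)
    exact absurd (inferInstance : IsMulCommutative G) hc

theorem MC.three {m : ℕ} (h : MC G) (hG : Nat.card G = 2 ^ m) : 3 ≤ m := by
  have h1 := (commutator G).index_mul_card
  have h2 : 1 < Nat.card (commutator G) := (one_lt_card_iff_ne_bot _).2 fun e => h.1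
    ⟨⟨fun a b => commutatorElement_eq_one_iff_mul_comm.1 (mem_bot.1
      (e ▸ commutator_mem_commutator (mem_top a) (mem_top b)))⟩⟩
  rw [h.2, hG] at h1
  by_contra c
  have : 2 ^ m ≤ 2 ^ 2 := Nat.pow_le_pow_right two_pos (by omega)
  omega

theorem MC.cls {m : ℕ} (h : MC G) (hG : Nat.card G = 2 ^ m) : Group.nilpotencyClass G = m - 1 := by
  haveI := Fact.mk Nat.prime_two
  refine (S0115.result m (h.three hG) hG).2 ⟨h.2, ?_⟩
  refine (not_isCyclic_iff_exponent_eq_prime Nat.prime_two h.2).1 fun c => h.1 ?_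
  haveI := (IsPGroup.of_card hG).isNilpotent
  haveI := H1.isCyclic_of_isCyclic_quotient_frattini (isCyclic_of_surjective
    (QuotientGroup.map _ _ (MonoidHom.id G) H1.commutator_le_frattini)
    (QuotientGroup.map_surjective_of_surjective _ _ _ QuotientGroup.mk_surjective _))
  infer_instance

theorem MC.exists_Cy {n : ℕ} (h : MC G) (hG : Nat.card G = 2 ^ (n + 1)) :
    ∃ (a : G) (i : ℤ), Cy a (4 * i + 3) := by
  have h3 := h.three hG
  obtain ⟨C, h1, h2⟩ := S0113.result _ h3 hG (h.cls hG)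
  obtain ⟨a, rfl⟩ := (Subgroup.isCyclic_iff_exists_zpowers_eq_top C).1 h1
  obtain ⟨i, hi⟩ := H22K.exists_Cy h2
  obtain ⟨k, rfl⟩ := hi.odd (by rw [hi.ord hG]; exact dvd_pow_self _ (by omega))
  obtain ⟨l, rfl | rfl⟩ := Int.even_or_odd' k
  · have e1 : commutator G ≤ zpowers (a ^ (2 ^ 2 : ℤ)) := by
      rw [hi.comm_eq]; exact zpowers_le.2 ⟨l, by simp only; rw [← zpow_mul]; ring_nf⟩
    have := index_dvd_of_le e1
    rw [hi.index_zp hG (s := n - 2) (by omega), h.2] at this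
    exact absurd this (by decide)
  · exact ⟨a, l, by convert hi using 1; ring⟩

theorem cnt_not_mem (hG : IsPGroup 2 G) {w : G} (hw : zpowers w ≠ ⊤) :
    2 ∣ cnt fun M : Subgroup G => M.index = 2 ∧ w ∉ M := by
  haveI := Fact.mk Nat.prime_two
  have h1 := cnt_max_one hG hw
  have h2 := cnt_max_one hG (H := ⊥) fun e => hw (top_le_iff.1 (e.ge.trans bot_le))
  rw [cnt_congr (Q := fun M => M.index = 2 ∧ w ∈ M) fun M => by rw [zpowers_le, and_comm]] at h1
  rw [cnt_congr (Q := fun M => M.index = 2) fun M => by simp, cnt_split _ (w ∈ ·)] at h2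
  simp only [Int.ModEq] at h1 h2
  omega

omit [Finite G] in
theorem sq_mem_two {M : Subgroup G} (h : M.index = 2) (x : G) (k : ℤ) : x ^ (2 * k) ∈ M := by
  rw [zpow_mul, zpow_two]; exact zpow_mem (mul_self_mem_of_index_two h x) k

theorem eq_of_idx {M C : Subgroup G} (h : M.index = 2) (h' : C.index = 2) (hle : C ≤ M) : M = C := by
  have := relIndex_mul_index hle
  rw [h, h', mul_eq_right₀ two_ne_zero, relIndex_eq_one] at this
  exact le_antisymm this hle

theorem cyc_of_ord {M : Subgroup G} {x : G} (hx : x ∈ M) (h : Nat.card M ≤ orderOf x) : IsCyclic M := by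
  rw [← eq_of_le_of_card_ge (zpowers_le.2 hx) (by rwa [Nat.card_zpowers])]; infer_instance

omit [Finite G] in
theorem even_of_mem {M : Subgroup G} (h : M.index = 2) {a : G} (ha : a ∉ M) {t : ℤ} (ht : a ^ t ∈ M) :
    ∃ s, t = 2 * s := by
  obtain ⟨s, rfl | rfl⟩ := Int.even_or_odd' t
  · exact ⟨s, rfl⟩
  · rw [zpow_add_one] at ht
    exact absurd ((mul_mem_cancel_left (sq_mem_two h a s)).1 ht) ha

theorem cyc_even {n : ℕ} (hG : Nat.card G = 2 ^ (n + 1)) (hn : 2 ≤ n) (hc : ¬ IsCyclic G)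
    (hm : ¬ MC G) : 2 ∣ cnt fun M : Subgroup G => M.index = 2 ∧ IsCyclic M := by
  haveI := Fact.mk Nat.prime_two
  have hp := IsPGroup.of_card hG
  by_cases h0 : ∃ M : Subgroup G, M.index = 2 ∧ IsCyclic M
  swap
  · rw [cnt_zero fun M h => h0 ⟨M, h⟩]; exact dvd_zero _
  obtain ⟨C, h2, h1⟩ := h0
  obtain ⟨a, rfl⟩ := (Subgroup.isCyclic_iff_exists_zpowers_eq_top C).1 h1
  obtain ⟨i, hi⟩ := H22K.exists_Cy h2
  obtain ⟨k, rfl⟩ := hi.odd (by rw [hi.ord hG]; exact dvd_pow_self _ (by omega))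
  have nt : ∀ w : G, zpowers w ≠ ⊤ := fun w e => hc (isCyclic_iff_exists_zpowers_eq_top.2 ⟨w, e⟩)
  obtain ⟨l, rfl | rfl⟩ := Int.even_or_odd' k
  swap
  · have e1 : commutator G = zpowers (a ^ (2 ^ 1 : ℤ)) := by
      rw [hi.comm_eq, ← hi.zp_odd hG (2 ^ 1) (u := 2 * l + 1) ⟨l, rfl⟩]; ring_nf
    refine absurd (MC.of_dvd hp (fun c => ?_) 
      (by rw [e1, hi.index_zp hG (s := n - 1) (by omega)]; rfl)) hm
    have := hi.card_zp hG (r := 1) (s := n - 1) (by omega)
    rw [← e1, (_root_.commutator_eq_bot_iff _).2 c, card_bot] at this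
    exact absurd (Nat.pow_eq_one.1 this.symm) (by omega)
  obtain ⟨y, hy, s, hs⟩ : ∃ y, y ∉ zpowers a ∧ ∃ s : ℤ, y * y = a ^ (4 * s) := by
    obtain ⟨b, hb⟩ := exists_not_mem h2
    obtain ⟨j, hj⟩ := mul_mem_two h2 hb hb
    simp only at hj
    obtain ⟨j, rfl | rfl⟩ := Int.even_or_odd' j
    · obtain ⟨j, rfl | rfl⟩ := Int.even_or_odd' j
      · exact ⟨b, hb, j, by rw [← hj]; ring_nf⟩
      · refine ⟨a ^ (1 : ℤ) * b, fun c => hb ((mul_mem_cancel_left (zpow_mem_zpowers _ _)).1 c),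
          l + j + 1, ?_⟩
        rw [hi.sq hb, ← hj, ← zpow_add]; ring_nf
    · have a1 : zpowers a ≤ zpowers b := zpowers_le.2 (zpowers_le.2 (hj ▸ mul_mem (mem_zpowers b)
        (mem_zpowers b)) (mem_zp_odd (by simpa using hi.pw hG 1) ⟨j, rfl⟩))
      refine absurd (eq_top_iff.2 fun x _ => ?_) (nt b)
      obtain ⟨t, rfl | rfl⟩ := hi.rep hb x
      exacts [a1 (zpow_mem_zpowers _ _), mul_mem (a1 (zpow_mem_zpowers _ _)) (mem_zpowers b)]
  refine (cnt_not_mem hp (nt y)).trans (Eq.dvd (cnt_congr fun M => and_congr_right fun hM =>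
    ⟨fun h => ?_, fun h c => ?_⟩))
  · by_cases ha : a ∈ M
    · rw [eq_of_idx hM h2 (zpowers_le.2 ha)]; infer_instance
    refine cyc_of_ord (mul_mem_two hM ha h) ?_
    have e := hi.sq hy 1
    rw [zpow_one, hs, ← zpow_add, show (1 * (1 + (2 * (2 * l) + 1)) + 4 * s : ℤ) =
      2 ^ 1 * (2 * (l + s) + 1) by ring] at e
    have e2 : orderOf ((a * y) ^ 2) = 2 ^ (n - 1) := by
      rw [_root_.sq, e, ← Nat.card_zpowers, hi.zp_odd hG _ ⟨_, rfl⟩,
        hi.card_zp hG (s := n - 1) (by omega)]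
    obtain ⟨r, hr⟩ := IsPGroup.iff_orderOf.1 hp (a * y)
    rw [(card_of_index hG).1 hM, hr]
    rcases r with _ | r
    · rw [orderOf_eq_one_iff.1 hr, one_pow, orderOf_one] at e2
      exact absurd (Nat.pow_eq_one.1 e2.symm) (by omega)
    rw [orderOf_pow_of_dvd two_ne_zero (hr ▸ dvd_pow_self _ r.succ_ne_zero), hr, pow_succ,
      Nat.mul_div_cancel _ two_pos, Nat.pow_right_inj one_lt_two] at e2
    exact Nat.pow_le_pow_right two_pos (by omega)
  · obtain ⟨g, rfl⟩ := (Subgroup.isCyclic_iff_exists_zpowers_eq_top M).1 h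
    have ha : a ∉ zpowers g := fun d => hy (eq_of_idx hM h2 (zpowers_le.2 d) ▸ c)
    have o : orderOf g = 2 ^ n := by rw [← Nat.card_zpowers]; exact (card_of_index hG).1 hM
    obtain ⟨t, rfl | rfl⟩ := hi.rep hy g
    · exact hy (zpowers_le.2 (zpow_mem_zpowers _ _) c)
    obtain ⟨u, rfl⟩ := even_of_mem hM ha ((mul_mem_cancel_right c).1 (mem_zpowers _))
    have e := hi.sq hy (2 * u)
    have : (a ^ (2 * u) * y) ^ 2 ^ (n - 1) = 1 := by
      obtain ⟨n, rfl⟩ := Nat.exists_eq_add_of_le' hn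
      rw [show n + 2 - 1 = n + 1 from rfl, pow_succ', pow_mul, _root_.sq, e, hs, ← zpow_add,
        ← zpow_natCast, ← zpow_mul, ← orderOf_dvd_iff_zpow_eq_one, hi.ord hG]
      exact ⟨u * (2 * l + 1) + s, by push_cast; ring⟩
    have := orderOf_dvd_of_pow_eq_one this
    rw [o, Nat.pow_dvd_pow_iff_le_right one_lt_two] at this
    omega

theorem Cy.other {a : G} {i : ℤ} (h : Cy a i) {M : Subgroup G} (hM : M.index = 2)
    (hne : M ≠ zpowers a) : a ∉ M ∧ ∃ y ∈ M, y ∉ zpowers a :=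
  ⟨fun c => hne (eq_of_idx hM h.idx (zpowers_le.2 c)), by
    by_contra! c
    exact hne (eq_of_idx h.idx hM c).symm⟩

theorem Cy.mc {a : G} {i : ℤ} (h : Cy a (4 * i + 3)) {n : ℕ} (hG : Nat.card G = 2 ^ (n + 1))
    (hn : 3 ≤ n) {M : Subgroup G} (hM : M.index = 2) (hne : M ≠ zpowers a) : MC M := by
  haveI := Fact.mk Nat.prime_two
  obtain ⟨ha, y, hy, hy'⟩ := h.other hM hne
  have h2 := sq_mem_two hM a 1
  have e : ⁅y, a ^ (2 * 1 : ℤ)⁆ = a ^ ((2 : ℤ) ^ 2 * (2 * i + 1)) := by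
    rw [commutatorElement_def, h.cjz hy', ← zpow_sub]; ring_nf
  have h3 : zpowers (a ^ (2 ^ 2 : ℤ)) ≤ (commutator M).map M.subtype := by
    rw [← h.zp_odd hG _ ⟨i, rfl⟩, ← e, map_subtype_commutator]
    exact zpowers_le.2 (commutator_mem_commutator hy h2)
  have h4 := card_dvd_of_le h3
  rw [h.card_zp hG (s := n - 2) (by omega), card_map_of_injective M.subtype_injective] at h4
  refine MC.of_dvd ((IsPGroup.of_card hG).to_subgroup M) (fun c => ?_) ?_
  · rw [(_root_.commutator_eq_bot_iff _).2 c, card_bot, Nat.dvd_one] at h4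
    exact absurd (Nat.pow_eq_one.1 h4) (by omega)
  · have h5 := (commutator M).index_mul_card
    obtain ⟨c, hc⟩ := h4
    obtain ⟨n, rfl⟩ := Nat.exists_eq_add_of_le' (show 2 ≤ n by omega)
    rw [(card_of_index hG).1 hM, hc, Nat.add_sub_cancel] at h5
    exact ⟨c, Nat.eq_of_mul_eq_mul_left (pow_pos two_pos n) (by linear_combination -h5)⟩

theorem MC.not_cyc (h : MC G) : ¬ IsCyclic G := fun _ => h.1 inferInstance

theorem MC.cyc_odd {n : ℕ} (h : MC G) (hG : Nat.card G = 2 ^ (n + 1)) :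
    cnt (fun M : Subgroup G => M.index = 2 ∧ IsCyclic M) ≡ 1 [ZMOD 2] := by
  haveI := Fact.mk Nat.prime_two
  obtain ⟨a, i, hi⟩ := h.exists_Cy hG
  by_cases h0 : ∀ M : Subgroup G, M.index = 2 → IsCyclic M → M = zpowers a
  · rw [cnt_one (K := zpowers a) fun M => ⟨fun c => h0 M c.1 c.2, fun c => c ▸ ⟨hi.idx, inferInstance⟩⟩]
  push Not at h0
  obtain ⟨M₀, h1, h2, h3⟩ := h0
  obtain rfl : n = 2 := by
    have := h.three hG
    by_contra c
    exact (hi.mc hG (by omega) h1 h3).not_cyc h2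
  have a4 : ∀ t : ℤ, a ^ (t * (1 + (4 * i + 3))) = 1 := fun t => by
    rw [← orderOf_dvd_iff_zpow_eq_one, hi.ord hG]; exact ⟨t * (i + 1), by push_cast; ring⟩
  obtain ⟨g, rfl⟩ := (Subgroup.isCyclic_iff_exists_zpowers_eq_top M₀).1 h2
  have o : orderOf g = 2 ^ 2 := by rw [← Nat.card_zpowers]; exact (card_of_index hG).1 h1
  have hg : g ∉ zpowers a := fun c => h3 (eq_of_idx hi.idx h1 (zpowers_le.2 c)).symm
  refine Int.ModEq.trans (congrArg (· % (2 : ℤ)) (cnt_congr (Q := fun M => ⊥ ≤ M ∧ M.index = 2)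
    fun M => ⟨fun c => ⟨bot_le, c.1⟩, fun c => ⟨c.2, ?_⟩⟩))
    (cnt_max_one (IsPGroup.of_card hG) fun e => hg ((e.ge.trans bot_le) (mem_top g)))
  by_cases e : M = zpowers a
  · rw [e]; infer_instance
  obtain ⟨-, y, hy, hy'⟩ := hi.other c.2 e
  refine cyc_of_ord hy ?_
  obtain ⟨t, rfl | rfl⟩ := hi.rep hg y
  · exact absurd (zpow_mem_zpowers _ _) hy'
  have e1 := hi.sq hg t
  rw [a4, one_mul] at e1
  have e2 : ¬ orderOf (a ^ t * g) ∣ 2 := by
    rw [orderOf_dvd_iff_pow_eq_one, _root_.sq, e1, ← _root_.sq, ← orderOf_dvd_iff_pow_eq_one, o]; decide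
  obtain ⟨r, hr⟩ := IsPGroup.iff_orderOf.1 (IsPGroup.of_card hG) (a ^ t * g)
  rw [(card_of_index hG).1 c.2, hr]
  refine Nat.pow_le_pow_right two_pos (by_contra fun d => e2 ?_)
  rw [hr]; exact (pow_dvd_pow 2 (by omega : r ≤ 1)).trans (pow_one 2).dvd

omit [Finite G] in
theorem exists_central {ζ a b : G} (hz : ∀ x, ζ * x = x * ζ) (h2 : ζ * ζ = 1)
    (h : ∀ x y : G, x * y = y * x ∨ x * y = ζ * (y * x)) (hab : b * a = ζ * (a * b)) (g : G) :
    ∃ m, (m = 1 ∨ m = a ∨ m = b ∨ m = a * b) ∧ Commute (g * m) a ∧ Commute (g * m) b := by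
  have k : ∀ {x y z : G}, x * z = ζ * (z * x) → y * z = ζ * (z * y) → Commute (x * y) z := by
    intro x y z h1 h3
    calc x * y * z = x * ζ * (z * y) := by rw [mul_assoc, h3, mul_assoc]
      _ = ζ * (x * z) * y := by rw [← hz x]; group
      _ = ζ * ζ * (z * (x * y)) := by rw [h1]; group
      _ = _ := by rw [h2, one_mul]
  have hba : a * b = ζ * (b * a) := by rw [hab, ← mul_assoc, h2, one_mul]
  rcases h g a with h1 | h1 <;> rcases h g b with h3 | h3
  · exact ⟨1, by simp, by rwa [mul_one], by rwa [mul_one]⟩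
  · exact ⟨a, by simp, Commute.mul_left h1 (Commute.refl a), k h3 hba⟩
  · exact ⟨b, by simp, k h1 hab, Commute.mul_left h3 (Commute.refl b)⟩
  · refine ⟨a * b, by simp, ?_, ?_⟩
    · refine k h1 ?_
      rw [mul_assoc, hab, ← mul_assoc, ← hz a, mul_assoc]
    · rw [← mul_assoc]; exact (k h3 hba).mul_left (Commute.refl b)

theorem mc_even {n : ℕ} (hG : Nat.card G = 2 ^ (n + 1)) (hm : ¬ MC G) :
    2 ∣ cnt fun M : Subgroup G => M.index = 2 ∧ MC M := by
  haveI := Fact.mk Nat.prime_two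
  have hp := IsPGroup.of_card hG
  by_cases h0 : ∃ M : Subgroup G, M.index = 2 ∧ MC M
  swap
  · rw [cnt_zero fun M h => h0 ⟨M, h⟩]; exact dvd_zero _
  obtain ⟨M₀, h2, h1⟩ := h0
  have c0 := (card_of_index hG).1 h2
  obtain ⟨n, rfl⟩ := Nat.exists_eq_add_of_le' (h1.three c0)
  obtain ⟨a', i, hi⟩ := h1.exists_Cy (n := n + 2) c0
  obtain ⟨b', hb⟩ := exists_not_mem hi.idx
  haveI := normal_of_index_eq_two h2
  let a : G := a'.1
  let b : G := b'.1
  have zc : ∀ r s : ℕ, n + 2 = r + s → Nat.card (zpowers (a ^ (2 ^ r : ℤ))) = 2 ^ s := fun r s e => by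
    rw [← hi.card_zp c0 e, Nat.card_zpowers, Nat.card_zpowers, ← orderOf_coe]; rfl
  have pw : ∀ k : ℤ, (a ^ k) ^ 2 ^ (n + 2) = 1 := fun k => congrArg Subtype.val (hi.pw c0 k)
  have eD : ⁅M₀, M₀⁆ = zpowers (a ^ (2 ^ 1 : ℤ)) := by
    rw [← map_subtype_commutator, hi.comm_eq, show 4 * i + 3 - 1 = 2 ^ 1 * (2 * i + 1) by ring,
      hi.zp_odd c0 _ ⟨i, rfl⟩, MonoidHom.map_zpowers]; rfl
  have nab : ¬ IsMulCommutative G := fun _ => h1.1 inferInstance
  have eG : commutator G = zpowers (a ^ (2 ^ 1 : ℤ)) := by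
    have l : zpowers (a ^ (2 ^ 1 : ℤ)) ≤ commutator G := eD ▸ commutator_mono le_top le_top
    have e := (zpowers (a ^ (2 ^ 1 : ℤ))).index_mul_card
    rw [zc 1 (n + 1) (by ring), hG, show 2 ^ (n + 3 + 1) = 2 ^ 3 * 2 ^ (n + 1) by ring] at e
    have e := Nat.eq_of_mul_eq_mul_right (by positivity) e
    obtain ⟨k, hk, e2⟩ := (Nat.dvd_prime_pow Nat.prime_two).1 (e ▸ index_dvd_of_le l)
    rcases hk.eq_or_lt with rfl | hk
    · have := relIndex_mul_index l
      rw [e, e2, mul_eq_right₀ (by decide), relIndex_eq_one] at this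
      exact le_antisymm this l
    · exact absurd (MC.of_dvd hp nab (e2 ▸ pow_dvd_pow 2 (by omega : k ≤ 2))) hm
  have mD : ∀ {d}, d ∈ commutator G → ∃ k : ℤ, d = a ^ (2 * k) := fun hd => by
    obtain ⟨k, e⟩ := eG ▸ hd
    exact ⟨k, by rw [← e, zpow_mul]; rfl⟩
  have Dm : ∀ k : ℤ, a ^ (2 * k) ∈ commutator G := fun k => eG ▸ ⟨k, by rw [zpow_mul]; rfl⟩
  haveI : (zpowers (a ^ (2 ^ 2 : ℤ))).Normal := ⟨by
    rintro _ ⟨s, rfl⟩ g
    obtain ⟨k, e⟩ := mD (Normal.conj_mem inferInstance _ (Dm s) g)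
    refine ⟨k, ?_⟩
    simp only
    rw [← zpow_mul, ← zpow_mul, show 2 ^ 2 * k = 2 * k * 2 by ring, show 2 ^ 2 * s = 2 * s * 2 by ring,
      zpow_mul a (2 * k), zpow_mul a (2 * s), ← e, conj_zpow]⟩
  let π := QuotientGroup.mk' (zpowers (a ^ (2 ^ 2 : ℤ)))
  have π4 : ∀ k : ℤ, π (a ^ (2 * (2 * k))) = 1 := fun k =>
    (QuotientGroup.eq_one_iff _).2 ⟨k, by simp only; rw [← zpow_mul]; ring_nf⟩
  set ζ := π (a ^ (2 * 1 : ℤ))
  have z1 : ζ ≠ 1 := fun e => by
    have := card_le_of_le (zpowers_le.2 ((QuotientGroup.eq_one_iff _).1 e))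
    rw [zc 2 n (by ring), show (2 * 1 : ℤ) = 2 ^ 1 by ring, zc 1 (n + 1) (by ring),
      Nat.pow_le_pow_iff_right one_lt_two] at this
    omega
  have πo : ∀ k : ℤ, π (a ^ (2 * (2 * k + 1))) = ζ := fun k => by
    rw [mul_add, zpow_add, map_mul, π4, one_mul]
  have πD : ∀ {d}, d ∈ commutator G → π d = 1 ∨ π d = ζ := fun hd => by
    obtain ⟨k, rfl⟩ := mD hd
    obtain ⟨k, rfl | rfl⟩ := Int.even_or_odd' k
    exacts [Or.inl (π4 k), Or.inr (πo k)]
  have hz : ∀ x, ζ * x = x * ζ := fun x => by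
    obtain ⟨g, rfl⟩ := QuotientGroup.mk'_surjective _ x
    have := (πD (Normal.conj_mem inferInstance _ (Dm 1) g)).resolve_left fun e => z1 (by
      rwa [map_mul, map_mul, map_inv, conj_eq_one_iff] at e)
    rw [map_mul, map_mul, map_inv, mul_inv_eq_iff_eq_mul] at this
    exact this.symm
  have zz : ζ * ζ = 1 := by rw [← map_mul, ← zpow_add]; exact π4 1
  have cen : ∀ (k : ℤ) x, Commute (π (a ^ (2 * k))) x := fun k x => by
    rcases πD (Dm k) with e | e <;> rw [e]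
    exacts [Commute.one_left x, hz x]
  have eba : ⁅b, a⁆ = a ^ (2 * (2 * i + 1)) := by
    have : b * a * b⁻¹ = a ^ (4 * i + 3) := congrArg Subtype.val (hi.cj b' hb)
    rw [commutatorElement_def, this, ← zpow_sub_one]; ring_nf
  obtain ⟨g, hg⟩ := exists_not_mem h2
  obtain ⟨w, hw, w1, w2⟩ : ∃ w, w ∉ M₀ ∧ Commute (π w) (π a) ∧ Commute (π w) (π b) := by
    obtain ⟨m, hm, e⟩ := exists_central hz zz (a := π a) (b := π b) (fun x y => by
      obtain ⟨x, rfl⟩ : ∃ g, π g = x := QuotientGroup.mk'_surjective _ x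
      obtain ⟨y, rfl⟩ : ∃ g, π g = y := QuotientGroup.mk'_surjective _ y
      refine (πD (commutator_mem_commutator (mem_top x) (mem_top y))).imp (fun e => ?_) fun e => ?_
      · rwa [map_commutatorElement, commutatorElement_eq_one_iff_mul_comm] at e
      · rw [← e, map_commutatorElement, commutatorElement_def]; group) (by
      rw [← πo i, ← eba, map_commutatorElement, commutatorElement_def]; group) (π g)
    obtain ⟨m, hm0, rfl⟩ : ∃ m' ∈ M₀, π m' = m := by
      rcases hm with rfl | rfl | rfl | rfl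
      exacts [⟨1, one_mem _, map_one _⟩, ⟨a, a'.2, rfl⟩, ⟨b, b'.2, rfl⟩,
        ⟨a * b, mul_mem a'.2 b'.2, map_mul _ _ _⟩]
    exact ⟨g * m, fun c => hg ((mul_mem_cancel_right hm0).1 c), by rwa [map_mul]⟩
  have rep : ∀ x ∈ M₀, ∃ t : ℤ, x = a ^ t ∨ x = a ^ t * b := fun x hx =>
    (hi.rep hb ⟨x, hx⟩).imp fun t e => e.imp (congrArg Subtype.val) (congrArg Subtype.val)
  have red : ∀ {M : Subgroup G}, M.index = 2 → w ∉ M → ∀ x, ∃ m ∈ M, x = m ∨ x = m * w := by
    intro M hM hw x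
    by_cases c : x ∈ M
    exacts [⟨x, c, Or.inl rfl⟩, ⟨_, mul_mem_two hM c (mt inv_mem_iff.1 hw), Or.inr (by group)⟩]
  have wc : ∀ x, Commute (π w) (π x) := fun x => by
    obtain ⟨m, hm, e⟩ := red h2 hw x
    have : Commute (π w) (π m) := by
      obtain ⟨t, rfl | rfl⟩ := rep m hm <;> simp only [map_mul, map_zpow]
      exacts [w1.zpow_right t, (w1.zpow_right t).mul_right w2]
    rcases e with rfl | rfl
    exacts [this, map_mul π m w ▸ this.mul_right (Commute.refl _)]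
  have cw : ∀ x y, ⁅π (x * w), π y⁆ = ⁅π x, π y⁆ := fun x y => by
    rw [map_mul, commutatorElement_def, commutatorElement_def, mul_assoc (π x), wc y]; group
  have cw' : ∀ x y, ⁅π y, π (x * w)⁆ = ⁅π y, π x⁆ := fun x y => by
    rw [← commutatorElement_inv, cw, commutatorElement_inv]
  have cc : ∀ {x y x' y'}, x' = x ∨ x' = x * w → y' = y ∨ y' = y * w → ⁅π x', π y'⁆ = ⁅π x, π y⁆ := by
    rintro x y _ _ (rfl | rfl) (rfl | rfl) <;> simp only [cw, cw']
  refine (cnt_not_mem hp (w := w) fun e => nab ?_).trans (Eq.dvd (cnt_congr fun M =>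
    and_congr_right fun hM => ⟨fun h => ?_, fun h c => ?_⟩))
  · haveI := isCyclic_iff_exists_zpowers_eq_top.2 ⟨w, e⟩
    infer_instance
  · obtain ⟨x, hx, e1⟩ := red hM h b
    obtain ⟨y, hy, e2⟩ := red hM h a
    have e3 : π ⁅x, y⁆ = ζ := by
      rw [← πo i, ← eba, map_commutatorElement, map_commutatorElement, cc e1 e2]
    obtain ⟨k, e4⟩ := mD (commutator_mem_commutator (mem_top x) (mem_top y))
    obtain ⟨k, rfl | rfl⟩ := Int.even_or_odd' k
    · exact absurd (e3.symm.trans (e4 ▸ π4 k)) z1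
    have h3 : zpowers (a ^ (2 ^ 1 : ℤ)) ≤ (commutator M).map M.subtype := by
      refine zpowers_le.2 (zpowers_le.2 ?_ (mem_zp_odd (pw _) ⟨k, rfl⟩))
      rw [← zpow_mul, pow_one, ← e4, map_subtype_commutator]
      exact commutator_mem_commutator hx hy
    have h4 := card_dvd_of_le h3
    rw [zc 1 (n + 1) (by ring), card_map_of_injective M.subtype_injective] at h4
    refine MC.of_dvd (hp.to_subgroup M) (fun c => ?_) ?_
    · rw [(_root_.commutator_eq_bot_iff _).2 c, card_bot, Nat.dvd_one] at h4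
      exact absurd (Nat.pow_eq_one.1 h4) (by omega)
    · have h5 := (commutator M).index_mul_card
      obtain ⟨c, hc⟩ := h4
      rw [(card_of_index hG).1 hM, hc] at h5
      exact ⟨c, Nat.eq_of_mul_eq_mul_left (pow_pos two_pos (n + 1)) (by linear_combination -h5)⟩
  · have nb : ¬ (a ∈ M ∧ b ∈ M) := fun d => hw (eq_of_idx hM h2 (fun x hx => by
      obtain ⟨t, rfl | rfl⟩ := rep x hx
      exacts [zpow_mem d.1 t, mul_mem (zpow_mem d.1 t) d.2]) ▸ c)
    have k1 : ∀ x ∈ M, x ∈ M₀ → ∀ y ∈ M, y ∈ M₀ → ⁅π x, π y⁆ = 1 := fun x hx hx' y hy hy' => by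
      rw [commutatorElement_eq_one_iff_commute]
      by_cases ha : a ∈ M
      · have : ∀ x ∈ M, x ∈ M₀ → ∃ t : ℤ, x = a ^ t := fun x hx hx' => by
          obtain ⟨t, e | rfl⟩ := rep x hx'
          exacts [⟨t, e⟩, absurd ⟨ha, (mul_mem_cancel_left (zpow_mem ha t)).1 hx⟩ nb]
        obtain ⟨s, rfl⟩ := this x hx hx'
        obtain ⟨t, rfl⟩ := this y hy hy'
        exact (Commute.zpow_zpow_self _ _ _).map π
      obtain ⟨s, rfl | rfl⟩ := rep x hx'
      · obtain ⟨s, rfl⟩ := even_of_mem hM ha hx; exact cen _ _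
      obtain ⟨t, rfl | rfl⟩ := rep y hy'
      · obtain ⟨s, rfl⟩ := even_of_mem hM ha hy; exact (cen _ _).symm
      obtain ⟨u, e⟩ := even_of_mem hM ha (t := s - t) (by
        convert mul_mem hx (inv_mem hy) using 1; group)
      rw [show a ^ s * b = a ^ (2 * u) * (a ^ t * b) by rw [← e]; group, map_mul]
      exact (cen _ _).mul_left (Commute.refl _)
    have h3 : (commutator M).map M.subtype ≤ zpowers (a ^ (2 ^ 2 : ℤ)) := by
      rw [map_subtype_commutator]
      refine commutator_le.2 fun x hx y hy => (QuotientGroup.eq_one_iff _).1 ?_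
      obtain ⟨x, hx', e1⟩ := red h2 hw x
      obtain ⟨y, hy', e2⟩ := red h2 hw y
      have := k1 x (by rcases e1 with rfl | rfl; exacts [hx, (mul_mem_cancel_right c).1 hx]) hx'
        y (by rcases e2 with rfl | rfl; exacts [hy, (mul_mem_cancel_right c).1 hy]) hy'
      show π _ = 1
      rw [map_commutatorElement, cc e1 e2, this]
    have h4 := card_le_of_le h3
    have h5 := (commutator M).index_mul_card
    rw [zc 2 n (by ring), card_map_of_injective M.subtype_injective] at h4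
    rw [h.2, (card_of_index hG).1 hM, pow_add] at h5
    have : 0 < 2 ^ n := pow_pos two_pos n
    omega

universe u

theorem kul_two {k : ℕ} (hk : 1 ≤ k) (m : ℕ) : ∀ (G : Type u) [Group G] [Finite G],
    Nat.card G = 2 ^ m → ¬ IsCyclic G → k < m →
    (MC G ∧ k + 2 ≤ m → cnt (fun K : Subgroup G => Nat.card K = 2 ^ k) ≡ 1 [ZMOD 4]) ∧
    (¬ (MC G ∧ k + 2 ≤ m) → cnt (fun K : Subgroup G => Nat.card K = 2 ^ k) ≡ 3 [ZMOD 4]) := by
  haveI := Fact.mk Nat.prime_two
  induction m with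
  | zero => exact fun _ _ _ _ _ h => absurd h (Nat.not_lt_zero _)
  | succ m ih =>
    intro G _ _ hG hc hm
    rcases (Nat.lt_succ_iff.1 hm).eq_or_lt with rfl | hm
    · exact ⟨fun h => absurd h.2 (by omega), fun _ => cnt_top hG hc⟩
    have := step hG hc (by omega) (fun M => IsCyclic M ∨ MC M ∧ k + 2 ≤ m) (fun M h b => by
      by_cases c : IsCyclic M
      · rw [cnt_cyc ((card_of_index hG).1 h ▸ pow_dvd_pow 2 hm.le)]
      · exact (ih M ((card_of_index hG).1 h) c hm).1 (b.resolve_left c))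
      fun M h b => (ih M ((card_of_index hG).1 h) (fun c => b (Or.inl c)) hm).2 fun c => b (Or.inr c)
    simp only [Int.ModEq] at this ⊢
    push_cast at this
    refine ⟨fun h => ?_, fun h => ?_⟩
    · have : cnt (fun M : Subgroup G => M.index = 2 ∧ (IsCyclic M ∨ MC M ∧ k + 2 ≤ m)) ≡ 1 [ZMOD 2] := by
        by_cases c : k + 2 ≤ m
        · obtain ⟨a, i, hi⟩ := h.1.exists_Cy hG
          refine Int.ModEq.trans (congrArg (· % (2 : ℤ)) (cnt_congr (Q := fun M => ⊥ ≤ M ∧ M.index = 2)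
            fun M => ⟨fun d => ⟨bot_le, d.1⟩, fun d => ⟨d.2, ?_⟩⟩))
            (cnt_max_one (IsPGroup.of_card hG) fun e => hc (isCyclic_iff_exists_zpowers_eq_top.2
              ⟨1, top_le_iff.1 (e.ge.trans bot_le)⟩))
          by_cases e : M = zpowers a
          · exact Or.inl (by rw [e]; infer_instance)
          · exact Or.inr ⟨hi.mc hG (by omega) d.2 e, c⟩
        · simpa only [c, and_false, or_false] using h.1.cyc_odd hG
      simp only [Int.ModEq] at this
      omega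
    · have hm' : ¬ MC G := fun c => h ⟨c, by omega⟩
      have a1 := cyc_even hG (by omega) hc hm'
      have : 2 ∣ cnt fun M : Subgroup G => M.index = 2 ∧ (IsCyclic M ∨ MC M ∧ k + 2 ≤ m) := by
        by_cases c : k + 2 ≤ m
        · rw [cnt_split _ (fun M => IsCyclic M)]
          refine dvd_add (a1.trans (Eq.dvd (cnt_congr fun M => by tauto)))
            ((mc_even hG hm').trans (Eq.dvd (cnt_congr fun M => ?_)))
          have := MC.not_cyc (G := M)
          tauto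
        · simpa only [c, and_false, or_false] using a1
      omega

end Cfsg.Agent.H22K
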