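import Cfsg.Agent.H12.Lin
import Cfsg.Agent.H11.Count
import Cfsg.Agent.H1.SylowIn
import Cfsg.Agent.H22.CP

/-! Normalizers of non-normal subgroups in simple groups of order 1092. -/

set_option autoImplicit false
set_option linter.style.haveILetI false

namespace Cfsg.Agent.H22.L13

open Subgroup Cfsg.Agent.H1
open scoped commutatorElement MatrixGroups

/-- Normalizers of non-normal subgroups are maximal. -/
def Pm (K : Type*) [Group K] : Prop :=
  ∀ H : Subgroup K, ¬ H.Normal → IsCoatom (normalizer (H : Set K))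

variable {G : Type*} [Group G] [Finite G]

theorem modEq_of_syl {p : ℕ} [Fact p.Prime] {P N : Subgroup G} (h : IsSylowIn p P N) :
    (normalizer (P : Set G)).relIndex N % p = 1 % p := by
  obtain ⟨Q, rfl⟩ := h.exists_sylow
  have h1 := card_sylow_modEq_one p N
  rw [Q.card_eq_index_normalizer] at h1
  rw [relIndex, subgroupOf_normalizer_eq (map_subtype_le _), subgroupOf,
    comap_map_eq_self_of_injective N.subtype_injective]
  exact h1

theorem card_inf_mul (A N : Subgroup G) : Nat.card (A ⊓ N : Subgroup G) * A.relIndex N = Nat.card N := by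
  rw [← inf_relIndex_right]; exact card_mul_relIndex inf_le_right

theorem syl_of_card {p k : ℕ} [Fact p.Prime] {P N : Subgroup G} (h : P ≤ N) (hc : Nat.card P = p ^ k)
    (hG : ¬ p ^ (k + 1) ∣ Nat.card G) : IsSylowIn p P N := by
  refine ⟨h, IsPGroup.of_card hc, fun hd => hG ?_⟩
  refine dvd_trans ?_ (card_subgroup_dvd_card N)
  rw [← card_mul_relIndex h, hc, pow_succ]
  exact Nat.mul_dvd_mul_left _ hd

theorem exists_ord {p : ℕ} [Fact p.Prime] {N : Subgroup G} (h : p ∣ Nat.card N) :
    ∃ a ∈ N, orderOf a = p := by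
  obtain ⟨a, ha⟩ := exists_prime_orderOf_dvd_card' p h
  exact ⟨a, a.2, by rw [Subgroup.orderOf_coe, ha]⟩

section
variable [IsSimpleGroup G] (hG : Nat.card G = 1092)
include hG

theorem burn {p k : ℕ} [Fact p.Prime] {P : Subgroup G} (hc : Nat.card P = p ^ k) (h1 : 1 < p ^ k)
    (h2 : p ^ k < 1092) (h3 : ¬ p ^ (k + 1) ∣ 1092) :
    ¬ normalizer (P : Set G) ≤ centralizer (P : Set G) := by
  intro h
  obtain ⟨Q, rfl⟩ := (syl_of_card le_top hc (hG ▸ h3)).exists_sylow_top
  have h4 := (MonoidHom.ker_transferSylow_isComplement' Q h).card_mul_card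
  rcases IsSimpleGroup.eq_bot_or_eq_top_of_normal (MonoidHom.transferSylow Q h).ker inferInstance with e | e
  · rw [e, card_bot, hc, hG] at h4; omega
  · rw [e, card_top, hc, hG] at h4; omega

theorem norm_ne {H : Subgroup G} (h1 : Nat.card H ≠ 1) (h2 : H ≠ ⊤) : normalizer (H : Set G) ≠ ⊤ := by
  intro h
  rcases IsSimpleGroup.eq_bot_or_eq_top_of_normal H (normalizer_eq_top_iff.1 h) with e | e
  · exact h1 (card_eq_one.2 e)
  · exact h2 e

theorem ne_top_of {H : Subgroup G} (h : Nat.card H ≠ 1092) : H ≠ ⊤ := fun e => h (by rw [e, card_top, hG])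

theorem no_two (H : Subgroup G) : H.index ≠ 2 := by
  intro h
  have h1 := H.card_mul_index
  rw [h, hG] at h1
  exact norm_ne hG (H := H) (by omega) (ne_top_of hG (by omega))
    (normalizer_eq_top_iff.2 (H.normal_of_index_eq_two h))

theorem card_norm {p : ℕ} [Fact p.Prime] {P : Subgroup G} (hc : Nat.card P = p) (h3 : ¬ p ^ 2 ∣ 1092)
    (hp : p ≠ 1092) : ∃ a b, Nat.card (normalizer (P : Set G)) = p * a ∧ p * a * b = 1092 ∧
      b % p = 1 % p ∧ b ≠ 1 := by
  have h1 := modEq_of_syl (syl_of_card (p := p) (k := 1) (le_top (a := P)) (by rw [hc, pow_one]) (hG ▸ h3))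
  rw [relIndex_top_right] at h1
  have h2 := (normalizer (P : Set G)).card_mul_index
  obtain ⟨a, ha⟩ := card_dvd_of_le (le_normalizer (H := P))
  refine ⟨a, _, by rw [ha, hc], by rw [← hG, ← h2, ha, hc], h1, fun e => ?_⟩
  exact norm_ne hG (by rw [hc]; exact (Fact.out : p.Prime).ne_one) (ne_top_of hG (hc ▸ hp))
    (index_eq_one.1 e)

theorem n7 {P : Subgroup G} (hc : Nat.card P = 7) : Nat.card (normalizer (P : Set G)) = 14 := by
  haveI : Fact (Nat.Prime 7) := ⟨by norm_num⟩
  obtain ⟨a, b, h1, h2, h3, h4⟩ := card_norm hG hc (by norm_num) (by norm_num)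
  have h5 : a * b = 156 := by nlinarith
  have h6 : b ≤ 156 := Nat.le_of_dvd (by norm_num) ⟨a, by rw [← h5, mul_comm]⟩
  rw [h1]
  interval_cases b <;> omega

theorem n13 {P : Subgroup G} (hc : Nat.card P = 13) : Nat.card (normalizer (P : Set G)) = 78 := by
  haveI : Fact (Nat.Prime 13) := ⟨by norm_num⟩
  obtain ⟨a, b, h1, h2, h3, h4⟩ := card_norm hG hc (by norm_num) (by norm_num)
  have h5 : a * b = 84 := by nlinarith
  have h6 : b ≤ 84 := Nat.le_of_dvd (by norm_num) ⟨a, by rw [← h5, mul_comm]⟩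
  rw [h1]
  interval_cases b <;> omega

theorem sub_aux {p c : ℕ} [Fact p.Prime] {M : Subgroup G} (hd : p ∣ Nat.card M) (h3 : ¬ p ^ 2 ∣ 1092)
    (hc : ∀ P : Subgroup G, Nat.card P = p → Nat.card (normalizer (P : Set G)) = c) :
    ∃ P ≤ M, Nat.card P = p ∧ ∃ a b, p * a ∣ c ∧ Nat.card M = p * a * b ∧ b % p = 1 % p ∧
      (b = 1 → M ≤ normalizer (P : Set G)) := by
  obtain ⟨x, hx, ho⟩ := exists_ord hd
  have h1 : Nat.card (zpowers x) = p := by rw [Nat.card_zpowers, ho]
  have h2 := modEq_of_syl (syl_of_card (p := p) (k := 1) (zpowers_le.2 hx) (by rw [h1, pow_one]) (hG ▸ h3))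
  obtain ⟨a, ha⟩ := card_dvd_of_le (le_inf (le_normalizer (H := zpowers x)) (zpowers_le.2 hx))
  rw [h1] at ha
  refine ⟨_, zpowers_le.2 hx, h1, a, _, ?_, by rw [← ha, card_inf_mul], h2, relIndex_eq_one.1⟩
  rw [← ha, ← hc _ h1]; exact card_dvd_of_le inf_le_left

theorem sub7 {M : Subgroup G} (hM : M ≠ ⊤) (hd : 7 ∣ Nat.card M) : Nat.card M ∣ 14 := by
  haveI : Fact (Nat.Prime 7) := ⟨by norm_num⟩
  obtain ⟨P, -, -, a, b, h1, h2, h3, -⟩ := sub_aux hG hd (by norm_num) fun P => n7 hG
  have h4 := M.card_mul_index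
  have h5 := no_two hG M
  have h6 : M.index ≠ 1 := fun e => hM (index_eq_one.1 e)
  have h7 : a ≤ 2 := by have := Nat.le_of_dvd (by norm_num) h1; omega
  rw [hG, h2] at h4
  rw [h2]
  generalize M.index = i at h4 h5 h6
  have h8 : b ≤ 156 := by
    have : b ∣ 156 := ⟨a * i, by nlinarith⟩
    exact Nat.le_of_dvd (by norm_num) this
  interval_cases a
  · omega
  · interval_cases b <;> omega
  · interval_cases b <;> omega

theorem sub13 {M : Subgroup G} (hM : M ≠ ⊤) (hd : 13 ∣ Nat.card M) :
    ∃ P ≤ M, Nat.card P = 13 ∧ M ≤ normalizer (P : Set G) := by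
  haveI : Fact (Nat.Prime 13) := ⟨by norm_num⟩
  obtain ⟨P, k1, k2, a, b, h1, h2, h3, h9⟩ := sub_aux hG hd (by norm_num) fun P => n13 hG
  refine ⟨P, k1, k2, h9 ?_⟩
  have h4 := M.card_mul_index
  rw [hG, h2] at h4
  have h8 : b ∣ 84 := ⟨a * M.index, by nlinarith⟩
  have h5 : ¬ 7 ∣ b := fun h => by
    have := Nat.le_of_dvd (by norm_num) (sub7 hG hM (h2 ▸ h.mul_left _))
    have h6 := Nat.le_of_dvd Nat.card_pos (Nat.Coprime.mul_dvd_of_dvd_of_dvd (by norm_num : Nat.Coprime 13 7)
      hd (h2 ▸ h.mul_left _))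
    omega
  have h7 := Nat.le_of_dvd (by norm_num) h8
  interval_cases b <;> omega

theorem sub_all {M : Subgroup G} (hM : M ≠ ⊤) :
    Nat.card M ∣ 14 ∨ Nat.card M ∣ 78 ∧ 13 ∣ Nat.card M ∨ Nat.card M ∣ 12 := by
  by_cases h7 : 7 ∣ Nat.card M
  · exact Or.inl (sub7 hG hM h7)
  by_cases h13 : 13 ∣ Nat.card M
  · obtain ⟨P, -, a, b⟩ := sub13 hG hM h13
    exact Or.inr (Or.inl ⟨n13 hG a ▸ card_dvd_of_le b, h13⟩)
  have h1 : Nat.card M ∣ 12 * 7 * 13 := by
    have := card_subgroup_dvd_card M
    rwa [hG] at this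
  exact Or.inr (Or.inr (((Nat.Prime.coprime_iff_not_dvd (by norm_num)).2 h7).symm.dvd_of_dvd_mul_right
    (((Nat.Prime.coprime_iff_not_dvd (by norm_num)).2 h13).symm.dvd_of_dvd_mul_right h1)))

theorem coatom {M : Subgroup G} (hM : M ≠ ⊤)
    (h : 12 ∣ Nat.card M ∨ 14 ∣ Nat.card M ∨ 78 ∣ Nat.card M) : IsCoatom M := by
  refine ⟨hM, fun N hN => ?_⟩
  by_contra hne
  have h1 := card_dvd_of_le hN.le
  refine hN.ne (eq_of_le_of_card_ge hN.le ?_)
  have h0 : 0 < Nat.card M := Nat.card_pos
  rcases sub_all hG hne with a | ⟨a, -⟩ | a <;> have := Nat.le_of_dvd (by norm_num) a <;>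
    rcases h with b | b | b <;> have := Nat.le_of_dvd h0 b <;> have := b.trans (h1.trans a) <;> omega

theorem n3 {P : Subgroup G} (hc : Nat.card P = 3) : Nat.card (normalizer (P : Set G)) = 12 ∧
    2 ∣ Nat.card (centralizer (P : Set G)) := by
  haveI : Fact (Nat.Prime 3) := ⟨by norm_num⟩
  obtain ⟨a, b, h1, h2, h3, h4⟩ := card_norm hG hc (by norm_num) (by norm_num)
  haveI : IsCyclic P := isCyclic_of_prime_card hc
  have key := card_dvd_of_injective _ (QuotientGroup.kerLift_injective P.normalizerMonoidHom)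
  rw [normalizerMonoidHom_ker, ← index, ← relIndex, IsCyclic.card_mulAut, hc,
    Nat.totient_prime Nat.prime_three] at key
  have h5 : (centralizer (P : Set G)).relIndex (normalizer (P : Set G)) = 2 :=
    ((Nat.dvd_prime Nat.prime_two).1 key).resolve_left fun e =>
      burn hG (p := 3) (k := 1) hc (by norm_num) (by norm_num) (by norm_num) (relIndex_eq_one.1 e)
  have h6 := card_mul_relIndex (centralizer_le_normalizer (P : Set G))
  rw [h5, h1] at h6
  have h7 := sub_all hG (norm_ne hG (H := P) (by omega) (ne_top_of hG (by omega)))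
  rw [h1] at h7 ⊢
  have h8 : a = 4 := by
    have h9 : a ≤ 26 := by
      rcases h7 with a | ⟨a, -⟩ | a <;> have := Nat.le_of_dvd (by norm_num) a <;> omega
    interval_cases a <;> omega
  subst h8
  omega

theorem cinv {s : G} (hs : orderOf s = 2) : 12 ∣ Nat.card (centralizer ({s} : Set G)) := by
  haveI : Fact (Nat.Prime 3) := ⟨by norm_num⟩
  haveI : Fact (Nat.Prime 2) := ⟨by norm_num⟩
  refine Nat.Coprime.mul_dvd_of_dvd_of_dvd (by norm_num : Nat.Coprime 3 4) ?_ ?_
  · obtain ⟨a, ha⟩ := exists_prime_orderOf_dvd_card' (G := G) 3 (by rw [hG]; norm_num)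
    obtain ⟨t, ht, ho⟩ := exists_ord (n3 hG (P := zpowers a) (by rw [Nat.card_zpowers, ha])).2
    have h1 := (zpowers t).card_mul_index
    rw [Nat.card_zpowers, ho, hG] at h1
    rcases H11.thompson_transfer (T := zpowers t) (by omega) (H11.mul_self_of_orderOf_two hs) with
      ⟨M, h, -⟩ | ⟨g, hg⟩
    · exact absurd h (no_two hG M)
    have h2 : g⁻¹ * a * g ∈ centralizer ({s} : Set G) := by
      rw [mem_centralizer_singleton_iff, eq_comm]
      obtain ⟨k, hk⟩ := hg
      have h3 : a * t ^ k = t ^ k * a := (Commute.zpow_right (ht a (mem_zpowers a)) k).eq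
      simp only at hk
      rw [hk] at h3
      calc _ = g⁻¹ * (g * s * g⁻¹ * a) * g := by group
        _ = _ := by rw [← h3]; group
    have h3 := orderOf_dvd_natCard (⟨_, h2⟩ : centralizer ({s} : Set G))
    rwa [Subgroup.orderOf_mk, show g⁻¹ * a * g = g⁻¹ * a * g⁻¹⁻¹ by rw [inv_inv], H11.orderOf_conj, ha] at h3
  · obtain ⟨V, hV⟩ := (IsPGroup.of_card (p := 2) (n := 1) (G := zpowers s)
      (by rw [Nat.card_zpowers, hs, pow_one])).exists_le_sylow
    have h1 : Nat.card V = 2 ^ 2 := by
      rw [V.card_eq_multiplicity, hG]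
      congr 1
      rw [show 1092 = 2 ^ 2 * 273 by norm_num, Nat.factorization_mul (by norm_num) (by norm_num),
        Nat.prime_two.factorization_pow]
      simp [Nat.factorization_eq_zero_of_not_dvd (show ¬ 2 ∣ 273 by norm_num)]
    have h2 := (IsPGroup.isMulCommutative_of_card_eq_prime_sq h1).is_comm.comm
    refine (show 4 = Nat.card V from h1.symm) ▸ card_dvd_of_le ?_
    rintro v hv _ rfl
    exact congrArg Subtype.val (h2 ⟨_, hV (mem_zpowers _)⟩ ⟨v, hv⟩)

theorem c13 {P : Subgroup G} (hc : Nat.card P = 13) : centralizer (P : Set G) ≤ P := by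
  haveI : Fact (Nat.Prime 13) := ⟨by norm_num⟩
  haveI : Fact (Nat.Prime 3) := ⟨by norm_num⟩
  haveI : Fact (Nat.Prime 2) := ⟨by norm_num⟩
  haveI : IsCyclic P := isCyclic_of_prime_card hc
  have h0 : P ≤ centralizer (P : Set G) := le_centralizer P
  have h1 := card_dvd_of_le (centralizer_le_normalizer (P : Set G))
  rw [n13 hG hc] at h1
  have h2 := card_dvd_of_le h0
  have h3 : ¬ 2 ∣ Nat.card (centralizer (P : Set G)) := fun h => by
    obtain ⟨s, hs, ho⟩ := exists_ord h
    have k1 := cinv hG ho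
    have k2 : 13 ∣ Nat.card (centralizer ({s} : Set G)) := hc ▸ card_dvd_of_le (by
      rintro x hx _ rfl; exact (hs x hx).symm)
    have k3 : centralizer ({s} : Set G) ≠ ⊤ := fun e =>
      norm_ne hG (H := zpowers s) (by rw [Nat.card_zpowers, ho]; norm_num)
        (ne_top_of hG (by rw [Nat.card_zpowers, ho]; norm_num)) (eq_top_iff.2 (by
          rw [← e, ← centralizer_closure, ← zpowers_eq_closure]; exact centralizer_le_normalizer _))
    rcases sub_all hG k3 with a | ⟨a, -⟩ | a
    · exact absurd (k1.trans a) (by norm_num)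
    · exact absurd (k1.trans a) (by norm_num)
    · exact absurd (k2.trans a) (by norm_num)
  have h4 : ¬ 3 ∣ Nat.card (centralizer (P : Set G)) := fun h => by
    obtain ⟨s, hs, ho⟩ := exists_ord h
    have k1 := (n3 hG (P := zpowers s) (by rw [Nat.card_zpowers, ho])).1
    have k2 := card_dvd_of_le ((le_centralizer_iff.1 (zpowers_le.2 hs)).trans (centralizer_le_normalizer _))
    rw [hc, k1] at k2
    exact absurd k2 (by norm_num)
  refine (eq_of_le_of_card_ge h0 ?_).ge
  have h5 := Nat.le_of_dvd (by norm_num) h1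
  rw [hc] at h2 ⊢
  generalize Nat.card (centralizer (P : Set G)) = m at h1 h2 h3 h4 h5
  interval_cases m <;> omega

theorem pm_simple : Pm G := by
  haveI : Fact (Nat.Prime 13) := ⟨by norm_num⟩
  haveI : Fact (Nat.Prime 3) := ⟨by norm_num⟩
  haveI : Fact (Nat.Prime 2) := ⟨by norm_num⟩
  intro H hH
  have hT : H ≠ ⊤ := by rintro rfl; exact hH inferInstance
  have h1 : Nat.card H ≠ 1 := fun e => hH (by rw [card_eq_one.1 e]; infer_instance)
  have hN := norm_ne hG h1 hT
  refine coatom hG hN ?_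
  have hd := card_dvd_of_le (le_normalizer (H := H))
  by_cases h13 : 13 ∣ Nat.card H
  · obtain ⟨P, a, b, c⟩ := sub13 hG hT h13
    refine Or.inr (Or.inr (n13 hG b ▸ card_dvd_of_le ?_))
    haveI : IsCyclic P := isCyclic_of_prime_card b
    have key : ∀ g ∈ normalizer (P : Set G), ∀ h ∈ H, g * h * g⁻¹ ∈ H := by
      intro g hg h hh
      have k1 : ⁅(⟨g, hg⟩ : normalizer (P : Set G)), ⟨h, c hh⟩⁆ ∈ P.normalizerMonoidHom.ker := by
        rw [MonoidHom.mem_ker, map_commutatorElement, commutatorElement_eq_one_iff_mul_comm]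
        exact (IsCyclic.mulAutMulEquiv P).injective (by rw [map_mul, map_mul, mul_comm])
      rw [normalizerMonoidHom_ker] at k1
      have k2 : g * h * g⁻¹ = ⁅g, h⁆ * h := by group
      rw [k2]
      exact mul_mem (a (c13 hG b k1)) hh
    intro g hg
    rw [mem_normalizer_iff]
    exact fun h => ⟨key g hg h, fun hh => by simpa [mul_assoc] using key g⁻¹ (inv_mem hg) _ hh⟩
  have h2 : Nat.card H = 2 → 12 ∣ Nat.card (normalizer (H : Set G)) := by
    intro e
    obtain ⟨s, hs, ho⟩ := exists_ord (p := 2) (N := H) (by rw [e])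
    obtain rfl : zpowers s = H := eq_of_le_of_card_ge (zpowers_le.2 hs) (by rw [Nat.card_zpowers, ho, e])
    refine (cinv hG ho).trans (card_dvd_of_le ?_)
    rw [← centralizer_closure, ← zpowers_eq_closure]; exact centralizer_le_normalizer _
  rcases sub_all hG hT with a | ⟨-, a⟩ | a
  · have h3 := Nat.le_of_dvd (by norm_num) a
    have h4 : Nat.card H = 2 ∨ Nat.card H = 7 ∨ Nat.card H = 14 := by
      generalize Nat.card H = m at a h1 h3
      interval_cases m <;> omega
    rcases h4 with e | e | e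
    · exact Or.inl (h2 e)
    · exact Or.inr (Or.inl (by rw [n7 hG e]))
    · exact Or.inr (Or.inl (e ▸ hd))
  · exact absurd a h13
  left
  have h3 := Nat.le_of_dvd (by norm_num) a
  have h4 : Nat.card H = 2 ∨ Nat.card H = 3 ∨ Nat.card H = 4 ∨ Nat.card H = 6 ∨ Nat.card H = 12 := by
    generalize Nat.card H = m at a h1 h3
    interval_cases m <;> omega
  rcases h4 with e | e | e | e | e
  · exact h2 e
  · rw [(n3 hG e).1]
  · have k1 := burn hG (p := 2) (k := 2) e (by norm_num) (by norm_num) (by norm_num)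
    haveI := IsPGroup.isMulCommutative_of_card_eq_prime_sq (p := 2) e
    have k2 : Nat.card (normalizer (H : Set G)) ≠ 4 := fun e' =>
      k1 ((eq_of_le_of_card_ge (le_normalizer (H := H)) (by omega)).ge.trans (le_centralizer H))
    rw [e] at hd
    rcases sub_all hG hN with b | ⟨b, -⟩ | b
    · exact absurd (hd.trans b) (by norm_num)
    · exact absurd (hd.trans b) (by norm_num)
    · have := Nat.le_of_dvd (by norm_num) b
      generalize Nat.card (normalizer (H : Set G)) = m at *
      interval_cases m <;> omega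
  · obtain ⟨s, hs, ho⟩ := exists_ord (p := 3) (N := H) (by rw [e]; norm_num)
    have k0 : Nat.card (zpowers s) = 3 := by rw [Nat.card_zpowers, ho]
    have k1 := card_mul_relIndex (zpowers_le.2 hs)
    have k2 : H ≤ normalizer ((zpowers s : Subgroup G) : Set G) :=
      (normal_subgroupOf_iff_le_normalizer (zpowers_le.2 hs)).1
        (normal_of_index_eq_two (by unfold relIndex at k1; rw [k0, e] at k1; omega))
    have k3 := card_mul_relIndex k2
    have k4 := (n3 hG k0).1
    exact k4 ▸ card_dvd_of_le ((normal_subgroupOf_iff_le_normalizer k2).1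
      (normal_of_index_eq_two (by unfold relIndex at k3; rw [k4, e] at k3; omega)))
  · exact e ▸ hd

end

theorem pm_cover {K : Type*} [Group K] [Finite K] (π : K →* G) (hπ : Function.Surjective π) (h : Pm G)
    (h1 : ∀ z ∈ π.ker, z * z = 1 ∧ z ∈ center K) (h2 : ∀ x : K, orderOf x = 2 → π.ker ≤ zpowers x) :
    Pm K := by
  haveI : Fact (Nat.Prime 2) := ⟨by norm_num⟩
  intro H hH
  have key : normalizer (H : Set K) = (normalizer (H.map π : Set G)).comap π := by
    rw [comap_normalizer_eq_of_surjective _ hπ, comap_map_eq]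
    by_cases he : 2 ∣ Nat.card H
    · obtain ⟨x, hx, ho⟩ := exists_ord he
      rw [sup_eq_left.2 ((h2 x ho).trans (zpowers_le.2 hx))]
    refine le_antisymm (fun g hg => ?_) (fun g hg => ?_)
    · exact mem_normalizer_fintype (by
        intro n hn
        obtain ⟨a, ha, z, hz, rfl⟩ := mem_sup_of_normal_right.1 hn
        have : g * (a * z) * g⁻¹ = g * a * g⁻¹ * (g * z * g⁻¹) := by group
        rw [this]
        exact mul_mem_sup ((mem_normalizer_iff.1 hg a).1 ha) (π.normal_ker.conj_mem z hz g))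
    · refine mem_normalizer_fintype fun n hn => ?_
      obtain ⟨a, ha, z, hz, e⟩ := mem_sup_of_normal_right.1
        ((mem_normalizer_iff.1 hg n).1 (mem_sup_left hn))
      obtain ⟨k, hk⟩ : Odd (Nat.card H) := Nat.odd_iff.2 (by omega)
      have k1 : ∀ x ∈ H, x ^ (2 * k + 1) = 1 := fun x hx => by
        rw [← hk]; exact congrArg Subtype.val (pow_card_eq_one' (x := (⟨x, hx⟩ : H)))
      have k2 : (a * z) ^ (2 * k + 1) = 1 := by rw [e, conj_pow, k1 n hn]; group
      rw [Commute.mul_pow (mem_center_iff.1 (h1 z hz).2 a), k1 a ha, pow_succ, pow_mul, pow_two,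
        (h1 z hz).1, one_pow, one_mul, one_mul] at k2
      rw [SetLike.mem_coe, ← e, k2, mul_one]
      exact ha
  rw [key]
  refine isCoatom_comap_of_surjective hπ (h _ fun hn => hH ?_)
  rw [← normalizer_eq_top_iff, key, normalizer_eq_top_iff.2 hn, comap_top]

theorem pm_prod {S : Type*} [CommGroup S] [Finite S] (h : Pm G)
    (hc : (Nat.card G).Coprime (Nat.card S)) : Pm (G × S) := by
  intro H hH
  obtain ⟨n, h1, h2⟩ := Nat.chineseRemainder hc 1 0
  have k1 : ∀ x ∈ H, (x.1, (1 : S)) ∈ H := by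
    intro x hx
    have a1 : x.1 ^ n = x.1 ^ 1 := pow_eq_pow_iff_modEq.2 (Nat.ModEq.of_dvd (orderOf_dvd_natCard x.1) h1)
    have a2 : x.2 ^ n = x.2 ^ 0 := pow_eq_pow_iff_modEq.2 (Nat.ModEq.of_dvd (orderOf_dvd_natCard x.2) h2)
    have : x ^ n = (x.1, 1) := Prod.ext (a1.trans (pow_one _)) (a2.trans (pow_zero _))
    exact this ▸ pow_mem hx n
  have key : normalizer (H : Set (G × S)) =
      (normalizer (H.comap (MonoidHom.inl G S) : Set G)).comap (MonoidHom.fst G S) := by
    refine le_antisymm (fun g hg => ?_) (fun g hg => ?_)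
    · refine mem_normalizer_fintype fun n hn => ?_
      have := (mem_normalizer_iff.1 hg _).1 hn
      have e : g * MonoidHom.inl G S n * g⁻¹ = MonoidHom.inl G S (g.1 * n * g.1⁻¹) := by
        ext <;> simp
      rw [e] at this
      exact this
    · refine mem_normalizer_fintype fun x hx => ?_
      have k2 := (mem_normalizer_iff.1 hg x.1).1 (k1 x hx)
      have e : g * x * g⁻¹ = MonoidHom.inl G S (g.1 * x.1 * g.1⁻¹) * ((x.1, (1 : S))⁻¹ * x) := by
        ext <;> simp
      rw [e]
      exact mul_mem k2 (mul_mem (inv_mem (k1 x hx)) hx)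
  rw [key]
  refine isCoatom_comap_of_surjective Prod.fst_surjective (h _ fun hn => hH ?_)
  rw [← normalizer_eq_top_iff, key, normalizer_eq_top_iff.2 hn, comap_top]

theorem pm_psl {K : Type*} [Group K] [Finite K] [Fact (Nat.Prime 13)]
    (e : K ≃* PSL(2, ZMod 13)) : Pm K := by
  haveI := Matrix.ProjectiveSpecialLinearGroup.rank_two_simple (F := ZMod 13) (by simp)
  haveI := e.isSimpleGroup
  have h1 := H12.card_PSL2 (F := ZMod 13) (ZMod.card 13)
  refine pm_simple ?_
  rw [Nat.card_congr e.toEquiv]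
  norm_num at h1 ⊢
  omega

theorem two13 : (2 : ZMod 13) ≠ 0 := by decide

theorem pm_sl {K : Type*} [Group K] [Finite K] [Fact (Nat.Prime 13)]
    (e : K ≃* SL(2, ZMod 13)) : Pm K := by
  have hZ : Nat.card (center SL(2, ZMod 13)) = 2 := by rw [H12.card_center_SL]; simp
  have hk : ∀ z, z ∈ ((QuotientGroup.mk' (center SL(2, ZMod 13))).comp e.toMonoidHom).ker ↔
      e z ∈ center SL(2, ZMod 13) := fun z => by
    rw [MonoidHom.mem_ker, MonoidHom.comp_apply, QuotientGroup.mk'_apply, QuotientGroup.eq_one_iff]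
    rfl
  refine pm_cover ((QuotientGroup.mk' (center SL(2, ZMod 13))).comp e.toMonoidHom)
    ((QuotientGroup.mk'_surjective _).comp e.surjective) (pm_psl (MulEquiv.refl _)) (fun z hz => ?_)
    fun x hx => ?_
  · rw [hk] at hz
    refine ⟨e.injective ?_, (CP.mem_center_equiv e).1 hz⟩
    have := pow_card_eq_one' (x := (⟨_, hz⟩ : center SL(2, ZMod 13)))
    rw [hZ, pow_two] at this
    rw [map_mul, map_one]
    exact congrArg Subtype.val this
  · have h1 : e x ∈ center SL(2, ZMod 13) := by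
      have h2 : e x * e x = 1 := by rw [← map_mul, H11.mul_self_of_orderOf_two hx, map_one]
      have h3 := congrArg Subtype.val h2
      have d := (e x).2
      generalize (e x) = g at h3 d
      rw [Matrix.det_fin_two] at d
      have e00 := congrFun (congrFun h3 0) 0
      have e01 := congrFun (congrFun h3 0) 1
      have e10 := congrFun (congrFun h3 1) 0
      have e11 := congrFun (congrFun h3 1) 1
      simp [Matrix.mul_apply, Fin.sum_univ_two] at e00 e01 e10 e11
      have t : g.1 0 0 + g.1 1 1 ≠ 0 := fun h0 => by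
        have : (2 : ZMod 13) = 0 := by linear_combination -e00 - d + g.1 0 0 * h0
        exact two13 this
      exact CP.center_of (mul_left_cancel₀ t (by linear_combination e10))
        (mul_left_cancel₀ t (by linear_combination e01)) (mul_left_cancel₀ t (by linear_combination e00 - e11))
    have h2 : zpowers x = ((QuotientGroup.mk' (center SL(2, ZMod 13))).comp e.toMonoidHom).ker := by
      refine eq_of_le_of_card_ge (zpowers_le.2 ((hk x).2 h1)) ?_
      rw [Nat.card_zpowers, hx]
      refine le_trans ?_ hZ.le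
      exact Nat.card_le_card_of_injective (fun z => ⟨e z.1, (hk _).1 z.2⟩)
        fun a b h => Subtype.ext (e.injective (congrArg Subtype.val h))
    exact h2.ge

end Cfsg.Agent.H22.L13
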