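import Cfsg.Agent.H27.SL2d
import Cfsg.Agent.H12.Root2
import Cfsg.Agent.H11.Invol
import Cfsg.Agent.H19.GL2Ord

/-! Local fusion graphs. -/

set_option autoImplicit false
set_option linter.style.haveILetI false

namespace Cfsg.Agent.H22.LF

open Matrix Cfsg.Agent.H12 Cfsg.Agent.H27 Subgroup
open scoped MatrixGroups

theorem sq_of_conj {G : Type*} [Group G] {t x : G} (ht : t * t = 1) (h : IsConj t x) :
    x * x = 1 := by
  obtain ⟨c, rfl⟩ := isConj_iff.1 h
  calc _ = c * (t * t) * c⁻¹ := by group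
    _ = 1 := by rw [ht]; group

theorem graph {G : Type*} [Group G] {t : G} (ht : t * t = 1)
    (h1 : ∀ x y, IsConj t x → IsConj t y → ¬ Odd (orderOf (x * y)) →
      ∃ z, z * z = 1 ∧ Odd (orderOf (x * z)) ∧ Odd (orderOf (z * y)))
    (h2 : ∃ x y, IsConj t x ∧ IsConj t y ∧ x ≠ y ∧ x * y = y * x) :
    (SimpleGraph.fromRel fun x y : {x : G // IsConj t x} => Odd (orderOf (x.1 * y.1))).Connected ∧
      (SimpleGraph.fromRel fun x y : {x : G // IsConj t x} =>
        Odd (orderOf (x.1 * y.1))).diam = 2 := by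
  set Γ := SimpleGraph.fromRel fun x y : {x : G // IsConj t x} => Odd (orderOf (x.1 * y.1))
  have hle : Γ.ediam ≤ 2 := SimpleGraph.ediam_le_of_edist_le fun u v => by
    by_cases huv : u = v
    · simp [huv]
    by_cases h : Odd (orderOf (u.1 * v.1))
    · exact (SimpleGraph.edist_eq_one_iff_adj.2 (show Γ.Adj u v from ⟨huv, Or.inl h⟩)).le.trans one_le_two
    obtain ⟨z, hz, a, b⟩ := h1 _ _ u.2 v.2 h
    let w : {x : G // IsConj t x} := ⟨z, u.2.trans (H11.isConj_of_odd (sq_of_conj ht u.2) hz a)⟩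
    have e1 : Γ.Adj u w := ⟨fun e => h (by rw [e]; exact b), Or.inl a⟩
    have e2 : Γ.Adj w v := ⟨fun e => h (by rw [← e]; exact a), Or.inl b⟩
    refine (SimpleGraph.edist_triangle (v := w)).trans ?_
    rw [SimpleGraph.edist_eq_one_iff_adj.2 e1, SimpleGraph.edist_eq_one_iff_adj.2 e2]
    rfl
  haveI : Nonempty {x : G // IsConj t x} := ⟨⟨t, IsConj.refl t⟩⟩
  refine ⟨SimpleGraph.connected_of_ediam_ne_top (ne_top_of_le_ne_top (by simp) hle), ?_⟩
  obtain ⟨x, y, hx, hy, hne, hc⟩ := h2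
  have hxy : ∀ {a b : G}, a * a = 1 → b * b = 1 → a ≠ b → a * b = b * a →
      ¬ Odd (orderOf (a * b)) := fun {a b} ha hb hne hc => by
    rw [orderOf_eq_prime (p := 2) (by
      rw [sq, mul_assoc, ← mul_assoc b, ← hc, mul_assoc, hb, mul_one, ha]) (fun e => hne (by
      rw [← mul_one a, ← hb, ← mul_assoc, e, one_mul]))]
    decide
  have hge : 2 ≤ Γ.edist ⟨x, hx⟩ ⟨y, hy⟩ := by
    by_contra hh
    have : Γ.edist ⟨x, hx⟩ ⟨y, hy⟩ ≤ 1 := Order.le_of_lt_succ (not_le.1 hh)
    rcases SimpleGraph.edist_le_one_iff_adj_or_eq.1 this with e | e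
    · rcases e.2 with e | e
      · exact hxy (sq_of_conj ht hx) (sq_of_conj ht hy) hne hc e
      · exact hxy (sq_of_conj ht hy) (sq_of_conj ht hx) hne.symm hc.symm e
    · exact hne (congrArg Subtype.val e)
  rw [SimpleGraph.diam, le_antisymm hle (hge.trans SimpleGraph.edist_le_ediam)]
  rfl

variable {F : Type*} [Field F] [Fintype F]

theorem cnt (h2 : (2 : F) ≠ 0) (h3 : ¬ IsSquare (-1 : F)) {δ : F} (hδ : δ ≠ 0) (m : F) :
    ∃ l : F, l ≠ 0 ∧ ¬ IsSquare ((l + l⁻¹ + m) ^ 2 + δ ^ 2) := by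
  classical
  by_contra hh
  push Not at hh
  let s1 : Finset F := Finset.univ.erase 0
  let s0 : Finset F := (s1.erase 1).erase (-1)
  let f : F → F := fun l => l + l⁻¹ + m
  let g : F → F := fun u => (δ ^ 2 / u - u) / 2
  have h11 : (-1 : F) ≠ 1 := fun h => h2 (by linear_combination -h)
  have c1 : s1.card + 1 = Fintype.card F := by
    rw [Finset.card_erase_add_one (Finset.mem_univ _), Finset.card_univ]
  have c0 : s0.card + 2 = s1.card := by
    rw [← Finset.card_erase_add_one (s := s1) (a := 1) (by simp [s1]),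
      ← Finset.card_erase_add_one (s := s1.erase 1) (a := -1) (by simp [s1, h11])]
  have hsub : insert (f 1) (insert (f (-1)) (s0.image f)) ⊆ s1.image g := by
    have key : ∀ l, l ≠ 0 → f l ∈ s1.image g := fun l hl => by
      obtain ⟨c, hc⟩ := hh l hl
      have h0 : c - f l ≠ 0 := fun e => hδ (by
        have : c = f l := sub_eq_zero.1 e
        rw [this] at hc
        exact pow_eq_zero_iff two_ne_zero |>.1 (by simp only [f] at hc ⊢; linear_combination hc))
      refine Finset.mem_image.2 ⟨c - f l, by simp [s1, h0], ?_⟩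
      simp only [g]
      field_simp
      simp only [f] at hc ⊢
      linear_combination hc
    intro v hv
    simp only [Finset.mem_insert, Finset.mem_image] at hv
    rcases hv with rfl | rfl | ⟨l, hl, rfl⟩
    · exact key _ one_ne_zero
    · exact key _ (by simp)
    · exact key _ (by simp [s0, s1] at hl; tauto)
  have finj : ∀ a b : F, a ≠ 0 → b ≠ 0 → f a = f b → a = b ∨ a = b⁻¹ := fun a b ha hb e => by
    have : (a - b) * (a * b - 1) = 0 := by
      simp only [f] at e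
      field_simp at e
      linear_combination e
    rcases mul_eq_zero.1 this with e | e
    · exact Or.inl (sub_eq_zero.1 e)
    · exact Or.inr (eq_inv_of_mul_eq_one_left (sub_eq_zero.1 e))
  have m0 : ∀ l ∈ s0, l ≠ 0 ∧ l ≠ 1 ∧ l ≠ -1 := fun l hl => by simp [s0, s1] at hl; tauto
  have c2 : (insert (f 1) (insert (f (-1)) (s0.image f))).card = (s0.image f).card + 2 := by
    rw [Finset.card_insert_of_notMem, Finset.card_insert_of_notMem]
    · rw [Finset.mem_image]
      rintro ⟨l, hl, e⟩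
      rcases finj _ _ (m0 l hl).1 (by simp) e with e | e <;> exact (m0 l hl).2.2 (by simpa using e)
    · rw [Finset.mem_insert, Finset.mem_image]
      rintro (e | ⟨l, hl, e⟩)
      · rcases finj _ _ one_ne_zero (by simp) e with e | e <;> exact h11 (by simpa using e.symm)
      · rcases finj _ _ (m0 l hl).1 one_ne_zero e with e | e <;>
          exact (m0 l hl).2.1 (by simpa using e)
  have c3 : s0.card ≤ 2 * (s0.image f).card := Finset.card_le_mul_card_image s0 2 fun v hv => by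
    obtain ⟨b, hb, rfl⟩ := Finset.mem_image.1 hv
    refine (Finset.card_le_card (t := {b, b⁻¹}) fun a ha => ?_).trans Finset.card_le_two
    rw [Finset.mem_filter] at ha
    simpa using finj a b (m0 a ha.1).1 (m0 b hb).1 ha.2
  have c4 : 2 * (s1.image g).card ≤ s1.card := Finset.mul_card_image_le_card s1 2 fun v hv => by
    obtain ⟨b, hb, rfl⟩ := Finset.mem_image.1 hv
    have hb0 : b ≠ 0 := by simpa [s1] using hb
    have hne : b ≠ -δ ^ 2 / b := fun e => h3 ⟨b / δ, by
      field_simp at e ⊢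
      linear_combination -e⟩
    rw [← Finset.card_pair hne]
    refine Finset.card_le_card fun a ha => ?_
    simp only [Finset.mem_insert, Finset.mem_singleton] at ha
    rcases ha with rfl | rfl
    · simp [hb]
    · simp only [Finset.mem_filter, s1, g, Finset.mem_erase, Finset.mem_univ, and_true]
      refine ⟨by simp [hδ, hb0], ?_⟩
      field_simp
      ring
  have := Finset.card_le_card hsub
  omega

theorem odd_of_pow {g : PSL(2, F)} {n : ℕ} (hn : Odd n) (h : g ^ n = 1) : Odd (orderOf g) :=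
  hn.of_dvd_nat (orderOf_dvd_of_pow_eq_one h)

theorem odd_of_tr (h2 : (2 : F) ≠ 0) {g : SL(2, F)} (h : g.1.trace ^ 2 = 4) :
    Odd (orderOf (g : PSL(2, F))) := by
  obtain ⟨p, hp⟩ := CharP.exists F
  have hp' := CharP.char_is_prime F p
  have hodd : Odd p := hp'.odd_of_ne_two fun e => h2 (by
    have := CharP.cast_eq_zero F p
    rwa [e] at this)
  have key : ∀ g : SL(2, F), g.1.trace = 2 → Odd (orderOf (g : PSL(2, F))) := fun g hg => by
    refine odd_of_pow hodd ?_
    rw [← QuotientGroup.mk_pow, psl2_mk_eq_one_iff]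
    exact Or.inl (Subtype.ext (by rw [sl2_pow_of_trace_eq_two hg]; simp))
  have : (g.1.trace - 2) * (g.1.trace + 2) = 0 := by linear_combination h
  rcases mul_eq_zero.1 this with e | e
  · exact key g (sub_eq_zero.1 e)
  · rw [← psl2_mk_neg]
    refine key _ ?_
    change (-(g : Matrix (Fin 2) (Fin 2) F)).trace = 2
    rw [trace_neg]
    exact (by linear_combination -e : -g.1.trace = 2)

theorem odd_of_split (h2 : (2 : F) ≠ 0) (h3 : Fintype.card F % 4 = 3) {g : SL(2, F)} {l : F}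
    (hl : l ≠ 0) (h : g.1.trace = l + l⁻¹) : Odd (orderOf (g : PSL(2, F))) := by
  by_cases hg : g.1.trace ^ 2 = 4
  · exact odd_of_tr h2 hg
  have he : Eig (RingHom.id F) g l := ⟨hl, h⟩
  refine odd_of_pow (n := (Fintype.card F - 1) / 2) (Nat.odd_iff.2 (by omega)) ?_
  rw [he.psl_pow_eq_one_iff hg, show 2 * ((Fintype.card F - 1) / 2) = Fintype.card F - 1 by omega]
  exact FiniteField.pow_card_sub_one_eq_one l hl

omit [Fintype F] in
theorem exists_z {x y : SL(2, F)} (hx : x.1.trace = 0) (hy : y.1.trace = 0) {τ u v c : F}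
    (hτ : (x * y).1.trace = τ) (hD : τ ^ 2 ≠ 4)
    (hc : c ^ 2 = -(u ^ 2 + τ * u * v + v ^ 2 + τ ^ 2 - 4)) :
    ∃ z : SL(2, F), z.1.trace = 0 ∧ (x * z).1.trace = u ∧ (z * y).1.trace = v := by
  have hD' : τ ^ 2 - 4 ≠ 0 := sub_ne_zero.2 hD
  obtain ⟨x, dx⟩ := x
  obtain ⟨y, dy⟩ := y
  change (x * y).trace = τ at hτ
  simp only [trace_fin_two, det_fin_two, Matrix.mul_apply, Fin.sum_univ_two] at hx hy hτ dx dy
  have ex : x 1 1 = - x 0 0 := by linear_combination hx
  have ey : y 1 1 = - y 0 0 := by linear_combination hy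
  rw [ex] at dx hτ
  rw [ey] at dy hτ
  obtain ⟨a, ha⟩ : ∃ a, a = (2 * u + τ * v) / (τ ^ 2 - 4) := ⟨_, rfl⟩
  obtain ⟨b, hb⟩ : ∃ b, b = (τ * u + 2 * v) / (τ ^ 2 - 4) := ⟨_, rfl⟩
  obtain ⟨d, hd⟩ : ∃ d, d = c / (τ ^ 2 - 4) := ⟨_, rfl⟩
  have e1 : -2 * a + τ * b = u := by rw [ha, hb]; field_simp; ring
  have e2 : τ * a - 2 * b = v := by rw [ha, hb]; field_simp; ring
  have e3 : a ^ 2 + b ^ 2 - a * b * τ - d ^ 2 * (τ ^ 2 - 4) = 1 := by
    rw [ha, hb, hd]; field_simp; linear_combination (4 - τ ^ 2) * hc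
  refine ⟨⟨a • x + b • y + d • (x * y - y * x), ?_⟩, ?_, ?_, ?_⟩
  · simp only [det_fin_two, Matrix.mul_apply, Fin.sum_univ_two, Matrix.add_apply,
      Matrix.smul_apply, Matrix.sub_apply, smul_eq_mul, ex, ey]
    rw [← e3, ← hτ]
    linear_combination (a ^ 2 + 4 * d ^ 2 * (-y 0 0 ^ 2 - y 0 1 * y 1 0)) * dx + (b ^ 2 + 4 * d ^ 2) * dy
  · simp only [trace_fin_two, Matrix.mul_apply, Fin.sum_univ_two, Matrix.add_apply,
      Matrix.smul_apply, Matrix.sub_apply, smul_eq_mul, ex, ey]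
    ring
  · change (x * (a • x + b • y + d • (x * y - y * x))).trace = u
    simp only [trace_fin_two, Matrix.mul_apply, Fin.sum_univ_two, Matrix.add_apply,
      Matrix.smul_apply, Matrix.sub_apply, smul_eq_mul, ex, ey]
    rw [← e1, ← hτ]
    linear_combination (-2 * a) * dx
  · change ((a • x + b • y + d • (x * y - y * x)) * y).trace = v
    simp only [trace_fin_two, Matrix.mul_apply, Fin.sum_univ_two, Matrix.add_apply,
      Matrix.smul_apply, Matrix.sub_apply, smul_eq_mul, ex, ey]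
    rw [← e2, ← hτ]
    linear_combination (-2 * b) * dy

theorem odd_case (h2 : (2 : F) ≠ 0) (hF : 4 ≤ Fintype.card F) {x y : SL(2, F)}
    (hx : x.1.trace = 0) (hy : y.1.trace = 0) (h : ¬ Odd (orderOf ((x * y : SL(2, F)) : PSL(2, F)))) :
    ∃ z : SL(2, F), z.1.trace = 0 ∧ Odd (orderOf ((x * z : SL(2, F)) : PSL(2, F))) ∧
      Odd (orderOf ((z * y : SL(2, F)) : PSL(2, F))) := by
  classical
  obtain ⟨τ, hτ⟩ : ∃ τ, (x * y).1.trace = τ := ⟨_, rfl⟩
  have hD : τ ^ 2 ≠ 4 := fun e => h (odd_of_tr h2 (by rw [hτ, e]))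
  by_cases h3 : IsSquare (-1 : F)
  · obtain ⟨i, hi⟩ := h3
    obtain ⟨z, a, b, c⟩ := exists_z hx hy hτ hD (u := 2) (v := 2) (c := i * (τ + 2))
      (by linear_combination (-(τ + 2) ^ 2) * hi)
    exact ⟨z, a, odd_of_tr h2 (by rw [b]; norm_num), odd_of_tr h2 (by rw [c]; norm_num)⟩
  have hq : Fintype.card F % 4 = 3 := by
    by_contra hh; exact h3 (FiniteField.isSquare_neg_one_iff.2 hh)
  have hns : ∀ a : F, ¬ IsSquare a → IsSquare (-a) := fun a ha => by
    have ha0 : a ≠ 0 := by rintro rfl; exact ha IsSquare.zero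
    rw [← quadraticChar_one_iff_isSquare (neg_ne_zero.2 ha0), ← neg_one_mul, map_mul,
      quadraticChar_neg_one_iff_not_isSquare.2 ha, quadraticChar_neg_one_iff_not_isSquare.2 h3]
    norm_num
  obtain ⟨d, hd⟩ : IsSquare (-(τ ^ 2 - 4)) := hns _ fun ⟨s, hs⟩ => by
    have h0 : (τ + s) / 2 * ((τ - s) / 2) = 1 := by
      field_simp; linear_combination hs
    refine h (odd_of_split h2 hq (l := (τ + s) / 2) (left_ne_zero_of_mul_eq_one h0) ?_)
    rw [hτ, ← eq_inv_of_mul_eq_one_right h0]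
    field_simp; ring
  obtain ⟨l, hl, hl1⟩ := exists_sq_ne_one_of_four_le (F := F) (by rwa [Nat.card_eq_fintype_card])
  have hd0 : d ≠ 0 := by rintro rfl; exact hD (by linear_combination -hd)
  have hl2 : l - l⁻¹ ≠ 0 := fun e => hl1 (by field_simp at e; linear_combination e)
  obtain ⟨m, hm, hm'⟩ := cnt h2 h3 (δ := d * (l - l⁻¹) / 2)
    (div_ne_zero (mul_ne_zero hd0 hl2) h2) (τ * (l + l⁻¹) / 2)
  obtain ⟨c, hc⟩ := hns _ hm'
  obtain ⟨z, a, b, e⟩ := exists_z hx hy hτ hD (u := l + l⁻¹) (v := m + m⁻¹) (c := c) (by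
    have h1 : l * l⁻¹ = 1 := mul_inv_cancel₀ hl
    have h4 : (2 : F) * 2⁻¹ = 1 := mul_inv_cancel₀ h2
    rw [sq c, ← hc, neg_inj, div_eq_mul_inv, div_eq_mul_inv]
    generalize (2 : F)⁻¹ = j at h4
    linear_combination (-(j * (l - l⁻¹)) ^ 2) * hd + (4 * j ^ 2 * (τ ^ 2 - 4)) * h1 +
      ((m + m⁻¹) * τ * (l + l⁻¹) + (2 * j + 1) * ((l + l⁻¹) ^ 2 + τ ^ 2 - 4)) * h4)
  exact ⟨z, a, odd_of_split h2 hq hl b, odd_of_split h2 hq hm e⟩

theorem root_of_sq [CharP F 2] {x : SL(2, F)} (hx : x * x = 1) : ∃ a, x ∈ rootSL a := by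
  have : IsPGroup 2 (zpowers x) := IsPGroup.of_card_dvd_pow (n := 1) (by
    rw [Nat.card_zpowers, pow_one]; exact orderOf_dvd_of_pow_eq_one (by rw [sq, hx]))
  obtain ⟨P, hP⟩ := this.exists_le_sylow
  obtain ⟨a, ha⟩ := sylow_SL2_eq_rootSL 2 P
  exact ⟨a, ha ▸ hP (mem_zpowers x)⟩

theorem odd_root [CharP F 2] {x z : SL(2, F)} {a c : P1 F} (hx : x ∈ rootSL a) (hz : z ∈ rootSL c)
    (hx1 : x ≠ 1) (hz1 : z ≠ 1) (hac : a ≠ c) : Odd (orderOf ((x * z : SL(2, F)) : PSL(2, F))) := by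
  have hq : Even (Fintype.card F) := by
    rw [← Nat.not_odd_iff_even, ← two_ne_zero_iff_odd, not_not]
    exact CharP.cast_eq_zero F 2
  refine odd_of_pow (n := orderOf (x * z)) ?_ (by rw [← QuotientGroup.mk_pow, pow_orderOf_eq_one]; rfl)
  rcases H19.orderOf_SL2_dvd_two (x * z) with h | h | h
  · have h1 := orderOf_dvd_iff_pow_eq_one.1 h
    have h2 := pow_char_of_mem_rootSL 2 hx
    have h3 := pow_char_of_mem_rootSL 2 hz
    rw [sq] at h1 h2 h3
    have hc : x * z = z * x := by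
      calc _ = (x * z)⁻¹ := eq_inv_of_mul_eq_one_left h1
        _ = _ := by
          rw [_root_.mul_inv_rev, ← eq_inv_of_mul_eq_one_left h2, ← eq_inv_of_mul_eq_one_left h3]
    have := eq_of_mem_rootSL_of_smul_eq hx hx1 (y := z • a) (by
      rw [← mul_smul, hc, mul_smul, smul_eq_of_mem_rootSL hx])
    exact (hac (eq_of_mem_rootSL_of_smul_eq hz hz1 this)).elim
  · exact (Nat.Even.sub_odd Fintype.card_pos hq odd_one).of_dvd_nat h
  · exact hq.add_one.of_dvd_nat h

theorem main (hF : 4 ≤ Fintype.card F) (t : PSL(2, F)) (ht : orderOf t = 2) :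
    (SimpleGraph.fromRel fun x y : {x : PSL(2, F) // IsConj t x} =>
        Odd (orderOf (x.1 * y.1))).Connected ∧
      (SimpleGraph.fromRel fun x y : {x : PSL(2, F) // IsConj t x} =>
        Odd (orderOf (x.1 * y.1))).diam = 2 := by
  classical
  have ht2 : t * t = 1 := by rw [← sq]; exact orderOf_dvd_iff_pow_eq_one.1 ht.dvd
  have ht1 : t ≠ 1 := by rintro rfl; simp at ht
  have hc1 : ∀ x, IsConj t x → x ≠ 1 := by
    rintro x hx rfl
    exact ht1 (isConj_one_left.1 hx)
  by_cases h2 : (2 : F) = 0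
  · haveI : CharP F 2 := (CharP.charP_iff_prime_eq_zero Nat.prime_two).2 (by simpa using h2)
    have hn : (-1 : SL(2, F)) = 1 := Subtype.ext (by
      change -(1 : Matrix (Fin 2) (Fin 2) F) = 1
      ext i j
      rw [Matrix.neg_apply, CharTwo.neg_eq])
    have lift : ∀ x : PSL(2, F), x * x = 1 → x ≠ 1 →
        ∃ (g : SL(2, F)) (a : P1 F), g ∈ rootSL a ∧ g ≠ 1 ∧ (g : PSL(2, F)) = x := fun x h h1 => by
      obtain ⟨g, rfl⟩ := QuotientGroup.mk_surjective x
      rw [← QuotientGroup.mk_mul, psl2_mk_eq_one_iff, hn, or_self] at h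
      obtain ⟨a, ha⟩ := root_of_sq h
      exact ⟨g, a, ha, fun e => h1 (by rw [e]; rfl), rfl⟩
    have hsq : ∀ {g : SL(2, F)} {a : P1 F}, g ∈ rootSL a → (g : PSL(2, F)) * g = 1 := fun h => by
      rw [← QuotientGroup.mk_mul, ← sq, pow_char_of_mem_rootSL 2 h]; rfl
    have third : ∀ a b : P1 F, ∃ (c : P1 F) (z : SL(2, F)), c ≠ a ∧ c ≠ b ∧ z ∈ rootSL c ∧ z ≠ 1 := by
      intro a b
      obtain ⟨c, h1, h2⟩ : ∃ c : P1 F, c ≠ a ∧ c ≠ b := by
        by_contra hh
        push Not at hh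
        have e : ∀ u v : P1 F, u ≠ v → u = a ∨ v = a := fun u v huv => by
          by_contra h
          push Not at h
          exact huv ((hh u h.1).trans (hh v h.2).symm)
        have n1 : aff (0 : F) ≠ aff 1 := fun h => zero_ne_one (aff_injective h)
        rcases e _ _ (aff_ne_inf (0 : F)) with e1 | e1 <;>
          rcases e _ _ (aff_ne_inf (1 : F)) with e2 | e2 <;> rcases e _ _ n1 with e3 | e3
        all_goals first
          | exact n1 (e1.trans e2.symm)
          | exact aff_ne_inf _ (e1.trans e2.symm)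
          | exact aff_ne_inf _ (e2.trans e1.symm)
          | exact aff_ne_inf _ (e3.trans e1.symm)
      obtain ⟨⟨z, hz⟩, hz1⟩ := ne_bot_iff_exists_ne_one.1 (rootSL_ne_bot c)
      exact ⟨c, z, h1, h2, hz, fun e => hz1 (Subtype.ext e)⟩
    refine graph ht2 (fun x y hx hy _ => ?_) ?_
    · obtain ⟨g, a, ha, g1, rfl⟩ := lift x (sq_of_conj ht2 hx) (hc1 x hx)
      obtain ⟨k, b, hb, k1, rfl⟩ := lift y (sq_of_conj ht2 hy) (hc1 y hy)
      obtain ⟨c, z, h1, h2, hz, z1⟩ := third a b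
      exact ⟨z, hsq hz, odd_root ha hz g1 z1 h1.symm, odd_root hz hb z1 k1 h2⟩
    · obtain ⟨g, a, ha, g1, rfl⟩ := lift t ht2 ht1
      obtain ⟨c, z, h1, -, hz, z1⟩ := third a a
      obtain ⟨e⟩ := nonempty_rootSL_equiv a
      obtain ⟨k, hk1, hk2⟩ : ∃ k : rootSL a, k ≠ 1 ∧ k ≠ ⟨g, ha⟩ := by
        by_contra hh
        push Not at hh
        have : Nat.card (rootSL a) ≤ 2 := by
          rw [← Nat.card_eq_fintype_card, ← card_rootSL a] at hF
          have := Nat.card_le_card_of_injective (fun k : rootSL a => decide (k = 1)) fun u v h => by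
            by_cases hu : u = 1
            · simp only [hu, decide_true, true_eq_decide_iff] at h
              rw [hu, h]
            · simp only [hu, decide_false, false_eq_decide_iff] at h
              rw [hh u hu, hh v h]
          simpa using this
        rw [card_rootSL, Nat.card_eq_fintype_card] at this
        omega
      refine ⟨g, k.1, IsConj.refl _, ?_, fun h => ?_, ?_⟩
      · exact (H11.isConj_of_odd ht2 (hsq hz) (odd_root ha hz g1 z1 h1.symm)).trans
          (H11.isConj_of_odd (hsq hz) (hsq k.2) (odd_root hz k.2 z1 (fun e => hk1 (Subtype.ext e)) h1))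
      · rw [psl2_mk_eq_mk_iff, ← neg_one_mul, hn, one_mul, or_self] at h
        exact hk2 (Subtype.ext h.symm)
      · rw [← QuotientGroup.mk_mul, ← QuotientGroup.mk_mul]
        exact congrArg (fun u : rootSL a => ((u : SL(2, F)) : PSL(2, F)))
          (e.injective (by rw [map_mul, map_mul, mul_comm]) : (⟨g, ha⟩ : rootSL a) * k = k * ⟨g, ha⟩)
  · have lift : ∀ x : PSL(2, F), x * x = 1 → x ≠ 1 →
        ∃ g : SL(2, F), g.1.trace = 0 ∧ (g : PSL(2, F)) = x := fun x h h1 => by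
      obtain ⟨g, rfl⟩ := QuotientGroup.mk_surjective x
      rw [← QuotientGroup.mk_mul, psl2_mk_eq_one_iff] at h
      exact ⟨g, sl2_trace_of_mul_self (h.resolve_left fun e =>
        h1 (psl2_mk_eq_one_iff.2 (sl2_eq_of_mul_self h2 e))), rfl⟩
    refine graph ht2 (fun x y hx hy h => ?_) ?_
    · obtain ⟨g, ha, rfl⟩ := lift x (sq_of_conj ht2 hx) (hc1 x hx)
      obtain ⟨k, hb, rfl⟩ := lift y (sq_of_conj ht2 hy) (hc1 y hy)
      obtain ⟨z, h0, h1, h2⟩ := odd_case h2 hF ha hb h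
      refine ⟨z, ?_, h1, h2⟩
      rw [← QuotientGroup.mk_mul, psl2_mk_eq_one_iff]
      exact Or.inr (sl2_mul_self_of_trace h0)
    · obtain ⟨g, ha, rfl⟩ := lift t ht2 ht1
      have hr : g.1.trace ^ 2 ≠ 4 := fun e => h2 (pow_eq_zero_iff two_ne_zero |>.1 (by
        rw [ha] at e; linear_combination -e))
      obtain ⟨w, hw, hww⟩ := exists_inverting hr
      obtain ⟨P, hP⟩ := exists_conj_of_trace_eq hr ((sl2_trace_of_mul_self hww).trans ha.symm)
      have hi : g⁻¹ = -g := by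
        rw [inv_eq_iff_mul_eq_one, mul_neg, sl2_mul_self_of_trace ha, neg_neg]
      refine ⟨g, w, IsConj.refl _, isConj_iff.2 ⟨P, by rw [← hP]; rfl⟩, fun h => ?_, ?_⟩
      · refine ne_inv_of_trace_ne hr ?_
        rw [← hw]
        rcases psl2_mk_eq_mk_iff.1 h with e | e <;> simp [e]
      · rw [← QuotientGroup.mk_mul, ← QuotientGroup.mk_mul, psl2_mk_eq_mk_iff]
        rw [hi, mul_inv_eq_iff_eq_mul] at hw
        exact Or.inr (by rw [hw]; simp)

end Cfsg.Agent.H22.LF
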