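import Cfsg.Agent.H22.LFG

/-! Local fusion graphs of symmetric groups. -/

set_option autoImplicit false
set_option linter.style.haveILetI false

namespace Cfsg.Agent.H22.LF

open Function Finset

variable {Ω : Type*} [DecidableEq Ω] {S T : Finset Ω} {x y z : Ω → Ω}

/-- involution on `S` -/
def Iv (S : Finset Ω) (x : Ω → Ω) : Prop := ∀ p ∈ S, x p ∈ S ∧ x (x p) = p
/-- all cycles in `S` are odd -/
def Od (S : Finset Ω) (f : Ω → Ω) : Prop := ∀ p ∈ S, ∃ k, Odd k ∧ f^[k] p = p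
/-- a common neighbour exists -/
def Good (S : Finset Ω) (x y : Ω → Ω) : Prop := ∃ z, Iv S z ∧ Od S (x ∘ z) ∧ Od S (y ∘ z)
/-- the exceptional configuration -/
def Exc (S : Finset Ω) (x y : Ω → Ω) : Prop :=
  ∃ a b c d, S = {a, b, c, d} ∧ S.card = 4 ∧ x a = b ∧ y b = c ∧ x c = d ∧ y d = a
/-- number of fixed points -/
def fx (S : Finset Ω) (x : Ω → Ω) : ℕ := (S.filter fun p => x p = p).card

omit [DecidableEq Ω] in
theorem ret {f' : Ω → Ω} (hx : Iv S x) (hz : Iv S z)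
    (h1 : ∀ p ∈ T, f' p ∈ T ∧ ∃ r, Odd r ∧ f' p = (x ∘ z)^[r] p)
    (h2 : ∀ p ∈ S, (∃ i, (x ∘ z)^[i] p ∈ T) ∨ ∃ r, Odd r ∧ (x ∘ z)^[r] p = p) (h : Od T f') :
    Od S (x ∘ z) := by
  have key : ∀ p ∈ T, ∀ j, f'^[j] p ∈ T ∧ ∃ r, r % 2 = j % 2 ∧ f'^[j] p = (x ∘ z)^[r] p := by
    intro p hp j
    induction j with
    | zero => exact ⟨hp, 0, rfl, rfl⟩
    | succ j ih =>
      obtain ⟨h3, r, hr, e⟩ := ih
      obtain ⟨h4, s, hs, e'⟩ := h1 _ h3
      rw [iterate_succ_apply']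
      exact ⟨h4, s + r, by have := Nat.odd_iff.1 hs; omega, by rw [e', e, iterate_add_apply]⟩
  have hm : Set.MapsTo (x ∘ z) S S := fun p hp => (hx _ (hz p hp).1).1
  have hi : Set.InjOn (x ∘ z) S := fun p hp q hq e => by
    have := congrArg (z ∘ x) e
    simpa only [comp, (hx _ (hz p hp).1).2, (hx _ (hz q hq).1).2, (hz p hp).2, (hz q hq).2]
      using this
  intro p hp
  rcases h2 p hp with ⟨i, h3⟩ | h3
  · obtain ⟨k, hk, e⟩ := h _ h3
    obtain ⟨-, r, hr, e'⟩ := key _ h3 k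
    refine ⟨r, Nat.odd_iff.2 (hr.trans (Nat.odd_iff.1 hk)), hi.iterate hm i (hm.iterate r hp) hp ?_⟩
    rw [← iterate_add_apply, add_comm, iterate_add_apply, ← e', e]
  · exact h3

theorem Iv.sdiff (h : Iv S x) (h' : Iv T x) : Iv (S \ T) x := fun p hp => by
  rw [mem_sdiff] at hp ⊢
  exact ⟨⟨(h p hp.1).1, fun e => hp.2 ((h p hp.1).2 ▸ (h' _ e).1)⟩, (h p hp.1).2⟩

theorem fx_sdiff (h : T ⊆ S) : fx (S \ T) x + fx T x = fx S x := by
  rw [fx, fx, fx, ← card_union_of_disjoint (disjoint_filter_filter sdiff_disjoint), ← filter_union,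
    sdiff_union_of_subset h]

theorem Good.split (hx : Iv S x) (hy : Iv S y) (hx' : Iv T x) (hy' : Iv T y) (hT : T ⊆ S)
    (e : ∀ p ∈ T, x p = y p) (h : Good (S \ T) x y) : Good S x y := by
  obtain ⟨z, hz, h1, h2⟩ := h
  have hz' : Iv S (T.piecewise x z) := fun p hp => by
    by_cases h : p ∈ T
    · rw [piecewise_eq_of_mem _ _ _ h, piecewise_eq_of_mem _ _ _ (hx' p h).1]
      exact hx p hp
    · have := hz p (mem_sdiff.2 ⟨hp, h⟩)
      rw [piecewise_eq_of_notMem _ _ _ h, piecewise_eq_of_notMem _ _ _ (mem_sdiff.1 this.1).2]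
      exact ⟨(mem_sdiff.1 this.1).1, this.2⟩
  have key : ∀ {u}, Iv S u → Iv T u → (∀ p ∈ T, x p = u p) → Od (S \ T) (u ∘ z) →
      Od S (u ∘ T.piecewise x z) := fun {u} hu hu' e h => by
    refine ret hu hz' (fun p hp => ⟨((hu.sdiff hu') _ (hz p hp).1).1, 1, odd_one, ?_⟩)
      (fun p hp => ?_) h
    · simp [piecewise_eq_of_notMem _ _ _ (mem_sdiff.1 hp).2]
    · by_cases h : p ∈ T
      · exact Or.inr ⟨1, odd_one, by simp [h, e p h, (hu p hp).2]⟩
      · exact Or.inl ⟨0, mem_sdiff.2 ⟨hp, h⟩⟩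
  exact ⟨_, hz', key hx hx' (fun _ _ => rfl) h1, key hy hy' e h2⟩

theorem model {n : ℕ} (e : Fin n → Ω) (hS : S = univ.image e) (hc : S.card = n)
    (X Y Z : Fin n → Fin n) (hX : ∀ i, x (e i) = e (X i)) (hY : ∀ i, y (e i) = e (Y i))
    (h : ∀ i, Z (Z i) = i ∧ (X ∘ Z)^[3] i = i ∧ (Y ∘ Z)^[3] i = i) : Good S x y := by
  have hi : Injective e := by
    have := injOn_of_card_image_eq (s := univ) (f := e) (by rw [← hS, hc]; simp)
    exact fun a b => this (by simp) (by simp)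
  have hz : ∀ i, extend e (e ∘ Z) id (e i) = e (Z i) := fun i => hi.extend_apply _ _ i
  subst hS
  refine ⟨extend e (e ∘ Z) id, fun p hp => ?_, fun p hp => ?_, fun p hp => ?_⟩ <;>
    obtain ⟨i, -, rfl⟩ := mem_image.1 hp
  · simp [hz, (h i).1]
  · exact ⟨3, by decide, by simpa [hz, hX, hi.eq_iff] using (h i).2.1⟩
  · exact ⟨3, by decide, by simpa [hz, hY, hi.eq_iff] using (h i).2.2⟩

theorem Exc.ne {a b c d : Ω} (h : ({a, b, c, d} : Finset Ω).card = 4) :
    a ≠ b ∧ a ≠ c ∧ a ≠ d ∧ b ≠ c ∧ b ≠ d ∧ c ≠ d := by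
  have hi := injOn_of_card_image_eq (s := univ) (f := ![a, b, c, d]) (by
    rw [card_univ, Fintype.card_fin]
    refine Eq.trans ?_ h
    congr 1; ext; simp [Fin.exists_fin_succ, eq_comm])
  have : ∀ i j : Fin 4, i ≠ j → ![a, b, c, d] i ≠ ![a, b, c, d] j := fun i j hij e =>
    hij (hi (by simp) (by simp) e)
  exact ⟨this 0 1 (by decide), this 0 2 (by decide), this 0 3 (by decide), this 1 2 (by decide),
    this 1 3 (by decide), this 2 3 (by decide)⟩

/-- extension of a path by two points -/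
theorem ext2 {z' : Ω → Ω} {f a : Ω} (hx : Iv S x) (hz : Iv S z) (hf : x f = f) (ha : a ∈ S)
    (hfa : z f = a) (haf : z a = f) (hz' : Iv (S \ {f, a}) z') (e : ∀ p ∈ S \ {f, a}, z p = z' p)
    (hu : Iv (S \ {f, a}) (update x (x a) (x a))) (hb : x a ∈ S \ {f, a})
    (h : Od (S \ {f, a}) (update x (x a) (x a) ∘ z')) : Od S (x ∘ z) := by
  refine ret hx hz (fun p hp => ⟨(hu _ (hz' p hp).1).1, ?_⟩) (fun p hp => Or.inl ?_) h
  · by_cases h : z' p = x a
    · exact ⟨3, by decide, by simp [e p hp, h, (hx a ha).2, haf, hf, hfa]⟩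
    · exact ⟨1, odd_one, by simp [e p hp, h]⟩
  · by_cases h1 : p = f
    · exact ⟨1, by simpa only [h1, iterate_one, comp, hfa] using hb⟩
    by_cases h2 : p = a
    · exact ⟨2, by simpa only [h2, iterate_succ, iterate_zero, comp, id, hfa, haf, hf] using hb⟩
    · exact ⟨0, by simp [hp, h1, h2]⟩

theorem upd {f a : Ω} (hx : Iv S x) (hf : x f = f) (hfS : f ∈ S) (ha : a ∈ S) (h : x a ≠ a) :
    x a ∈ S \ {f, a} ∧ Iv (S \ {f, a}) (update x (x a) (x a)) ∧
      fx (S \ {f, a}) (update x (x a) (x a)) = fx S x := by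
  have h1 : x a ≠ f := fun e => h (by rw [← (hx a ha).2, e, hf, hf])
  have hb : x a ∈ S \ {f, a} := by simp [(hx a ha).1, h, h1]
  refine ⟨hb, fun p hp => ?_, ?_⟩
  · by_cases h2 : p = x a
    · simpa [h2] using hb
    · simp only [mem_sdiff, mem_insert, mem_singleton, not_or] at hp
      have h3 : x p ≠ x a := fun e => hp.2.2 (by rw [← (hx p hp.1).2, e, (hx a ha).2])
      have h4 : x p ≠ f := fun e => hp.2.1 (by rw [← (hx p hp.1).2, e, hf])
      have h5 : x p ≠ a := fun e => h2 (by rw [← (hx p hp.1).2, e])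
      simp [h2, h3, h4, h5, hx p hp.1]
  · have : ((S \ {f, a}).filter fun p => update x (x a) (x a) p = p) =
        insert (x a) ((S.filter fun p => x p = p).erase f) := by
      ext p
      by_cases h2 : p = x a
      · simpa [h2] using hb
      · simp only [mem_filter, mem_sdiff, mem_insert, mem_singleton, not_or, update_of_ne h2, h2,
          false_or, mem_erase]
        exact ⟨fun h => ⟨h.1.2.1, h.1.1, h.2⟩, fun h' => ⟨⟨h'.2.1, h'.1, fun e => h (e ▸ h'.2.2)⟩,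
          h'.2.2⟩⟩
    rw [fx, this, card_insert_of_notMem (by simp [(hx a ha).2, h.symm]),
      card_erase_add_one (by simp [hf, hfS]), fx]

/-- insertion of a square -/
theorem ins4 {z' : Ω → Ω} {a b c d s : Ω} (hx : Iv S x) (hx' : Iv T x) (hz : Iv S z) (hz' : Iv T z')
    (hS : ∀ p ∈ S, p ∈ T ∨ p = a ∨ p = b ∨ p = c ∨ p = d) (hs : s ∈ T)
    (x1 : x a = b) (x2 : x b = a) (x3 : x c = d) (x4 : x d = c)
    (z1 : z a = s) (z2 : z s = a) (z3 : z b = d) (z4 : z d = b)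
    (z5 : z' s = s → z c = c) (z6 : z' s ≠ s → z c = z' s ∧ z (z' s) = c)
    (e : ∀ p ∈ T, p ≠ s → p ≠ z' s → z p = z' p) (h : Od T (x ∘ z')) : Od S (x ∘ z) := by
  have m1 : x s ∈ T := (hx' s hs).1
  have m2 : x (z' s) ∈ T := (hx' _ (hz' s hs).1).1
  refine ret hx hz (fun p hp => ⟨(hx' _ (hz' p hp).1).1, ?_⟩) (fun p hp => Or.inl ?_) h
  · by_cases h1 : z' s = s
    · by_cases h2 : p = s
      · exact ⟨5, by decide, by simp [h2, h1, x1, x2, x3, x4, z1, z2, z3, z4, z5 h1]⟩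
      · exact ⟨1, odd_one, by simp [e p hp h2 (by rwa [h1])]⟩
    · by_cases h2 : p = s
      · exact ⟨3, by decide, by simp [h2, x1, x4, z2, z3, z6 h1]⟩
      by_cases h3 : p = z' s
      · exact ⟨3, by decide, by simp [h3, x2, x3, z1, z4, z6 h1, (hz' s hs).2]⟩
      · exact ⟨1, odd_one, by simp [e p hp h2 h3]⟩
  · have ka : ∀ q, (x ∘ z) q = a → ∃ i, (x ∘ z)^[i] q ∈ T := fun q hq =>
      ⟨2, by simpa only [iterate_succ, iterate_zero, comp_apply, id, show x (z q) = a from hq, z1]⟩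
    have kc : ∃ i, (x ∘ z)^[i] c ∈ T := by
      by_cases h1 : z' s = s
      · exact ⟨3, by simpa [z5 h1, x3, z4, x2, z1]⟩
      · exact ⟨1, by simpa [z6 h1]⟩
    rcases hS p hp with h | rfl | rfl | rfl | rfl
    · exact ⟨0, h⟩
    · exact ⟨1, by simpa [z1]⟩
    · obtain ⟨i, hi⟩ := kc
      exact ⟨i + 1, by simpa [z3, x4]⟩
    · exact kc
    · exact ka _ (by simp [z4, x2])

theorem im8 (a b c d e f g h : Ω) :
    ({a, b, c, d} ∪ {e, f, g, h} : Finset Ω) = univ.image ![a, b, c, d, e, f, g, h] := by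
  ext
  simp only [mem_union, mem_insert, mem_singleton, or_assoc, mem_image, mem_univ, true_and,
    Fin.exists_fin_succ]
  simp [eq_comm]

theorem Exc.facts (hT : T ⊆ S) (hx : Iv S x) (hy : Iv S y) (h : Exc T x y) :
    ∃ a b c d, T = {a, b, c, d} ∧ T.card = 4 ∧ (x a = b ∧ x b = a ∧ x c = d ∧ x d = c) ∧
      (y b = c ∧ y c = b ∧ y d = a ∧ y a = d) := by
  obtain ⟨a, b, c, d, rfl, hc, h1, h2, h3, h4⟩ := h
  exact ⟨a, b, c, d, rfl, hc, ⟨h1, h1 ▸ (hx a (hT (by simp))).2, h3, h3 ▸ (hx c (hT (by simp))).2⟩,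
    h2, h2 ▸ (hy b (hT (by simp))).2, h4, h4 ▸ (hy d (hT (by simp))).2⟩

theorem stepQ (hT : T ⊆ S) (hx : Iv S x) (hy : Iv S y) (h : Exc T x y) (hf : fx S x = fx S y)
    (ih : Iv (S \ T) x → Iv (S \ T) y → fx (S \ T) x = fx (S \ T) y →
      Good (S \ T) x y ∨ Exc (S \ T) x y) : Good S x y ∨ Exc S x y := by
  obtain ⟨a, b, c, d, e, hc, ⟨x1, x2, x3, x4⟩, y1, y2, y3, y4⟩ := h.facts hT hx hy
  obtain ⟨n1, n2, n3, n4, n5, n6⟩ := Exc.ne (e ▸ hc)
  have hx' : Iv T x := by simp [Iv, e, x1, x2, x3, x4]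
  have hy' : Iv T y := by simp [Iv, e, y1, y2, y3, y4]
  have f1 : fx T x = 0 := by simp [fx, e, x1, x2, x3, x4, n1, n6, n1.symm, n6.symm]
  have f2 : fx T y = 0 := by simp [fx, e, y1, y2, y3, y4, n3, n4, n3.symm, n4.symm]
  have g1 := fx_sdiff (x := x) hT
  have g2 := fx_sdiff (x := y) hT
  rcases (S \ T).eq_empty_or_nonempty with h0 | ⟨s, hs⟩
  · exact Or.inr (by rwa [Subset.antisymm (sdiff_eq_empty_iff_subset.1 h0) hT])
  left
  rcases ih (hx.sdiff hx') (hy.sdiff hy') (by omega) with ⟨z', hz', h1, h2⟩ | h'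
  · have nT : ∀ p ∈ S \ T, p ≠ a ∧ p ≠ b ∧ p ≠ c ∧ p ≠ d := fun p hp => by
      simpa [e] using (mem_sdiff.1 hp).2
    obtain ⟨s1, s2, s3, s4⟩ := nT s hs
    obtain ⟨t1, t2, t3, t4⟩ := nT _ (hz' s hs).1
    let z : Ω → Ω := fun p => if p = a then s else if p = s then a else if p = b then d else
      if p = d then b else if p = c then (if z' s = s then c else z' s) else
      if p = z' s then c else z' p
    have z1 : z a = s := by simp [z]
    have z2 : z s = a := by simp [z, s1]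
    have z3 : z b = d := by simp [z, n1.symm, s2.symm]
    have z4 : z d = b := by simp [z, n3.symm, s4.symm, n5.symm]
    have z5 : z' s = s → z c = c := fun h => by simp [z, h, n2.symm, s3.symm, n4.symm, n6]
    have z6 : z' s ≠ s → z c = z' s ∧ z (z' s) = c := fun h => by
      simp [z, h, n2.symm, s3.symm, n4.symm, n6, t1, t2, t3, t4]
    have z7 : ∀ p ∈ S \ T, p ≠ s → p ≠ z' s → z p = z' p := fun p hp u v => by
      simp [z, u, v, nT p hp]
    have hS : ∀ p ∈ S, p ∈ S \ T ∨ p = a ∨ p = b ∨ p = c ∨ p = d := fun p hp => by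
      by_cases h : p ∈ T
      · exact Or.inr (by simpa [e] using h)
      · exact Or.inl (mem_sdiff.2 ⟨hp, h⟩)
    have m : a ∈ S ∧ b ∈ S ∧ c ∈ S ∧ d ∈ S := by simpa [e, insert_subset_iff] using hT
    have hz : Iv S z := fun p hp => by
      rcases hS p hp with h | rfl | rfl | rfl | rfl
      · by_cases u : p = s
        · simp [u, z1, z2, m]
        by_cases v : p = z' s
        · have := z6 (fun h => u (v.trans h))
          rw [v, this.2, this.1]
          exact ⟨m.2.2.1, rfl⟩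
        · rw [z7 p h u v, z7 _ (hz' p h).1 (fun h' => v (by rw [← h', (hz' p h).2]))
            (fun h' => u (by rw [← (hz' p h).2, h', (hz' s hs).2]))]
          exact ⟨(mem_sdiff.1 (hz' p h).1).1, (hz' p h).2⟩
      · simp [z1, z2, (mem_sdiff.1 hs).1]
      · simp [z3, z4, m]
      · by_cases h : z' s = s
        · simp [z5 h, m]
        · simp [z6 h, (mem_sdiff.1 (hz' s hs).1).1]
      · simp [z3, z4, m]
    exact ⟨z, hz, ins4 hx (hx.sdiff hx') hz hz' hS hs x1 x2 x3 x4 z1 z2 z3 z4 z5 z6 z7 h1,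
      ins4 hy (hy.sdiff hy') hz hz' (fun p hp => by have := hS p hp; tauto) hs y4 y3 y2 y1
        z1 z2 z4 z3 z5 z6 z7 h2⟩
  · obtain ⟨a', b', c', d', e', hc', ⟨u1, u2, u3, u4⟩, v1, v2, v3, v4⟩ :=
      h'.facts sdiff_subset hx hy
    refine model ![a, b, c, d, a', b', c', d'] ?_ (by rw [← card_sdiff_add_card_eq_card hT, hc, hc'])
      ![1, 0, 3, 2, 5, 4, 7, 6] ![3, 2, 1, 0, 7, 6, 5, 4] ![1, 0, 4, 7, 2, 6, 5, 3] (fun i => ?_)
      (fun i => ?_) (by decide)
    · rw [← union_sdiff_of_subset hT, e', e]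
      exact im8 ..
    · fin_cases i <;> simpa
    · fin_cases i <;> simpa

theorem good (n : ℕ) : ∀ (S : Finset Ω) (x y : Ω → Ω), S.card = n → Iv S x → Iv S y →
    fx S x = fx S y → Good S x y ∨ Exc S x y := by
  induction n using Nat.strong_induction_on with
  | _ n ih =>
  intro S x y hn hx hy hf
  have ih' : ∀ T ⊆ S, T.Nonempty → ∀ x y, Iv (S \ T) x → Iv (S \ T) y →
      fx (S \ T) x = fx (S \ T) y → Good (S \ T) x y ∨ Exc (S \ T) x y := fun T hT h0 x y =>
    ih _ (hn ▸ card_lt_card (sdiff_ssubset hT h0)) _ x y rfl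
  by_cases hQ : ∃ T ⊆ S, Exc T x y
  · obtain ⟨T, hT, h⟩ := hQ
    exact stepQ hT hx hy h hf (ih' T hT (by obtain ⟨a, b, c, d, e, -⟩ := h; simp [e]) x y)
  left
  have sp : ∀ T ⊆ S, T.Nonempty → Iv T x → (∀ p ∈ T, x p = y p) → Good S x y := by
    intro T hT h0 h1 e
    have h2 : Iv T y := fun p hp => by rw [← e p hp, ← e _ (h1 p hp).1]; exact h1 p hp
    have g1 := fx_sdiff (x := x) hT
    have g2 := fx_sdiff (x := y) hT
    have g3 : fx T x = fx T y := congrArg card (filter_congr fun p hp => by rw [e p hp])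
    exact Good.split hx hy h1 h2 hT e ((ih' T hT h0 x y (hx.sdiff h1) (hy.sdiff h2)
      (by omega)).resolve_right fun h => hQ ⟨_, sdiff_subset, h⟩)
  by_cases h0 : ∃ p ∈ S, x p = p ∧ y p = p
  · obtain ⟨p, hp, h1, h2⟩ := h0
    exact sp {p} (by simpa) (by simp) (by simp [Iv, h1]) (by simp [h1, h2])
  by_cases h1 : fx S x = 0
  swap
  · obtain ⟨f, hf1⟩ := card_pos.1 (Nat.pos_of_ne_zero h1)
    obtain ⟨g, hg1⟩ := card_pos.1 (Nat.pos_of_ne_zero (hf ▸ h1 : fx S y ≠ 0))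
    rw [mem_filter] at hf1 hg1
    have n1 : x g ≠ g := fun e => h0 ⟨g, hg1.1, e, hg1.2⟩
    have n2 : y f ≠ f := fun e => h0 ⟨f, hf1.1, hf1.2, e⟩
    have n3 : f ≠ g := fun e => n1 (e ▸ hf1.2)
    obtain ⟨a1, a2, a3⟩ := upd hx hf1.2 hf1.1 hg1.1 n1
    obtain ⟨b1, b2, b3⟩ := upd hy hg1.2 hg1.1 hf1.1 n2
    rw [pair_comm] at b1 b2 b3
    rcases ih' {f, g} (by simp [insert_subset_iff, hf1.1, hg1.1]) (by simp) _ _ a2 b2
      (by rw [a3, b3, hf]) with ⟨z', hz', c1, c2⟩ | h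
    · let z : Ω → Ω := fun p => if p = f then g else if p = g then f else z' p
      have z1 : z f = g := by simp [z]
      have z2 : z g = f := by simp [z, n3.symm]
      have z3 : ∀ p ∈ S \ {f, g}, z p = z' p := fun p hp => by
        simp only [mem_sdiff, mem_insert, mem_singleton, not_or] at hp
        simp [z, hp]
      have hz : Iv S z := fun p hp => by
        by_cases u : p = f
        · simp [u, z1, z2, hg1.1]
        by_cases v : p = g
        · simp [v, z1, z2, hf1.1]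
        have : p ∈ S \ {f, g} := by simp [hp, u, v]
        rw [z3 p this, z3 _ (hz' p this).1]
        exact ⟨(mem_sdiff.1 (hz' p this).1).1, (hz' p this).2⟩
      refine ⟨z, hz, ext2 hx hz hf1.2 hg1.1 z1 z2 hz' z3 a2 a1 c1, ?_⟩
      rw [pair_comm] at hz' z3 b1 b2 c2
      exact ext2 hy hz hg1.2 hf1.1 z2 z1 hz' z3 b2 b1 c2
    · exfalso
      obtain ⟨a, b, c, d, e, hc, ⟨x1, x2, x3, x4⟩, -⟩ := h.facts Subset.rfl a2 b2
      obtain ⟨n1, -, -, -, -, n6⟩ := Exc.ne (e ▸ hc)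
      have : update x (x g) (x g) (x g) = x g := update_self ..
      rw [e] at a1
      simp only [mem_insert, mem_singleton] at a1
      rcases a1 with h | h | h | h <;> rw [h] at this x1 x2 x3 x4
      · exact n1 (this.symm.trans x1)
      · exact n1 (this.symm.trans x2).symm
      · exact n6 (this.symm.trans x3)
      · exact n6 (this.symm.trans x4).symm
  have fx0 : ∀ {S : Finset Ω} {x : Ω → Ω}, fx S x = 0 ↔ ∀ p ∈ S, x p ≠ p := by simp [fx]
  have xf := fx0.1 h1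
  have yf := fx0.1 (hf ▸ h1)
  rcases S.eq_empty_or_nonempty with rfl | ⟨b, hb⟩
  · exact ⟨id, by simp [Iv], by simp [Od], by simp [Od]⟩
  by_cases h2 : y b = x b
  · refine sp {b, x b} (by simp [insert_subset_iff, hb, hx b hb]) (by simp)
      (by simp [Iv, hx b hb]) ?_
    simp only [mem_insert, mem_singleton, forall_eq_or_imp, forall_eq, h2, true_and]
    rw [(hx b hb).2, ← h2, (hy b hb).2]
  obtain ⟨c, x1⟩ : ∃ c, x b = c := ⟨_, rfl⟩
  obtain ⟨a, y1⟩ : ∃ c, y b = c := ⟨_, rfl⟩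
  obtain ⟨d, y2⟩ : ∃ d, y c = d := ⟨_, rfl⟩
  obtain ⟨p, x2⟩ : ∃ d, x a = d := ⟨_, rfl⟩
  obtain ⟨q, x3⟩ : ∃ q, x d = q := ⟨_, rfl⟩
  have ha : a ∈ S := y1 ▸ (hy b hb).1
  have hc : c ∈ S := x1 ▸ (hx b hb).1
  have hd : d ∈ S := y2 ▸ (hy c hc).1
  have hp : p ∈ S := x2 ▸ (hx a ha).1
  have hq : q ∈ S := x3 ▸ (hx d hd).1
  have x4 : x c = b := x1 ▸ (hx b hb).2
  have x5 : x p = a := x2 ▸ (hx a ha).2
  have x6 : x q = d := x3 ▸ (hx d hd).2
  have y3 : y a = b := y1 ▸ (hy b hb).2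
  have y4 : y d = c := y2 ▸ (hy c hc).2
  have nab : a ≠ b := y1 ▸ yf b hb
  have nac : a ≠ c := x1 ▸ y1 ▸ h2
  have ncb : c ≠ b := x1 ▸ xf b hb
  have nad : a ≠ d := fun e => ncb (by rw [← y4, ← e, y3])
  have ndb : d ≠ b := fun e => nac (by rw [← y4, e, y1])
  have ndc : d ≠ c := y2 ▸ yf c hc
  have c4 : ({a, b, c, d} : Finset Ω).card = 4 := by
    rw [card_insert_of_notMem (by simp [nab, nac, nad]),
      card_insert_of_notMem (by simp [ncb.symm, ndb.symm]), card_pair ndc.symm]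
  have hT : {a, b, c, d} ⊆ S := by simp [insert_subset_iff, ha, hb, hc, hd]
  have npd : p ≠ d := fun e => hQ ⟨{b, c, d, a}, by simp [insert_subset_iff, ha, hb, hc, hd],
    b, c, d, a, rfl, by rw [← c4]; congr 1; ext; simp; tauto, x1, y2, e ▸ x5, y3⟩
  have npa : p ≠ a := x2 ▸ xf a ha
  have npb : p ≠ b := fun e => nac (by rw [← x5, e, x1])
  have npc : p ≠ c := fun e => nab (by rw [← x5, e, x4])
  have nqa : q ≠ a := fun e => npd (by rw [← x6, e, x2])
  have nqb : q ≠ b := fun e => ndc (by rw [← x6, e, x1])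
  have nqc : q ≠ c := fun e => ndb (by rw [← x6, e, x4])
  have nqd : q ≠ d := x3 ▸ xf d hd
  have npq : p ≠ q := fun e => nad (by rw [← x5, e, x6])
  set T : Finset Ω := {a, b, c, d} with hTe
  have hpT : p ∈ S \ T := by simp [T, hp, npa, npb, npc, npd]
  have hqT : q ∈ S \ T := by simp [T, hq, nqa, nqb, nqc, nqd]
  let x' : Ω → Ω := fun r => if r = p then q else if r = q then p else x r
  have w1 : x' p = q := by simp [x']
  have w2 : x' q = p := by simp [x', npq.symm]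
  have w3 : ∀ r, r ≠ p → r ≠ q → x' r = x r := fun r u v => by simp [x', u, v]
  have hy' : Iv T y := by simp [Iv, T, y1, y2, y3, y4]
  have hx' : Iv (S \ T) x' := fun r hr => by
    by_cases u : r = p
    · rw [u, w1, w2]; exact ⟨hqT, rfl⟩
    by_cases v : r = q
    · rw [v, w2, w1]; exact ⟨hpT, rfl⟩
    simp only [T, mem_sdiff, mem_insert, mem_singleton, not_or] at hr ⊢
    have k : ∀ s, x r = s → r = x s := fun s e => by rw [← e, (hx r hr.1).2]
    rw [w3 r u v, w3 _ (fun e => hr.2.1 ((k _ e).trans x5)) (fun e => hr.2.2.2.2 ((k _ e).trans x6))]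
    exact ⟨⟨(hx r hr.1).1, fun e => u ((k _ e).trans x2), fun e => hr.2.2.2.1 ((k _ e).trans x1),
      fun e => hr.2.2.1 ((k _ e).trans x4), fun e => v ((k _ e).trans x3)⟩, (hx r hr.1).2⟩
  have f1 : fx (S \ T) x' = 0 := fx0.2 fun r hr => by
    by_cases u : r = p
    · rw [u, w1]; exact npq.symm
    by_cases v : r = q
    · rw [v, w2]; exact npq
    rw [w3 r u v]; exact xf r (mem_sdiff.1 hr).1
  rcases ih' T hT (by simp [T]) x' y hx' (hy.sdiff hy')
    (f1.trans (fx0.2 fun r hr => yf r (mem_sdiff.1 hr).1).symm) with ⟨z', hz', c1, c2⟩ | h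
  · have zT : ∀ r ∈ T, T.piecewise y z' r = y r := fun r => piecewise_eq_of_mem _ _ _
    have zS : ∀ r ∈ S \ T, T.piecewise y z' r = z' r := fun r hr =>
      piecewise_eq_of_notMem _ _ _ (mem_sdiff.1 hr).2
    have za := (zT a (by simp [T])).trans y3
    have zb := (zT b (by simp [T])).trans y1
    have zc := (zT c (by simp [T])).trans y2
    have zd := (zT d (by simp [T])).trans y4
    have hz : Iv S (T.piecewise y z') := fun r hr => by
      by_cases h : r ∈ T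
      · rw [zT r h, zT _ (hy' r h).1]; exact hy r hr
      · have := hz' r (mem_sdiff.2 ⟨hr, h⟩)
        rw [zS r (mem_sdiff.2 ⟨hr, h⟩), zS _ this.1]
        exact ⟨(mem_sdiff.1 this.1).1, this.2⟩
    refine ⟨_, hz, ret hx hz (fun r hr => ⟨(hx' _ (hz' r hr).1).1, ?_⟩) (fun r hr => Or.inl ?_) c1,
      ret hy hz (fun r hr => ⟨((hy.sdiff hy') _ (hz' r hr).1).1, 1, odd_one, by simp [zS r hr]⟩)
        (fun r hr => ?_) c2⟩
    · by_cases u : z' r = p
      · exact ⟨3, by decide, by simp [zS r hr, u, w1, x5, za, x1, zc, x3]⟩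
      by_cases v : z' r = q
      · exact ⟨3, by decide, by simp [zS r hr, v, w2, x6, zd, x4, zb, x2]⟩
      · exact ⟨1, odd_one, by simp [zS r hr, w3 _ u v]⟩
    · by_cases h : r ∈ T
      · simp only [T, mem_insert, mem_singleton] at h
        rcases h with rfl | rfl | rfl | rfl
        · exact ⟨2, by simpa only [iterate_succ, iterate_zero, comp_apply, id, za, x1, zc, x3]⟩
        · exact ⟨1, by simpa only [iterate_one, comp_apply, zb, x2]⟩
        · exact ⟨1, by simpa only [iterate_one, comp_apply, zc, x3]⟩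
        · exact ⟨2, by simpa only [iterate_succ, iterate_zero, comp_apply, id, zd, x4, zb, x2]⟩
      · exact ⟨0, mem_sdiff.2 ⟨hr, h⟩⟩
    · by_cases h : r ∈ T
      · exact Or.inr ⟨1, odd_one, by simp [zT r h, (hy r hr).2]⟩
      · exact Or.inl ⟨0, mem_sdiff.2 ⟨hr, h⟩⟩
  · have hcS : S.card = 8 := by
      obtain ⟨_, _, _, _, -, h4, -⟩ := h
      rw [← card_sdiff_add_card_eq_card hT, h4, c4]
    obtain ⟨r, s, e, k1, k2, k3, k4, k5, k6⟩ : ∃ r s, S \ T = {q, r, s, p} ∧ y q = r ∧ y r = q ∧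
        y p = s ∧ y s = p ∧ x r = s ∧ x s = r := by
      obtain ⟨a', b', c', d', e', hc', ⟨u1, u2, u3, u4⟩, v1, v2, v3, v4⟩ :=
        h.facts Subset.rfl hx' (hy.sdiff hy')
      obtain ⟨n1, n2, n3, n4, n5, n6⟩ := Exc.ne (e' ▸ hc')
      have := e' ▸ hpT
      simp only [mem_insert, mem_singleton] at this
      rcases this with rfl | rfl | rfl | rfl
      · obtain rfl : q = b' := w1.symm.trans u1
        exact ⟨c', d', by rw [e']; ext; simp; tauto, v1, v2, v4, v3, (w3 _ n2.symm n4.symm).symm.trans u3,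
          (w3 _ n3.symm n5.symm).symm.trans u4⟩
      · obtain rfl : q = a' := w1.symm.trans u2
        exact ⟨d', c', by rw [e']; ext; simp; tauto, v4, v3, v1, v2,
          (w3 _ n5.symm n3.symm).symm.trans u4, (w3 _ n4.symm n2.symm).symm.trans u3⟩
      · obtain rfl : q = d' := w1.symm.trans u3
        exact ⟨a', b', by rw [e']; ext; simp; tauto, v3, v4, v2, v1,
          (w3 _ n2 n3).symm.trans u1, (w3 _ n4 n5).symm.trans u2⟩
      · obtain rfl : q = c' := w1.symm.trans u4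
        exact ⟨b', a', by rw [e']; ext; simp; tauto, v2, v1, v3, v4,
          (w3 _ n5 n4).symm.trans u2, (w3 _ n3 n2).symm.trans u1⟩
    refine model ![a, b, c, d, q, r, s, p] ?_ hcS
      ![7, 2, 1, 4, 3, 6, 5, 0] ![1, 0, 3, 2, 5, 4, 7, 6] ![1, 0, 4, 7, 2, 6, 5, 3] (fun i => ?_)
      (fun i => ?_) (by decide)
    · rw [← union_sdiff_of_subset hT, e, hTe]
      exact im8 ..
    · fin_cases i <;> simpa
    · fin_cases i <;> simpa

end Cfsg.Agent.H22.LF
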