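import Cfsg.Agent.H22.LFS

/-! Local fusion graphs of symmetric groups, conclusion. -/

set_option autoImplicit false
set_option linter.style.haveILetI false

namespace Cfsg.Agent.H22.LF

open Function Finset Equiv

variable {Ω : Type*} [DecidableEq Ω] [Fintype Ω]

omit [DecidableEq Ω] in
theorem odd_of_od {σ : Perm Ω} (h : Od univ σ) : Odd (orderOf σ) := by
  choose k h1 h2 using fun p => h p (mem_univ p)
  refine Odd.of_dvd_nat (n := ∏ p, k p) (Finset.prod_induction _ _ (fun _ _ => Odd.mul) odd_one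
    fun p _ => h1 p) (orderOf_dvd_of_pow_eq_one (Equiv.ext fun p => ?_))
  obtain ⟨m, hm⟩ := dvd_prod_of_mem k (mem_univ p)
  rw [hm, Perm.coe_pow]
  exact IsPeriodicPt.mul_const (h2 p) m

theorem fx_conj {t x : Perm Ω} (h : IsConj t x) : fx univ x = fx univ t := by
  obtain ⟨c, rfl⟩ := isConj_iff.1 h
  have : ∀ σ : Perm Ω, fx univ σ + σ.support.card = Fintype.card Ω := fun σ =>
    card_filter_add_card_filter_not (s := univ) fun p => σ p = p
  have h1 := this t
  have h2 := this (c * t * c⁻¹)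
  rw [Perm.card_support_conj] at h2
  omega

theorem sym (hn : 5 ≤ Fintype.card Ω) (t : Perm Ω) (ht : orderOf t = 2) :
    (SimpleGraph.fromRel fun x y : {x : Perm Ω // IsConj t x} =>
        Odd (orderOf (x.1 * y.1))).Connected ∧
      (SimpleGraph.fromRel fun x y : {x : Perm Ω // IsConj t x} =>
        Odd (orderOf (x.1 * y.1))).diam = 2 := by
  have ht2 : t * t = 1 := by rw [← sq]; exact orderOf_dvd_iff_pow_eq_one.1 ht.dvd
  have ht1 : t ≠ 1 := by rintro rfl; simp at ht
  have iv : ∀ x : Perm Ω, x * x = 1 → Iv univ x := fun x hx p hp =>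
    ⟨mem_univ _, by rw [← Perm.mul_apply, hx]; rfl⟩
  refine graph ht2 (fun x y hx hy _ => ?_) ?_
  · rcases good _ univ x y rfl (iv x (sq_of_conj ht2 hx)) (iv y (sq_of_conj ht2 hy))
      ((fx_conj hx).trans (fx_conj hy).symm) with ⟨z, hz, h1, h2⟩ | ⟨a, b, c, d, -, h, -⟩
    · have hz' : Involutive z := fun p => (hz p (mem_univ p)).2
      refine ⟨hz'.toPerm, Equiv.ext hz', odd_of_od h1, ?_⟩
      rw [(SemiconjBy.orderOf_eq y (y := y * hz'.toPerm) (by simp [SemiconjBy, mul_assoc]))]
      exact odd_of_od h2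
    · rw [card_univ] at h; omega
  have tt : ∀ p, t (t p) = p := fun p => (iv t ht2 p (mem_univ p)).2
  obtain ⟨a, ha⟩ : ∃ a, t a ≠ a := by
    by_contra h; push Not at h; exact ht1 (Equiv.ext h)
  obtain ⟨b, hb⟩ : ∃ b, t a = b := ⟨_, rfl⟩
  have hb' : t b = a := hb ▸ tt a
  rw [hb] at ha
  by_cases h : ∃ c, c ≠ a ∧ c ≠ b ∧ t c ≠ c
  · obtain ⟨c, h1, h2, h3⟩ := h
    obtain ⟨d, hd⟩ : ∃ d, t c = d := ⟨_, rfl⟩
    have hd' : t d = c := hd ▸ tt c
    rw [hd] at h3
    have h4 : d ≠ a := fun e => h2 (by rw [← hd', e, hb])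
    have h5 : d ≠ b := fun e => h1 (by rw [← hd', e, hb'])
    refine ⟨t, swap b c * t * (swap b c)⁻¹, IsConj.refl t, isConj_iff.2 ⟨_, rfl⟩, fun e => ?_, ?_⟩
    · have := congrArg (fun σ : Perm Ω => σ a) e
      simp [hb, swap_apply_of_ne_of_ne ha.symm h1.symm] at this
      exact h2 this.symm
    · have e1 : t * swap b c = swap a d * t := by rw [Equiv.mul_swap_eq_swap_mul, hb', hd]
      have e2 : swap a d * swap b c = swap b c * swap a d :=
        (Perm.disjoint_swap_swap (by simp [ha.symm, h1.symm, h4.symm, h5, h3, h2.symm])).commute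
      have e3 : t * swap a d = swap b c * t := by rw [Equiv.mul_swap_eq_swap_mul, hb, hd']
      rw [swap_inv, ← mul_assoc, ← mul_assoc, e1, mul_assoc _ t t, ht2, mul_one, mul_assoc _ t, e1,
        mul_assoc, mul_assoc, ht2, mul_one, e2]
  · push Not at h
    have e : t = swap a b := Equiv.ext fun p => by
      by_cases h1 : p = a
      · simp [h1, hb]
      by_cases h2 : p = b
      · simp [h2, hb']
      rw [swap_apply_of_ne_of_ne h1 h2, h p h1 h2]
    obtain ⟨c, hc, d, hd, hcd⟩ : ∃ c ∈ (univ \ {a, b} : Finset Ω), ∃ d ∈ (univ \ {a, b} : Finset Ω),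
        c ≠ d := by
      rw [← one_lt_card, card_sdiff_of_subset (subset_univ _), card_univ]
      have := card_le_two (a := a) (b := b)
      omega
    simp only [mem_sdiff, mem_univ, mem_insert, mem_singleton, true_and, not_or] at hc hd
    refine ⟨t, swap c d, IsConj.refl t, e ▸ Perm.isConj_swap ha.symm hcd, fun e' => ?_, ?_⟩
    · have := congrArg (fun σ : Perm Ω => σ a) e'
      simp only [hb, swap_apply_of_ne_of_ne (Ne.symm hc.1) (Ne.symm hd.1)] at this
      exact ha this
    · rw [e]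
      exact (Perm.disjoint_swap_swap (by
        simp [ha.symm, Ne.symm hc.1, Ne.symm hc.2, Ne.symm hd.1, Ne.symm hd.2, hcd])).commute

end Cfsg.Agent.H22.LF
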