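import Cfsg.Agent.H10.Sig2
import Cfsg.Agent.H9.PCons
import Cfsg.Agent.H9.PSolv
import Cfsg.Agent.H3.PGroup1
import Cfsg.Agent.H1.Cores

/-! Invariant `p'`-subgroups for a four-like group containing all elements of order `p` of its centralizer. -/

set_option autoImplicit false
set_option linter.style.haveILetI false

namespace Cfsg.Agent.H22.Ng1

open Subgroup
open scoped commutatorElement

variable {G : Type*} [Group G] [Finite G] {p : ℕ} [hp : Fact p.Prime]

theorem core (hp2 : p ≠ 2) (hG : IsPSolvable p G) (hO : pPrimeCore p G = ⊥) {B Q : Subgroup G}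
    (hB : IsPGroup p B) (h : ∀ x ∈ centralizer (B : Set G), x ^ p = 1 → x ∈ B)
    (hQ : (Nat.card Q).Coprime p) (hn : B ≤ normalizer (Q : Set G)) : Q = ⊥ := by
  have hR : IsPGroup p (pCore p G) := H1.isPGroup_pCore p G
  have hd : Q ⊓ pCore p G = ⊥ := by
    obtain ⟨k, hk⟩ := IsPGroup.iff_card.1 hR
    exact disjoint_iff.1 (disjoint_of_coprime_natCard (by rw [hk]; exact hQ.pow_right k))
  have h1 := H10.le_centralizer_of_pxq_omega hp2 hB hQ hn hR
    (by rw [normalizer_eq_top]; exact le_top) (by rw [normalizer_eq_top]; exact le_top)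
    (fun x hx h1 => by
      intro y hy
      have h2 : y * x * y⁻¹ * x⁻¹ ∈ Q ⊓ pCore p G := by
        refine mem_inf.2 ⟨?_, mul_mem (Normal.conj_mem inferInstance x hx.1 y) (inv_mem hx.1)⟩
        have := (mem_normalizer_iff.1 (hn (h x hx.2 h1)) y⁻¹).1 (inv_mem hy)
        have e : y * x * y⁻¹ * x⁻¹ = y * (x * y⁻¹ * x⁻¹) := by group
        rw [e]
        exact mul_mem hy this
      rw [hd, mem_bot] at h2
      calc y * x = (y * x * y⁻¹ * x⁻¹) * x * y := by group
        _ = _ := by rw [h2, one_mul])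
  rw [← hd]
  exact (inf_eq_left.2 (h1.trans (H9.centralizer_pCore_le_of_isPSolvable hG hO))).symm

theorem gen (hp2 : p ≠ 2) (hG : IsPSolvable p G) {B Q : Subgroup G}
    (hB : IsPGroup p B) (h : ∀ x ∈ centralizer (B : Set G), x ^ p = 1 → x ∈ B)
    (hQ : (Nat.card Q).Coprime p) (hn : B ≤ normalizer (Q : Set G)) : Q ≤ pPrimeCore p G := by
  set N := pPrimeCore p G
  have hN := H1.coprime_card_pPrimeCore p G
  have := core hp2 (H9.isPSolvable_quotient hG N) (H1.pPrimeCore_quotient_pPrimeCore p)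
    (B := B.map (QuotientGroup.mk' N)) (Q := Q.map (QuotientGroup.mk' N)) (hB.map _) ?_
    (hQ.coprime_dvd_left (card_map_dvd _ _)) ((map_mono hn).trans (le_normalizer_map _))
  · rwa [Subgroup.map_eq_bot_iff, QuotientGroup.ker_mk'] at this
  · intro x hx h1
    rw [H9.centralizer_map_mk'_of_coprime hB hN] at hx
    obtain ⟨y, hy, rfl⟩ := hx
    have hyp : y ^ p ∈ N := by
      rw [← QuotientGroup.ker_mk' N, MonoidHom.mem_ker, map_pow, h1]
    obtain ⟨m, hm1, hm2⟩ := Nat.chineseRemainder hN 0 1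
    have h2 : (y ^ m) ^ p = 1 := by
      obtain ⟨k, hk⟩ := (Nat.modEq_zero_iff_dvd).1 hm1
      rw [← pow_mul, mul_comm, pow_mul, hk, pow_mul]
      have := congrArg Subtype.val (pow_card_eq_one' (G := N) (x := ⟨_, hyp⟩))
      rw [show (y ^ p) ^ Nat.card N = 1 from this, one_pow]
    refine ⟨y ^ m, h _ (pow_mem hy m) h2, ?_⟩
    rw [map_pow, pow_eq_pow_of_modEq hm2 h1, pow_one]

theorem om_of_sylow {B : Subgroup G} (hB : IsElementaryAbelian p B) {b₀ : G} (hb₀ : b₀ ∈ B)
    (P : Sylow p ↥(centralizer ({b₀} : Set G)))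
    (hBP : B = closure {x : G | x ∈ ((P : Subgroup ↥(centralizer ({b₀} : Set G))).map
      (centralizer ({b₀} : Set G)).subtype : Subgroup G) ∧ orderOf x = p}) :
    ∀ x ∈ centralizer (B : Set G), x ^ p = 1 → x ∈ B := by
  intro x hx h1
  let C := centralizer ({b₀} : Set G)
  have hm : ∀ y ∈ (P : Subgroup C).map C.subtype, y ^ p = 1 → y ∈ B := fun y hy h2 => by
    by_cases h3 : y = 1
    · rw [h3]; exact one_mem _
    · rw [hBP]; exact Subgroup.subset_closure ⟨hy, orderOf_eq_prime h2 h3⟩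
  have hc := H3.isMulCommutative_iff_mem.1 hB.1
  have hBC : B ≤ C := fun b hb => mem_centralizer_singleton_iff.2 (hc _ hb _ hb₀)
  have hxC : x ∈ C := mem_centralizer_singleton_iff.2 (hx _ hb₀).symm
  have hpg : ∀ {X : Subgroup G}, (∀ y ∈ X, y ^ p = 1) → IsPGroup p X := fun hX y =>
    ⟨1, Subtype.ext (by simpa using hX y y.2)⟩
  have hK : IsPGroup p (B ⊔ zpowers x : Subgroup G) :=
    IsPGroup.to_sup_of_normal_left' (hpg hB.2) (hpg fun y hy => by
      obtain ⟨k, rfl⟩ := hy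
      simp only
      rw [← zpow_natCast, ← zpow_mul, mul_comm, zpow_mul, zpow_natCast, h1, one_zpow])
      (zpowers_le.2 (centralizer_le_normalizer _ hx))
  have hK' : IsPGroup p ((B ⊔ zpowers x).subgroupOf C) :=
    hK.of_equiv (subgroupOfEquivOfLe (sup_le hBC (zpowers_le.2 hxC))).symm
  obtain ⟨P', hP'⟩ := hK'.exists_le_sylow
  obtain ⟨c, hc'⟩ := MulAction.exists_smul_eq C P' P
  have key : ∀ y ∈ B ⊔ zpowers x, y ^ p = 1 → (c : G) * y * (c : G)⁻¹ ∈ B := fun y hy h2 => by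
    have hyC : y ∈ C := sup_le hBC (zpowers_le.2 hxC) hy
    refine hm _ ⟨c * ⟨y, hyC⟩ * c⁻¹, ?_, rfl⟩ (by rw [conj_pow, h2]; simp)
    rw [← hc']
    exact Subgroup.smul_mem_pointwise_smul _ (MulAut.conj c) _ (hP' (show (⟨y, hyC⟩ : C) ∈ _ from hy))
  have hcn : (c : G) ∈ normalizer (B : Set G) :=
    mem_normalizer_fintype fun b hb => key b (mem_sup_left hb) (hB.2 b hb)
  exact (mem_normalizer_iff.1 hcn x).2 (key x (mem_sup_right (mem_zpowers x)) h1)

end Cfsg.Agent.H22.Ng1
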