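import Cfsg.Agent.H9.Stab
import Cfsg.Agent.H9.PSolv
import Cfsg.Agent.H1.Hall
import Cfsg.Agent.H1.Coprime
import Cfsg.Agent.H3.PGroup1

/-! Centralizers of self-centralizing normal subgroups of the Fitting subgroup of a Hall subgroup. -/

set_option autoImplicit false
set_option linter.style.haveILetI false

namespace Cfsg.Agent.H22.Ng2

open Subgroup
open scoped commutatorElement

variable {G : Type*} [Group G] [Finite G]

theorem quad (hG : Group.IsSolvable G) {q : ℕ} [hq : Fact q.Prime]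
    (h : pCore q G = ⊥ ∨ q ≠ 2 ∧ q ≠ 3) {c : G} (hc : IsPGroup q (zpowers c))
    (h2 : ⁅⁅fittingSubgroup G, zpowers c⁆, zpowers c⁆ = ⊥) : c ∈ fittingSubgroup G := by
  set F := fittingSubgroup G
  set R := pCore q G
  set O := pPrimeCore q G
  have hR : IsPGroup q R := H1.isPGroup_pCore q G
  have hO := H1.coprime_card_pPrimeCore q G
  have hRF : R ≤ F := H1.pCore_le_fittingSubgroup q
  have hmono : ∀ {X : Subgroup G}, X ≤ F → ⁅⁅X, zpowers c⁆, zpowers c⁆ = ⊥ := fun hX =>
    le_bot_iff.1 (h2 ▸ commutator_mono (commutator_mono hX le_rfl) le_rfl)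
  let D := (pCore q (G ⧸ centralizer (R : Set G))).comap (QuotientGroup.mk' _)
  have hD : c ∈ D := by
    rcases h with h | h
    · have : c ∈ centralizer (R : Set G) := by
        rw [h]; intro y hy; rw [mem_bot.1 hy, one_mul, mul_one]
      rw [mem_comap, QuotientGroup.mk'_apply, (QuotientGroup.eq_one_iff _).2 this]
      exact one_mem _
    · exact H9.isPStableOn_of_isPSolvable h.1 (H9.isPSolvable_of_isSolvable hG)
        (fun e => absurd e h.2) R hR c (hmono hRF)
  have hF' : c ∈ centralizer ((F ⊓ O : Subgroup G) : Set G) := by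
    obtain ⟨k, hk⟩ := IsPGroup.iff_card.1 hc
    have := H1.commutator_eq_bot_of_commutator_commutator_eq_bot (A := zpowers c) (K := F ⊓ O)
      (by rw [normalizer_eq_top]; exact le_top)
      (by rw [hk]; exact (hO.coprime_dvd_left (card_dvd_of_le inf_le_right)).symm.pow_left k)
      (hmono inf_le_left)
    rw [commutator_eq_bot_iff_le_centralizer, le_centralizer_iff] at this
    exact this (mem_zpowers c)
  let M := D ⊓ centralizer ((F ⊓ O : Subgroup G) : Set G)
  haveI : M.Normal := inferInstance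
  have hFd : ∀ z ∈ F, ∃ a ∈ R, ∃ b ∈ F ⊓ O, a * b = z := fun z hz => by
    obtain ⟨a, ha, b, hb, rfl⟩ := mem_sup_of_normal_right.1
      (H1.fittingSubgroup_le_pCore_sup_pPrimeCore q hz)
    exact ⟨a, ha, b, ⟨by simpa using mul_mem (inv_mem (hRF ha)) hz, hb⟩, rfl⟩
  have hp : IsPGroup q (M ⧸ center M) := by
    intro x
    obtain ⟨x, rfl⟩ := QuotientGroup.mk_surjective x
    obtain ⟨k, hk⟩ := H1.isPGroup_pCore q _ ⟨_, x.2.1⟩
    have h3 : (x : G) ^ q ^ k ∈ centralizer (R : Set G) := by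
      rw [← QuotientGroup.eq_one_iff]
      simpa using congrArg Subtype.val hk
    have h4 : (x : G) ^ q ^ k ∈ F := H1.centralizer_fittingSubgroup_le hG fun z hz => by
      obtain ⟨a, ha, b, hb, rfl⟩ := hFd z hz
      have c1 : Commute a _ := h3 a ha
      have c2 : Commute b _ := pow_mem x.2.2 (q ^ k) b hb
      exact (c1.mul_left c2).eq
    obtain ⟨a, ha, b, hb, h5⟩ := hFd _ h4
    obtain ⟨j, hj⟩ := hR ⟨a, ha⟩
    have hj' : a ^ q ^ j = 1 := congrArg Subtype.val hj
    have c1 : Commute a b := by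
      have : ⁅a, b⁆ ∈ R ⊓ O := commutator_le_inf R O (commutator_mem_commutator ha hb.2)
      obtain ⟨k, hk⟩ := IsPGroup.iff_card.1 hR
      rw [disjoint_iff.1 (disjoint_of_coprime_natCard (by rw [hk]; exact hO.symm.pow_left k)),
        mem_bot] at this
      exact commutatorElement_eq_one_iff_commute.1 this
    refine ⟨k + j, ?_⟩
    rw [← QuotientGroup.mk_pow, QuotientGroup.eq_one_iff, mem_center_iff]
    intro y
    apply Subtype.ext
    push_cast
    rw [pow_add, pow_mul, ← h5, c1.mul_pow, hj', one_mul]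
    exact (y.2.2 _ (pow_mem hb _)).symm
  have hM : Group.IsNilpotent M := Group.of_quotient_center_nilpotent hp.isNilpotent
  exact H1.le_fittingSubgroup hM ⟨hD, hF'⟩

theorem core (hG : Group.IsSolvable G) (h : ∀ q : ℕ, q.Prime → pCore q G = ⊥ ∨ q ≠ 2 ∧ q ≠ 3)
    {A : Subgroup G} (h1 : fittingSubgroup G ≤ normalizer (A : Set G))
    (h2 : fittingSubgroup G ⊓ centralizer (A : Set G) ≤ A) : centralizer (A : Set G) ≤ A := by
  refine H1.le_of_forall_pSubgroup_le fun q hq _ P hP hPq c hc => ?_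
  haveI := Fact.mk hq
  have hcA := hP hc
  refine h2 ⟨quad hG (h q hq) (hPq.to_le (zpowers_le.2 hc)) ?_, hcA⟩
  have h3 : ⁅fittingSubgroup G, zpowers c⁆ ≤ A := by
    refine le_trans (commutator_le.2 fun f hf y hy => mem_inf.2 ⟨?_, ?_⟩) h2
    · exact commutator_le_left _ _ (commutator_mem_commutator hf (mem_top y))
    · have hy' := zpowers_le.2 hcA hy
      refine mul_mem ?_ (inv_mem hy')
      intro a ha
      have := hy' _ ((mem_normalizer_iff''.1 (h1 hf) a).1 ha)
      calc a * (f * y * f⁻¹) = f * (f⁻¹ * a * f * y) * f⁻¹ := by group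
        _ = _ := by rw [this]; group
  rw [commutator_eq_bot_iff_le_centralizer]
  exact h3.trans (le_centralizer_iff.1 (zpowers_le.2 hcA))

theorem main (hG : Group.IsSolvable G) {π : Set ℕ} (h2 : 2 ∉ π) (h3 : 3 ∉ π) {H : Subgroup G}
    (hH : IsPiHall π H) {A : Subgroup G} (hA : IsSCN ((fittingSubgroup H).map H.subtype) A) :
    centralizer (A : Set G) ≤ A ⊔ piCore πᶜ G := by
  set O := piCore πᶜ G
  let f := QuotientGroup.mk' O
  have hf : Function.Surjective f := QuotientGroup.mk'_surjective O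
  have hO := H1.piCore_quotient_piCore (G := G) πᶜ
  have hc : ∀ q : ℕ, q.Prime → q ∉ π → pCore q (G ⧸ O) = ⊥ := fun q hq hq' => by
    haveI := Fact.mk hq
    exact le_bot_iff.1 (hO ▸ H1.pCore_le_piCore (π := πᶜ) hq')
  have hHO : H ⊓ O = ⊥ := disjoint_iff.1 (disjoint_of_coprime_natCard
    (H1.IsPiNum.coprime (π := π) hH.1 (H1.isPiNum_card_piCore _ _)))
  have hFH : fittingSubgroup (G ⧸ O) ≤ H.map f := by
    rw [H1.fittingSubgroup_eq_iSup_pCore]
    refine iSup_le fun q => ?_
    haveI := Fact.mk q.2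
    by_cases hq : (q : ℕ) ∈ π
    · exact (H1.pCore_le_piCore hq).trans (H1.piCore_le_of_isPiHall (H1.isPiHall_map hH hf))
    · rw [hc q q.2 hq]; exact bot_le
  have hAH : A ≤ H := hA.1.trans (map_subtype_le _)
  have hF1 : (fittingSubgroup (G ⧸ O)).comap f ⊓ H ≤ (fittingSubgroup H).map H.subtype := by
    refine H1.le_map_fittingSubgroup inf_le_right (fun x hx => ?_) ?_
    · exact mem_normalizer_fintype fun y hy =>
        ⟨Normal.conj_mem inferInstance y hy.1 x, H.mul_mem (H.mul_mem hx hy.2) (H.inv_mem hx)⟩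
    · haveI := H1.isNilpotent_fittingSubgroup (G ⧸ O)
      let φ : ((fittingSubgroup (G ⧸ O)).comap f ⊓ H : Subgroup G) →* fittingSubgroup (G ⧸ O) :=
        (f.comp (Subgroup.subtype _)).codRestrict _ fun x => x.2.1
      refine Subgroup.isNilpotent_of_ker_le_center φ (fun x hx => ?_)
      suffices x = 1 by rw [this]; exact one_mem _
      have : (x : G) ∈ H ⊓ O := ⟨x.2.2, (QuotientGroup.eq_one_iff _).1 (congrArg Subtype.val hx)⟩
      rw [hHO] at this
      exact Subtype.ext this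
  have key := core (G := G ⧸ O) inferInstance (fun q hq => by
    by_cases hq' : q ∈ π
    · exact Or.inr ⟨fun e => h2 (e ▸ hq'), fun e => h3 (e ▸ hq')⟩
    · exact Or.inl (hc q hq hq')) (A := A.map f) (fun z hz => by
      obtain ⟨x, hx, rfl⟩ := hFH hz
      exact le_normalizer_map f ⟨x, hA.2.1 (hF1 ⟨hz, hx⟩), rfl⟩) (fun z hz => by
      obtain ⟨x, hx, rfl⟩ := hFH hz.1
      refine ⟨x, hA.2.2.le ⟨hF1 ⟨hz.1, hx⟩, fun a ha => ?_⟩, rfl⟩
      have h4 : ⁅a, x⁆ ∈ H ⊓ O := by
        refine ⟨H.mul_mem (H.mul_mem (H.mul_mem (hAH ha) hx) (H.inv_mem (hAH ha))) (H.inv_mem hx), ?_⟩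
        have := commutatorElement_eq_one_iff_mul_comm.2 (hz.2 _ ⟨a, ha, rfl⟩)
        rw [← map_commutatorElement] at this
        exact (QuotientGroup.eq_one_iff _).1 this
      rw [hHO, mem_bot] at h4
      exact commutatorElement_eq_one_iff_mul_comm.1 h4)
  intro c hc'
  have : f c ∈ A.map f := key (by
    rintro _ ⟨a, ha, rfl⟩
    rw [← map_mul, ← map_mul, hc' a ha])
  rwa [← mem_comap, comap_map_eq, QuotientGroup.ker_mk'] at this

end Cfsg.Agent.H22.Ng2
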