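import Cfsg.Agent.H6.HallSym2
import Cfsg.Agent.H10.Comp

/-! Permutation groups with quasisimple generalized Fitting subgroup containing a 3-cycle. -/

set_option autoImplicit false
set_option linter.style.haveILetI false

namespace Cfsg.Agent.H22.Sy

open Equiv Equiv.Perm Subgroup Cfsg.Agent.H1 Cfsg.Agent.H6.HS Cfsg.Agent.H10
open scoped Pointwise commutatorElement

variable {Ω : Type} [Fintype Ω] [DecidableEq Ω] {H K : Subgroup (Perm Ω)}

omit [Fintype Ω] [DecidableEq Ω] in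
theorem fix_of_comm (hK : ⁅K, K⁆ = K) (S : Set Ω) (h1 : ∀ k ∈ K, ∀ y ∈ S, k y ∈ S)
    (h2 : ∀ k ∈ K, ∀ l ∈ K, ∀ y ∈ S, k (l y) = l (k y)) {x : Ω} (hx : x ∈ S) :
    ∀ k ∈ K, k x = x := by
  have : ⁅K, K⁆ ≤ MulAction.stabilizer (Perm Ω) x := by
    rw [commutator_le]
    intro k hk l hl
    rw [MulAction.mem_stabilizer_iff, Perm.smul_def, commutatorElement_def]
    have hy : k⁻¹ (l⁻¹ x) ∈ S := h1 _ (inv_mem hk) _ (h1 _ (inv_mem hl) _ hx)
    simp only [Perm.mul_apply]
    rw [h2 k hk l hl _ hy]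
    simp
  intro k hk
  rw [← hK] at hk
  exact this hk

theorem fix_of_cycle (hK : ⁅K, K⁆ = K) {c : Perm Ω} (hc : c.IsCycle)
    (h : ∀ k ∈ K, k * c = c * k) {x : Ω} (hx : c x ≠ x) : ∀ k ∈ K, k x = x := by
  have h1 : ∀ k ∈ K, ∀ y, c y ≠ y → c (k y) ≠ k y := by
    intro k hk y hy he
    apply hy
    apply k.injective
    rw [← Perm.mul_apply, h k hk, Perm.mul_apply, he]
  have h3 : ∀ k ∈ K, ∀ (i : ℤ) y, k ((c ^ i) y) = (c ^ i) (k y) := by
    intro k hk i y
    rw [← Perm.mul_apply, ← Perm.mul_apply, (Commute.zpow_right (h k hk) i).eq]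
  refine fix_of_comm hK {y | c y ≠ y} h1 ?_ hx
  intro k hk l hl y hy
  obtain ⟨i, hi⟩ := hc.exists_zpow_eq hy (h1 k hk y hy)
  obtain ⟨j, hj⟩ := hc.exists_zpow_eq hy (h1 l hl y hy)
  rw [← hj, h3 k hk, ← hi, h3 l hl, ← hj, ← Perm.mul_apply, ← Perm.mul_apply, ← zpow_add,
    ← zpow_add, add_comm]

/-- The standing hypotheses. -/
structure QF (H K : Subgroup (Perm Ω)) : Prop where
  comp : CompOf K H
  norm : H ≤ normalizer (K : Set (Perm Ω))
  cent : H ⊓ centralizer (K : Set (Perm Ω)) ≤ K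

theorem qf_fstar (h : IsQuasisimple (generalizedFittingSubgroup H)) : QF H (FstarOf H) :=
  ⟨⟨FstarOf_subnormalIn, by
      rw [FstarOf_def]; exact QS.map_of_injective h H.subtype_injective⟩,
    le_normalizer_FstarOf le_normalizer, inf_centralizer_FstarOf_le H⟩

theorem QF.not_cent (h : QF H K) {c : Perm Ω} (hc : c.IsCycle) (hcH : c ∈ H) {U : Subgroup (Perm Ω)}
    (hcU : c ∈ U) : ⁅K, U⁆ ≠ ⊥ := by
  intro hb
  have hcomm : ∀ k ∈ K, k * c = c * k := fun k hk =>
    (commutator_eq_bot_iff_le_centralizer.1 hb hk c hcU).symm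
  have hcK : c ∈ K := h.cent ⟨hcH, fun k hk => hcomm k hk⟩
  obtain ⟨x, hx, -⟩ := id hc
  exact hx (fix_of_cycle h.comp.perfect hc hcomm hx c hcK)

theorem mem_supp_conj {g c : Perm Ω} {x : Ω} : x ∈ (g * c * g⁻¹).support ↔ g⁻¹ x ∈ c.support := by
  simp only [mem_support, Perm.mul_apply]
  rw [not_iff_not, ← Perm.eq_inv_iff_eq]

theorem three_conj {c : Perm Ω} (hc : c.IsThreeCycle) (g : Perm Ω) : (g * c * g⁻¹).IsThreeCycle := by
  rw [IsThreeCycle, cycleType_conj]; exact hc

theorem move {d : Perm Ω} (hd : d.IsThreeCycle) (hdH : d ∈ H) {a b : Ω} (ha : a ∈ d.support)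
    (hb : b ∈ d.support) : ∃ g ∈ H, g a = b ∧ (∀ w, w ∉ d.support → g w = w) := by
  obtain ⟨i, hi⟩ := hd.isCycle.exists_zpow_eq (mem_support.1 ha) (mem_support.1 hb)
  refine ⟨d ^ i, zpow_mem hdH i, hi, fun w hw => ?_⟩
  exact zpow_apply_eq_self_of_apply_eq_self (by simpa using hw) i

/-- Two points are related when equal or both moved by a 3-cycle of `H`. -/
def R (H : Subgroup (Perm Ω)) (x y : Ω) : Prop :=
  x = y ∨ ∃ c ∈ H, c.IsThreeCycle ∧ x ∈ c.support ∧ y ∈ c.support

theorem R.symm {x y : Ω} (h : R H x y) : R H y x := by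
  rcases h with rfl | ⟨c, hc, h3, hx, hy⟩
  · exact Or.inl rfl
  · exact Or.inr ⟨c, hc, h3, hy, hx⟩

theorem R.trans {x y z : Ω} (h : R H x y) (h' : R H y z) : R H x z := by
  rcases h with rfl | ⟨c, hc, h3, hx, hy⟩
  · exact h'
  rcases h' with rfl | ⟨d, hd, h3', hy', hz⟩
  · exact Or.inr ⟨c, hc, h3, hx, hy⟩
  by_cases hxd : x ∈ d.support
  · exact Or.inr ⟨d, hd, h3', hxd, hz⟩
  obtain ⟨g, hg, h1, h2⟩ := move h3' hd hy' hz
  refine Or.inr ⟨g * c * g⁻¹, mul_mem (mul_mem hg hc) (inv_mem hg), three_conj h3 g, ?_, ?_⟩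
  · rw [mem_supp_conj, ← h2 x hxd]; simpa using hx
  · rw [mem_supp_conj, ← h1]; simpa using hy

theorem supp_eq {d : Perm Ω} (hd : d.IsThreeCycle) {x y z : Ω} (hxy : x ≠ y) (hyz : y ≠ z)
    (hxz : x ≠ z) (hx : x ∈ d.support) (hy : y ∈ d.support) (hz : z ∈ d.support) :
    d.support = {x, y, z} := by
  symm
  apply Finset.eq_of_subset_of_card_le
  · intro w hw
    simp only [Finset.mem_insert, Finset.mem_singleton] at hw
    rcases hw with rfl | rfl | rfl <;> assumption
  · rw [hd.card_support, Finset.card_eq_three.2 ⟨x, y, z, hxy, hxz, hyz, rfl⟩]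

theorem aux3 {c d : Perm Ω} (hc : c ∈ H) (h3 : c.IsThreeCycle) (hd : d ∈ H) (h3' : d.IsThreeCycle)
    {x y z u : Ω} (hx : x ∈ c.support) (hy : y ∈ c.support) (hu : u ∈ c.support)
    (hxd : x ∉ d.support) (hyd : y ∈ d.support) (hud : u ∈ d.support) (hzd : z ∈ d.support)
    (hyz : y ≠ z) (huz : u ≠ z) (huy : u ≠ y) :
    ∃ e ∈ H, e.IsThreeCycle ∧ x ∈ e.support ∧ y ∈ e.support ∧ z ∈ e.support := by
  obtain ⟨g, hg, h1, h2⟩ := move h3' hd hzd hud
  have hs := supp_eq h3' huz hyz.symm huy hud hzd hyd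
  have key : ∀ w ∈ d.support, w ≠ u → w ∈ (g * c * g⁻¹).support := by
    intro w hw hwu
    rw [mem_supp_conj]
    have a1 : g⁻¹ w ∈ d.support := by
      by_contra hn
      have := h2 _ hn
      rw [show g (g⁻¹ w) = w by simp] at this
      exact hn (this ▸ hw)
    have a2 : g⁻¹ w ≠ z := by
      intro he
      apply hwu
      rw [← h1, ← he]; simp
    rw [hs] at a1
    simp only [Finset.mem_insert, Finset.mem_singleton] at a1
    rcases a1 with e | e | e
    · exact e ▸ hu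
    · exact absurd e a2
    · exact e ▸ hy
  refine ⟨g * c * g⁻¹, mul_mem (mul_mem hg hc) (inv_mem hg), three_conj h3 g, ?_,
    key y hyd huy.symm, key z hzd huz.symm⟩
  rw [mem_supp_conj, ← h2 x hxd]; simpa using hx

theorem exists_three {x y z : Ω} (hxy : x ≠ y) (hyz : y ≠ z) (hxz : x ≠ z) (h1 : R H x y)
    (h2 : R H y z) : ∃ e ∈ H, e.IsThreeCycle ∧ x ∈ e.support ∧ y ∈ e.support ∧ z ∈ e.support := by
  rcases h1 with e | ⟨c, hc, h3, hx, hy⟩
  · exact absurd e hxy
  by_cases hz : z ∈ c.support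
  · exact ⟨c, hc, h3, hx, hy, hz⟩
  obtain ⟨u, hu, hux, huy⟩ : ∃ u ∈ c.support, u ≠ x ∧ u ≠ y := by
    by_contra hn
    push Not at hn
    have : c.support ⊆ {x, y} := by
      intro w hw
      by_cases e : w = x
      · simp [e]
      · simp [hn w hw e]
    have := Finset.card_le_card this
    rw [h3.card_support] at this
    exact absurd (this.trans Finset.card_le_two) (by norm_num)
  have huz : u ≠ z := fun e => hz (e ▸ hu)
  rcases R.trans (Or.inr ⟨c, hc, h3, hu, hy⟩) h2 with e | ⟨d, hd, h3', hud, hzd⟩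
  · exact absurd e huz
  by_cases hxd : x ∈ d.support
  · by_cases hyd : y ∈ d.support
    · exact ⟨d, hd, h3', hxd, hyd, hzd⟩
    · obtain ⟨e, he, a, b, c, d⟩ := aux3 hc h3 hd h3' hy hx hu hyd hxd hud hzd hxz huz hux
      exact ⟨e, he, a, c, b, d⟩
  by_cases hyd : y ∈ d.support
  · exact aux3 hc h3 hd h3' hx hy hu hxd hyd hud hzd hyz huz huy
  obtain ⟨g, hg, a1, a2⟩ := move h3' hd hud hzd
  refine ⟨g * c * g⁻¹, mul_mem (mul_mem hg hc) (inv_mem hg), three_conj h3 g, ?_, ?_, ?_⟩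
  · rw [mem_supp_conj, ← a2 x hxd]; simpa using hx
  · rw [mem_supp_conj, ← a2 y hyd]; simpa using hy
  · rw [mem_supp_conj, ← a1]; simpa using hu

/-- `AB B` is the alternating group on `B`. -/
noncomputable def abEquiv (B : Finset Ω) : alternatingGroup B ≃* AB B :=
  (equivMapOfInjective _ _ Perm.ofSubtype_injective).trans (MulEquiv.subgroupCongr (AB_eq B))

theorem card_AB {B : Finset Ω} (h : 2 ≤ B.card) : 2 * Nat.card (AB B) = B.card.factorial := by
  rw [← Nat.card_congr (abEquiv B).toEquiv, card_alt (by simpa using h)]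
  simp

theorem three_mem_AB {c : Perm Ω} (hc : c.IsThreeCycle) {B : Finset Ω} (h : c.support ⊆ B) :
    c ∈ AB B :=
  ⟨fun x hx => by
    by_contra hn
    exact hx (h (mem_support.2 hn)), hc.sign⟩

theorem mem_of_supp_eq {c d : Perm Ω} (hc : c.IsThreeCycle) (hd : d.IsThreeCycle) (hcH : c ∈ H)
    (h : c.support = d.support) : d ∈ H := by
  have h1 : zpowers c = AB c.support := by
    apply eq_of_le_of_card_ge (zpowers_le.2 (three_mem_AB hc le_rfl))
    have := card_AB (B := c.support) (by rw [hc.card_support]; norm_num)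
    rw [hc.card_support] at this
    rw [Nat.card_zpowers, hc.orderOf]
    simp only [Nat.factorial] at this
    omega
  exact zpowers_le.2 hcH (h1 ▸ three_mem_AB hd h.ge)

theorem AB_le_of_R {O : Finset Ω} (h : ∀ x ∈ O, ∀ y ∈ O, R H x y) : AB O ≤ H := by
  rw [← AB_eq, ← closure_three_cycles_eq_alternating, MonoidHom.map_closure, closure_le]
  rintro _ ⟨d, hd, rfl⟩
  have h3 : (Perm.ofSubtype d : Perm Ω).IsThreeCycle := by
    rw [IsThreeCycle, cycleType_ofSubtype]; exact hd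
  obtain ⟨x, y, z, hxy, hxz, hyz, hs⟩ := Finset.card_eq_three.1 h3.card_support
  have hO : ∀ w ∈ (Perm.ofSubtype d : Perm Ω).support, w ∈ O := by
    intro w hw
    by_contra hn
    exact mem_support.1 hw (Perm.ofSubtype_apply_of_not_mem d hn)
  have hx : x ∈ O := hO x (by simp [hs])
  have hy : y ∈ O := hO y (by simp [hs])
  have hz : z ∈ O := hO z (by simp [hs])
  obtain ⟨e, he, e3, a, b, c⟩ := exists_three hxy hyz hxz (h x hx y hy) (h y hy z hz)
  exact mem_of_supp_eq e3 h3 he (by rw [hs, supp_eq e3 hxy hyz hxz a b c])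

theorem QF.three (h : QF H K) {c : Perm Ω} (hc : c.IsThreeCycle) (hcH : c ∈ H) :
    ∃ O : Finset Ω, K = AB O ∧ H ≤ St O := by
  classical
  obtain ⟨x₀, hx₀⟩ : c.support.Nonempty := by
    rw [← Finset.card_pos, hc.card_support]; norm_num
  set N := closure {d : Perm Ω | d ∈ H ∧ d.IsThreeCycle} with hN
  have hNH : N ≤ H := (closure_le _).2 fun d hd => hd.1
  have hHN : H ≤ normalizer (N : Set (Perm Ω)) := by
    have key : ∀ g ∈ H, ∀ n ∈ N, g * n * g⁻¹ ∈ N := by
      intro g hg n hn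
      induction hn using closure_induction with
      | mem d hd => exact subset_closure ⟨mul_mem (mul_mem hg hd.1) (inv_mem hg), three_conj hd.2 g⟩
      | one => simp
      | mul a b _ _ ha hb => simpa [mul_assoc] using mul_mem ha hb
      | inv a _ ha => simpa [mul_assoc] using inv_mem ha
    intro g hg
    rw [mem_normalizer_iff]
    intro n
    refine ⟨key g hg n, fun hn => ?_⟩
    simpa [mul_assoc] using key g⁻¹ (inv_mem hg) _ hn
  have hKN : K ≤ N := (h.comp.le_or_of_normalizes hNH (h.comp.le.trans hHN)).resolve_right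
    (h.not_cent hc.isCycle hcH (subset_closure ⟨hcH, hc⟩))
  have hR : ∀ n ∈ N, ∀ x, R H x (n x) := by
    intro n hn
    induction hn using closure_induction with
    | mem d hd =>
      intro x
      by_cases hx : d x = x
      · exact Or.inl hx.symm
      · exact Or.inr ⟨d, hd.1, hd.2, mem_support.2 hx, apply_mem_support.2 (mem_support.2 hx)⟩
    | one => exact fun x => Or.inl rfl
    | mul a b _ _ ha hb => exact fun x => (hb x).trans (ha _)
    | inv a _ ha => exact fun x => by simpa using (ha (a⁻¹ x)).symm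
  set O := Finset.univ.filter (fun y => R H x₀ y) with hO
  have mO : ∀ y, y ∈ O ↔ R H x₀ y := by simp [hO]
  have hAH : AB O ≤ H := AB_le_of_R fun x hx y hy => ((mO x).1 hx).symm.trans ((mO y).1 hy)
  have hsub : ∀ d ∈ H, d.IsThreeCycle → ∀ x ∈ d.support, x ∈ O → d ∈ AB O := by
    intro d hd d3 x hx hxO
    exact three_mem_AB d3 fun y hy => (mO y).2 (((mO x).1 hxO).trans (Or.inr ⟨d, hd, d3, hx, hy⟩))
  have hcO : c ∈ AB O := hsub c hcH hc x₀ hx₀ ((mO _).2 (Or.inl rfl))
  have hKS : K ≤ St O := by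
    intro k hk x
    rw [mO, mO]
    exact ⟨fun a => a.trans (hR k (hKN hk) x).symm, fun a => a.trans (hR k (hKN hk) x)⟩
  have hKA : K ≤ AB O := (h.comp.le_or_of_normalizes hAH (hKS.trans (St_le_normalizer O))).resolve_right
    (h.not_cent hc.isCycle hcH hcO)
  have h3 : 3 ≤ O.card := by
    rw [← hc.card_support]
    exact Finset.card_le_card fun y hy => by
      by_contra hn
      exact mem_support.1 hy (hcO.1 y hn)
  have h5 : 5 ≤ O.card := by
    by_contra hn
    refine QS.not_le_solvable h.comp.qs (solvable_of_two Nat.prime_two Nat.prime_three ?_) hKA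
    intro r hr hd
    have h1 : r ∣ O.card.factorial := by
      rw [← card_AB (by omega)]; exact hd.mul_left 2
    have h2 := (hr.dvd_factorial).1 h1
    have h4 := hr.two_le
    have : r ≠ 4 := by rintro rfl; norm_num at hr
    omega
  have hs : IsSimpleGroup (AB O) := by
    have := alternatingGroup.isSimpleGroup (α := O) (by simpa using h5)
    exact (abEquiv O).symm.isSimpleGroup
  have hKe : K = AB O := by
    have hn : (K.subgroupOf (AB O)).Normal :=
      (normal_subgroupOf_iff_le_normalizer hKA).2 (hAH.trans h.norm)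
    rcases hs.eq_bot_or_eq_top_of_normal _ hn with e | e
    · rw [subgroupOf_eq_bot, disjoint_iff, inf_eq_left.2 hKA] at e
      exact absurd e h.comp.ne_bot
    · exact le_antisymm hKA (subgroupOf_eq_top.1 e)
  refine ⟨O, hKe, ?_⟩
  have key : ∀ g ∈ H, ∀ x ∈ O, g x ∈ O := by
    intro g hg x hx
    obtain ⟨d, hd, hxd⟩ : ∃ d ∈ AB O, x ∈ d.support := by
      rcases (mO x).1 hx with rfl | ⟨d, hd, d3, a, b⟩
      · exact ⟨c, hcO, hx₀⟩
      · exact ⟨d, hsub d hd d3 x b hx, b⟩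
    have h1 : g * d * g⁻¹ ∈ AB O := by
      rw [← hKe] at hd ⊢
      exact (mem_normalizer_iff.1 (h.norm hg) d).1 hd
    by_contra hn
    have h2 := h1.1 _ hn
    simp only [Perm.mul_apply, Perm.coe_inv, Equiv.symm_apply_apply, EmbeddingLike.apply_eq_iff_eq] at h2
    exact mem_support.1 hxd h2
  intro g hg x
  exact ⟨fun a => by simpa using key g⁻¹ (inv_mem hg) _ a, key g hg x⟩

theorem QF.not_dvd (h : QF H K) {O : Finset Ω} (hK : K = AB O) (hH : H ≤ St O) {p : ℕ} [Fact p.Prime]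
    {P M : Subgroup (Perm Ω)} (hP : IsSylowIn p P M) (hM : alternatingGroup Ω ≤ M) (hPH : P ≤ H) :
    ¬ p ∣ Nat.card (AB Oᶜ) := by
  intro hd
  have hS : P ≤ St Oᶜ := fun g hg x => by
    rw [Finset.mem_compl, Finset.mem_compl, hH (hPH hg) x]
  have h1 := hP.inf ((AB_le _).trans hM) (hS.trans (St_le_normalizer _))
  apply h1.ne_bot hd
  rw [eq_bot_iff]
  rintro g ⟨hg, hg'⟩
  have hgO : ∀ x ∈ O, g x = x := fun x hx => hg'.1 x (by simpa using hx)
  have h2 : g ∈ K := by
    refine h.cent ⟨hPH hg, fun k hk => ?_⟩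
    rw [hK] at hk
    ext x
    rw [Perm.mul_apply, Perm.mul_apply]
    by_cases hx : x ∈ O
    · have : k x ∈ O := by
        by_contra hn
        have := k.injective (hk.1 _ hn)
        exact hn (this.symm ▸ hx)
      rw [hgO x hx, hgO _ this]
    · rw [hk.1 x hx, hk.1 _ (fun a => hx ((hH (hPH hg) x).1 a))]
  rw [hK] at h2
  rw [mem_bot]
  ext x
  by_cases hx : x ∈ O
  · exact hgO x hx
  · exact h2.1 x hx

theorem iso_of_eq {O : Finset Ω} (h : FstarOf H = AB O) :
    Nonempty (generalizedFittingSubgroup H ≃* alternatingGroup (Fin O.card)) :=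
  ⟨((equivMapOfInjective _ _ H.subtype_injective).trans (MulEquiv.subgroupCongr
    ((FstarOf_def H).symm.trans h))).trans ((abEquiv O).symm.trans
      (Equiv.altCongrHom O.equivFin))⟩

theorem main3 (hn : 3 ≤ Fintype.card Ω) (hF : IsQuasisimple (generalizedFittingSubgroup H))
    (P : Sylow 3 (Perm Ω)) (hP : (P : Subgroup (Perm Ω)) ≤ H) :
    ∃ m, m ≤ Fintype.card Ω ∧ Fintype.card Ω ≤ m + 2 ∧
      Nonempty (generalizedFittingSubgroup H ≃* alternatingGroup (Fin m)) := by
  haveI : Fact (Nat.Prime 3) := ⟨Nat.prime_three⟩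
  have h := qf_fstar hF
  have hS := isSylowIn_top P
  obtain ⟨c, hc⟩ := (exists_with_cycleType_iff Ω (m := {3})).2 ⟨by simpa using hn, by simp⟩
  have hc3 : c.IsThreeCycle := hc
  obtain ⟨g, -, hg⟩ := hS.exists_le_conj (U := zpowers c) le_top
    (IsPGroup.of_card (n := 1) (by rw [Nat.card_zpowers, hc3.orderOf, pow_one]))
  have h1 := hg (mem_zpowers c)
  rw [mem_pointwise_smul_iff_inv_smul_mem] at h1
  have h2 : g⁻¹ * c * g⁻¹⁻¹ ∈ H := hP (by simpa using h1)
  obtain ⟨O, hK, hO⟩ := h.three (three_conj hc3 _) h2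
  refine ⟨O.card, Finset.card_le_univ O, ?_, iso_of_eq hK⟩
  by_contra hlt
  apply h.not_dvd hK hO hS le_top hP
  have h3 : 3 ≤ Oᶜ.card := by rw [Finset.card_compl]; omega
  have h4 := Nat.dvd_factorial (by norm_num : 0 < 3) h3
  rw [← card_AB (by omega)] at h4
  exact (Nat.Coprime.dvd_mul_left (by norm_num)).1 h4

end Cfsg.Agent.H22.Sy
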