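import Cfsg.Agent.H22.Sy1

/-! Overgroups of a Sylow 2-subgroup of an alternating group. -/

set_option autoImplicit false
set_option linter.style.haveILetI false

namespace Cfsg.Agent.H22.Sy

open Equiv Equiv.Perm Subgroup Cfsg.Agent.H1 Cfsg.Agent.H6.HS Cfsg.Agent.H10
open scoped Pointwise commutatorElement

variable {Ω : Type} [Fintype Ω] [DecidableEq Ω] {H K : Subgroup (Perm Ω)} {τ σ : Perm Ω}

omit [Fintype Ω] [DecidableEq Ω] in
theorem inv2 (h : τ * τ = 1) (x : Ω) : τ (τ x) = x := by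
  rw [← Perm.mul_apply, h]; rfl

/-- The permutations preserving every orbit of the involution `τ`. -/
def Et (τ : Perm Ω) (h : τ * τ = 1) : Subgroup (Perm Ω) where
  carrier := {g | ∀ x, g x = x ∨ g x = τ x}
  mul_mem' := fun {a b} ha hb x => by
    rw [Perm.mul_apply]
    rcases hb x with e | e <;> rw [e]
    · exact ha x
    · rcases ha (τ x) with e' | e'
      · exact Or.inr e'
      · exact Or.inl (e'.trans (inv2 h x))
  one_mem' := fun _ => Or.inl rfl
  inv_mem' := fun {a} ha x => by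
    rcases ha (a⁻¹ x) with e | e
    · left; rw [← e]; simp
    · right; rw [← inv2 h (a⁻¹ x), ← e]; simp

theorem Et_pgroup (h : τ * τ = 1) : IsPGroup 2 (Et τ h) := by
  rintro ⟨g, hg⟩
  refine ⟨1, Subtype.ext ?_⟩
  ext x
  rw [pow_one, pow_two]
  change g (g x) = x
  rcases hg x with e | e
  · rw [e, e]
  · rw [e]
    rcases hg (τ x) with e' | e'
    · have := g.injective (e'.trans e.symm)
      rw [e', this]
    · rw [e', inv2 h]

/-- `τ` is an involution with at most one fixed point whose even pair group lies in `H`. -/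
structure Pr (H : Subgroup (Perm Ω)) (τ : Perm Ω) : Prop where
  sq : τ * τ = 1
  one : ∀ u v, τ u = u → τ v = v → u = v
  big : 8 ≤ τ.support.card
  le : ∀ g : Perm Ω, (∀ x, g x = x ∨ g x = τ x) → sign g = 1 → g ∈ H

theorem Pr.conj (h : Pr H τ) {g : Perm Ω} (hg : g ∈ H) : Pr H (g * τ * g⁻¹) where
  sq := by
    have : g * τ * g⁻¹ * (g * τ * g⁻¹) = g * (τ * τ) * g⁻¹ := by group
    rw [this, h.sq]; simp
  one := fun u v hu hv => by
    simp only [Perm.mul_apply] at hu hv
    rw [← Perm.eq_inv_iff_eq] at hu hv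
    exact g⁻¹.injective (h.one _ _ hu hv)
  big := by rw [card_support_conj]; exact h.big
  le := fun k hk hs => by
    have : g⁻¹ * k * g ∈ H := by
      refine h.le _ (fun x => ?_) (by simp [hs, mul_comm])
      simp only [Perm.mul_apply]
      rcases hk (g x) with e | e
      · left; rw [e]; simp
      · right; rw [e]; simp
    simpa [mul_assoc] using mul_mem (mul_mem hg this) (inv_mem hg)

theorem Pr.pair (h : Pr H τ) {x y : Ω} (hx : τ x ≠ x) (hy : τ y ≠ y) (h1 : y ≠ x) (h2 : y ≠ τ x) :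
    swap x (τ x) * swap y (τ y) ∈ H := by
  have h3 : τ y ≠ x := fun e => h2 (by rw [← e, inv2 h.sq])
  have h4 : τ y ≠ τ x := fun e => h1 (τ.injective e)
  refine h.le _ (fun w => ?_) (by simp [sign_swap hx.symm, sign_swap hy.symm])
  rw [Perm.mul_apply]
  by_cases a : w = y
  · subst a; right; rw [swap_apply_left, swap_apply_of_ne_of_ne h3 h4]
  by_cases b : w = τ y
  · subst b; right; rw [swap_apply_right, swap_apply_of_ne_of_ne h1 h2, inv2 h.sq]
  rw [swap_apply_of_ne_of_ne a b]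
  by_cases c : w = x
  · subst c; right; rw [swap_apply_left]
  by_cases d : w = τ x
  · subst d; right; rw [swap_apply_right, inv2 h.sq]
  left; rw [swap_apply_of_ne_of_ne c d]

theorem three_of (h : Pr H τ) (h' : Pr H σ) {x y z : Ω} (hx : τ x ≠ x) (hx' : σ x ≠ x)
    (hne : τ x ≠ σ x) (hy : τ y ≠ y) (y1 : y ≠ x) (y2 : y ≠ τ x) (y3 : y ≠ σ x) (y4 : y ≠ τ (σ x))
    (hz : σ z ≠ z) (z1 : z ≠ x) (z2 : z ≠ σ x) (z3 : z ≠ τ x) (z4 : z ≠ σ (τ x))
    (w1 : y ≠ z) (w2 : y ≠ σ z) (w3 : y ≠ τ z) (w4 : y ≠ τ (σ z)) :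
    ∃ c ∈ H, c.IsThreeCycle := by
  have g1 := h.pair hx hy y1 y2
  have g2 := h'.pair hx' hz z1 z2
  set a := swap x (τ x) * swap y (τ y) with ha
  have flip : ∀ w, y ≠ τ w → w ≠ τ y := fun w hw e => hw (by rw [e, inv2 h.sq])
  have flip' : ∀ w, z ≠ σ w → σ z ≠ w := fun w hw e => hw (by rw [← e, inv2 h'.sq])
  have a1 : a x = τ x := by
    rw [ha, Perm.mul_apply, swap_apply_of_ne_of_ne y1.symm (flip _ y2), swap_apply_left]
  have a2 : a (σ x) = σ x := by
    rw [ha, Perm.mul_apply, swap_apply_of_ne_of_ne y3.symm (flip _ y4),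
      swap_apply_of_ne_of_ne hx' hne.symm]
  have a3 : a z = z := by
    rw [ha, Perm.mul_apply, swap_apply_of_ne_of_ne w1.symm (flip _ w3), swap_apply_of_ne_of_ne z1 z3]
  have a4 : a (σ z) = σ z := by
    rw [ha, Perm.mul_apply, swap_apply_of_ne_of_ne w2.symm (flip _ w4),
      swap_apply_of_ne_of_ne (flip' _ z2) (flip' _ z4)]
  have e1 : a * (swap x (σ x) * swap z (σ z)) * a⁻¹ = swap (τ x) (σ x) * swap z (σ z) := by
    have : a * (swap x (σ x) * swap z (σ z)) * a⁻¹ =
        (a * swap x (σ x) * a⁻¹) * (a * swap z (σ z) * a⁻¹) := by group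
    rw [this, ← swap_apply_apply, ← swap_apply_apply, a1, a2, a3, a4]
  refine ⟨swap (σ x) (τ x) * swap (σ x) x, ?_, isThreeCycle_swap_mul_swap_same hne.symm hx' hx⟩
  have := mul_mem (mul_mem (mul_mem g1 g2) (inv_mem g1)) (inv_mem g2)
  rw [e1] at this
  simpa [mul_assoc, swap_comm x (σ x), swap_comm (τ x) (σ x)] using this

theorem exists_out {S : Finset Ω} {a b c d : Ω} (h : 5 ≤ S.card) :
    ∃ z ∈ S, z ≠ a ∧ z ≠ b ∧ z ≠ c ∧ z ≠ d := by
  obtain ⟨z, hz, hn⟩ := Finset.exists_mem_notMem_of_card_lt_card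
    (s := ({a, b, c, d} : Finset Ω)) (t := S) (lt_of_le_of_lt Finset.card_le_four (by omega))
  exact ⟨z, hz, by simpa [not_or] using hn⟩

theorem card_sdiff4 (S : Finset Ω) (a b c d : Ω) : S.card ≤ (S \ {a, b, c, d}).card + 4 := by
  have := Finset.le_card_sdiff ({a, b, c, d} : Finset Ω) S
  have h : ({a, b, c, d} : Finset Ω).card ≤ 4 := Finset.card_le_four
  omega

theorem three_of_big (h : Pr H τ) (h' : Pr H σ) {x : Ω} (hx : τ x ≠ x) (hx' : σ x ≠ x)
    (hne : τ x ≠ σ x) (hY : 5 ≤ (τ.support \ {x, τ x, σ x, τ (σ x)}).card) :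
    ∃ c ∈ H, c.IsThreeCycle := by
  obtain ⟨z, hz, z1, z2, z3, z4⟩ := exists_out (S := σ.support) (a := x) (b := σ x) (c := τ x)
    (d := σ (τ x)) (h'.big.trans' (by norm_num))
  obtain ⟨y, hy, w1, w2, w3, w4⟩ := exists_out (a := z) (b := σ z) (c := τ z) (d := τ (σ z)) hY
  simp only [Finset.mem_sdiff, mem_support, Finset.mem_insert, Finset.mem_singleton, not_or] at hy
  exact three_of h h' hx hx' hne hy.1 hy.2.1 hy.2.2.1 hy.2.2.2.1 hy.2.2.2.2 (mem_support.1 hz)
    z1 z2 z3 z4 w1 w2 w3 w4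

theorem fix_eq (h : Pr H τ) (h' : Pr H σ) (h3 : ¬ ∃ c ∈ H, c.IsThreeCycle) {u : Ω} (hu : τ u = u) :
    σ u = u := by
  by_contra hn
  have hx : τ (σ u) ≠ σ u := fun e => hn (h.one _ _ e hu)
  apply h3
  refine three_of_big h h' hx (by rw [inv2 h'.sq]; exact Ne.symm hn) ?_ ?_
  · rw [inv2 h'.sq]
    intro e
    exact hn (τ.injective (e.trans hu.symm))
  · rw [inv2 h'.sq, hu]
    have e : τ.support \ {σ u, τ (σ u), u, u} = τ.support \ {σ u, τ (σ u)} := by
      ext w
      simp only [Finset.mem_sdiff, mem_support, Finset.mem_insert, Finset.mem_singleton, not_or]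
      constructor
      · exact fun a => ⟨a.1, a.2.1, a.2.2.1⟩
      · exact fun a => ⟨a.1, a.2.1, a.2.2, fun e => a.1 (e ▸ hu), fun e => a.1 (e ▸ hu)⟩
    rw [e]
    have := Finset.le_card_sdiff ({σ u, τ (σ u)} : Finset Ω) τ.support
    have h2 : ({σ u, τ (σ u)} : Finset Ω).card ≤ 2 := Finset.card_le_two
    have := h.big
    omega

theorem eq_of_nine (h : Pr H τ) (h' : Pr H σ) (h3 : ¬ ∃ c ∈ H, c.IsThreeCycle)
    (h9 : 9 ≤ τ.support.card) : τ = σ := by
  ext x
  by_contra hne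
  have hx : τ x ≠ x := fun e => hne (e.trans (fix_eq h h' h3 e).symm)
  have hx' : σ x ≠ x := fun e => hne ((fix_eq h' h h3 e).trans e.symm)
  have := card_sdiff4 τ.support x (τ x) (σ x) (τ (σ x))
  exact h3 (three_of_big h h' hx hx' hne (by omega))

theorem comm_of (h : Pr H τ) (h' : Pr H σ) (h3 : ¬ ∃ c ∈ H, c.IsThreeCycle) : τ * σ = σ * τ := by
  ext x
  simp only [Perm.mul_apply]
  by_cases hne : τ x = σ x
  · rw [← hne, inv2 h.sq, hne, inv2 h'.sq]
  have hx : τ x ≠ x := fun e => hne (e.trans (fix_eq h h' h3 e).symm)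
  have hx' : σ x ≠ x := fun e => hne ((fix_eq h' h h3 e).trans e.symm)
  by_contra hc
  have b1 : τ (σ x) ≠ σ x := fun e => hx' (by
    have := fix_eq h h' h3 e
    rw [inv2 h'.sq] at this; exact this.symm)
  have hz : σ (τ (σ x)) ≠ τ (σ x) := fun e => b1 (by
    have := fix_eq h' h h3 e
    rw [inv2 h.sq] at this; exact this.symm)
  obtain ⟨y, hy, hn⟩ := Finset.exists_mem_notMem_of_card_lt_card
    (s := ({σ (τ (σ x)), τ (σ (τ (σ x)))} : Finset Ω))
    (t := τ.support \ {x, τ x, σ x, τ (σ x)}) (lt_of_le_of_lt Finset.card_le_two (by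
      have := card_sdiff4 τ.support x (τ x) (σ x) (τ (σ x))
      have := h.big
      omega))
  simp only [Finset.mem_sdiff, mem_support, Finset.mem_insert, Finset.mem_singleton, not_or] at hy hn
  refine h3 (three_of h h' hx hx' hne hy.1 hy.2.1 hy.2.2.1 hy.2.2.2.1 hy.2.2.2.2 hz ?_ b1 ?_ hc
    hy.2.2.2.2 hn.1 ?_ hn.2)
  · intro e; apply hne; rw [← inv2 h.sq (σ x), e]
  · intro e; exact hx' (τ.injective e)
  · rw [inv2 h.sq]; exact hy.2.2.2.1

theorem QF.not_comm (h : QF H K) (hτ : Pr H τ) : ¬ ∀ k ∈ K, k * τ = τ * k := by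
  intro hc
  haveI : Fact (Nat.Prime 2) := ⟨Nat.prime_two⟩
  have hsol : Group.IsSolvable (Et τ hτ.sq) := H10.isSolvable_of_isPGroup (Et_pgroup hτ.sq)
  have hE : Et τ hτ.sq ⊓ alternatingGroup Ω ≤ H := fun g hg => hτ.le g hg.1 hg.2
  have hc' : ∀ k ∈ K, ∀ x, k (τ x) = τ (k x) := fun k hk x => by
    rw [← Perm.mul_apply, hc k hk, Perm.mul_apply]
  have hn : K ≤ normalizer ((Et τ hτ.sq ⊓ alternatingGroup Ω : Subgroup (Perm Ω)) : Set (Perm Ω)) := by
    have key : ∀ k ∈ K, ∀ g ∈ Et τ hτ.sq ⊓ alternatingGroup Ω,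
        k * g * k⁻¹ ∈ Et τ hτ.sq ⊓ alternatingGroup Ω := by
      rintro k hk g ⟨h1, h2⟩
      refine ⟨fun x => ?_, (alternatingGroup.normal).conj_mem _ h2 k⟩
      simp only [Perm.mul_apply]
      rcases h1 (k⁻¹ x) with e | e
      · left; rw [e]; simp
      · right; rw [e, hc' k hk]; simp
    intro g hg
    rw [mem_normalizer_iff]
    intro n
    refine ⟨key g hg n, fun hn => ?_⟩
    simpa [mul_assoc] using key g⁻¹ (inv_mem hg) _ hn
  have hb := (h.comp.le_or_of_normalizes hE hn).resolve_left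
    (fun a => QS.not_le_solvable h.comp.qs hsol (a.trans inf_le_left))
  have mv : ∀ k ∈ K, ∀ x y, τ x ≠ x → τ y ≠ y → y ≠ x → y ≠ τ x →
      k x = x ∨ k x = τ x ∨ k x = y ∨ k x = τ y := by
    intro k hk x y hx hy h1 h2
    have h3 : τ y ≠ x := fun e => h2 (by rw [← e, inv2 hτ.sq])
    have m : swap x (τ x) * swap y (τ y) ∈ Et τ hτ.sq ⊓ alternatingGroup Ω :=
      (⟨hτ.sq, hτ.one, hτ.big, fun g a b => ⟨a, b⟩⟩ :
        Pr (Et τ hτ.sq ⊓ alternatingGroup Ω) τ).pair hx hy h1 h2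
    have e := commutator_eq_bot_iff_le_centralizer.1 hb hk _ m
    have e2 := congrArg (fun g : Perm Ω => g x) e
    simp only [Perm.mul_apply] at e2
    rw [swap_apply_of_ne_of_ne h1.symm h3.symm, swap_apply_left] at e2
    by_contra hn
    push Not at hn
    rw [swap_apply_of_ne_of_ne hn.2.2.1 hn.2.2.2, swap_apply_of_ne_of_ne hn.1 hn.2.1] at e2
    exact hx (k.injective e2).symm
  have mv2 : ∀ k ∈ K, ∀ x, τ x ≠ x → k x = x ∨ k x = τ x := by
    intro k hk x hx
    obtain ⟨y, hy, y1, y2, -, -⟩ := exists_out (S := τ.support) (a := x) (b := τ x) (c := x) (d := x)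
      (hτ.big.trans' (by norm_num))
    obtain ⟨z, hz, z1, z2, z3, z4⟩ := exists_out (S := τ.support) (a := x) (b := τ x) (c := y)
      (d := τ y) (hτ.big.trans' (by norm_num))
    rcases mv k hk x y hx (mem_support.1 hy) y1 y2 with e | e | e | e
    · exact Or.inl e
    · exact Or.inr e
    all_goals
      rcases mv k hk x z hx (mem_support.1 hz) z1 z2 with f | f | f | f
    · exact Or.inl f
    · exact Or.inr f
    · exact absurd (f.symm.trans e) z3
    · exact absurd (by rw [← e, f, inv2 hτ.sq]) z4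
    · exact Or.inl f
    · exact Or.inr f
    · exact absurd (f.symm.trans e) z4
    · exact absurd (τ.injective (f.symm.trans e)) z3
  refine QS.not_le_solvable h.comp.qs hsol fun k hk x => ?_
  by_cases hx : τ x = x
  · left
    exact hτ.one _ _ (by rw [← hc' k hk, hx]) hx
  · exact mv2 k hk x hx

theorem QF.exists_three (h : QF H K) (hτ : Pr H τ) : ∃ c ∈ H, c.IsThreeCycle := by
  by_contra h3
  apply h.not_comm hτ
  by_cases h9 : 9 ≤ τ.support.card
  · intro k hk
    have := eq_of_nine hτ (hτ.conj (h.comp.le hk)) h3 h9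
    rw [eq_mul_inv_iff_mul_eq] at this
    exact this.symm
  have h8 : τ.support.card = 8 := by have := hτ.big; omega
  have hτH : τ ∈ H := by
    refine hτ.le τ (fun x => Or.inr rfl) ?_
    haveI : Fact (Nat.Prime 2) := ⟨Nat.prime_two⟩
    have h1 := cycleType_of_pow_prime_eq_one (σ := τ) (p := 2) (by rw [pow_two, hτ.sq])
    have h2 := sum_cycleType τ
    rw [sign_of_cycleType]
    rw [h8] at h2
    have h4 : τ.cycleType.card = 4 := by
      have h5 := (pow_prime_eq_one_iff (σ := τ) (p := 2)).1 (by rw [pow_two, hτ.sq])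
      rw [Multiset.eq_replicate_of_mem h5] at h2
      simp at h2
      omega
    rw [h2, h4]
    decide
  set N := closure {d : Perm Ω | ∃ g ∈ H, d = g * τ * g⁻¹} with hN
  have hNH : N ≤ H := (closure_le _).2 (by
    rintro _ ⟨g, hg, rfl⟩
    exact mul_mem (mul_mem hg hτH) (inv_mem hg))
  have hHN : H ≤ normalizer (N : Set (Perm Ω)) := by
    have key : ∀ g ∈ H, ∀ n ∈ N, g * n * g⁻¹ ∈ N := by
      intro g hg n hn
      induction hn using closure_induction with
      | mem d hd =>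
        obtain ⟨k, hk, rfl⟩ := hd
        exact subset_closure ⟨g * k, mul_mem hg hk, by group⟩
      | one => simp
      | mul a b _ _ ha hb => simpa [mul_assoc] using mul_mem ha hb
      | inv a _ ha => simpa [mul_assoc] using inv_mem ha
    intro g hg
    rw [mem_normalizer_iff]
    intro n
    refine ⟨key g hg n, fun hn => ?_⟩
    simpa [mul_assoc] using key g⁻¹ (inv_mem hg) _ hn
  have hτN : τ ∈ N := subset_closure ⟨1, one_mem _, by simp⟩
  rcases h.comp.le_or_of_normalizes hNH (h.comp.le.trans hHN) with e | e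
  · have : N ≤ centralizer {τ} := (closure_le _).2 (by
      rintro _ ⟨g, hg, rfl⟩ _ rfl
      exact comm_of hτ (hτ.conj hg) h3)
    exact fun k hk => (this (e hk) τ rfl).symm
  · exact fun k hk => (commutator_eq_bot_iff_le_centralizer.1 e hk τ hτN).symm

theorem main2 (hn : 8 ≤ Fintype.card Ω) (hF : IsQuasisimple (generalizedFittingSubgroup H))
    (P : Sylow 2 (alternatingGroup Ω))
    (hP : (P : Subgroup (alternatingGroup Ω)).map (alternatingGroup Ω).subtype ≤ H) :
    ∃ m, m ≤ Fintype.card Ω ∧ Fintype.card Ω ≤ m + 3 ∧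
      Nonempty (generalizedFittingSubgroup H ≃* alternatingGroup (Fin m)) := by
  haveI : Fact (Nat.Prime 2) := ⟨Nat.prime_two⟩
  have h := qf_fstar hF
  have hS := isSylowIn_map_subtype P
  obtain ⟨t, ht⟩ := (exists_with_cycleType_iff Ω
    (m := Multiset.replicate (Fintype.card Ω / 2) 2)).2 ⟨by simp; omega, by
      intro a ha; rw [Multiset.eq_of_mem_replicate ha]⟩
  have hsq : t * t = 1 := by
    rw [← pow_two, pow_prime_eq_one_iff, ht]
    exact fun c hc => Multiset.eq_of_mem_replicate hc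
  have hsup : t.support.card = Fintype.card Ω / 2 * 2 := by
    rw [← sum_cycleType, ht]; simp
  obtain ⟨g, -, hg⟩ := hS.exists_le_conj (U := Et t hsq ⊓ alternatingGroup Ω) inf_le_right
    ((Et_pgroup hsq).to_le inf_le_left)
  have hT : Pr (H.map (MulAut.conj g).toMonoidHom ⊔ ⊥) t := by
    refine ⟨hsq, fun u v hu hv => ?_, by omega, fun k a b => ?_⟩
    · by_contra hne
      have h1 : ({u, v} : Finset Ω) ⊆ t.supportᶜ := by
        intro w hw
        simp only [Finset.mem_insert, Finset.mem_singleton] at hw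
        rcases hw with rfl | rfl <;> simpa
      have h2 := Finset.card_le_card h1
      rw [Finset.card_pair hne, Finset.card_compl] at h2
      omega
    · rw [sup_bot_eq]
      exact map_mono hP (hg ⟨a, b⟩)
  have hτ : Pr H (g⁻¹ * t * g⁻¹⁻¹) := by
    have h1 : Pr ⊤ t := ⟨hT.sq, hT.one, hT.big, fun _ _ _ => mem_top _⟩
    have h2 := h1.conj (mem_top g⁻¹)
    refine ⟨h2.sq, h2.one, h2.big, fun k a b => ?_⟩
    have h3 : g * k * g⁻¹ ∈ H.map (MulAut.conj g).toMonoidHom ⊔ ⊥ := by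
      refine hT.le _ (fun x => ?_) (by simp [b, mul_comm])
      simp only [Perm.mul_apply]
      rcases a (g⁻¹ x) with e | e
      · left; rw [e]; simp
      · right; rw [e]; simp
    rw [sup_bot_eq] at h3
    obtain ⟨y, hy, e⟩ := h3
    have : y = k := by simpa using e
    exact this ▸ hy
  obtain ⟨c, hc, hc3⟩ := h.exists_three hτ
  obtain ⟨O, hK, hO⟩ := h.three hc3 hc
  refine ⟨O.card, Finset.card_le_univ O, ?_, iso_of_eq hK⟩
  by_contra hlt
  apply h.not_dvd hK hO hS le_rfl hP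
  have h3 : 4 ≤ Oᶜ.card := by rw [Finset.card_compl]; omega
  have h4 := Nat.dvd_factorial (by norm_num : 0 < 4) h3
  rw [← card_AB (by omega)] at h4
  omega

end Cfsg.Agent.H22.Sy
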