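import Cfsg.Agent.H4.HigField
import Cfsg.Agent.H15.Sz3
import Cfsg.Agent.H23.Cores

/-! The automorphism group of a Sylow `2`-subgroup of a Suzuki group. -/

set_option autoImplicit false
set_option linter.style.haveILetI false

namespace Cfsg.Agent.H22.SzA

open Finset Cfsg.Agent.H4

variable {F : Type*} [Field F] [CharP F 2]

theorem sum_symm {ι : Type*} (s : Finset ι) (h : ι → ι → F) (hs : ∀ i j, h i j = h j i) :
    ∑ i ∈ s, ∑ j ∈ s, h i j = ∑ i ∈ s, h i i := by
  classical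
  induction s using Finset.induction_on with
  | empty => simp
  | insert a s ha ih =>
    simp only [sum_insert ha, sum_add_distrib, ih, hs a]
    rw [add_assoc, ← add_assoc (∑ _ ∈ s, _), CharTwo.add_self_eq_zero, zero_add]

variable [Fintype F]

theorem quad_zero [Fintype (F ≃+* F)] {M : (F ≃+* F) → (F ≃+* F) → F}
    (h : ∀ x, ∑ σ, ∑ τ, M σ τ * (σ x * τ x) = 0) : (∀ σ τ, M σ τ = M τ σ) ∧ ∀ σ, M σ σ = 0 := by
  have s : ∀ σ τ, M σ τ = M τ σ := fun σ τ => by
    rw [← CharTwo.add_eq_zero]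
    refine coeff2_eq_zero (c := fun σ τ => M σ τ + M τ σ) (fun x y => ?_) σ τ
    have := h (x + y)
    simp only [map_add, mul_add, add_mul, sum_add_distrib, h, zero_add, add_zero] at this
    simp only [add_mul, sum_add_distrib]
    rw [← this, add_comm, sum_comm]
    simp only [mul_comm]
  refine ⟨s, fun σ => coeff_eq_zero_of_sum (s := univ) (c := fun σ => M σ σ) (fun y => ?_) σ (mem_univ _)⟩
  have := h (sqrtAut F y)
  rw [sum_symm _ _ fun i j => by rw [s, mul_comm (i _)]] at this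
  have e : ∀ σ : F ≃+* F, σ (sqrtAut F y) * σ (sqrtAut F y) = σ y := fun σ => by
    rw [← map_mul, sqrtAut_mul_self]
  simpa only [e] using this

theorem key (t : F ≃+* F) (tc : ∀ (σ : F ≃+* F) x, σ (t x) = t (σ x)) (t1 : t ≠ 1) (t4 : t * t * (t * t) ≠ 1)
    (f g : F →+ F) (hf : f 1 ≠ 0) (h : ∀ x, g (t x * x) = t (f x) * f x) :
    ∃ (c : F) (σ : F ≃+* F), ∀ x, f x = c * σ x := by
  classical
  haveI := Fintype.ofFinite (F ≃+* F)
  obtain ⟨a, ha⟩ := exists_add_expand f
  obtain ⟨b, hb⟩ := exists_add_expand g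
  have tc' : ∀ σ : F ≃+* F, σ * t = t * σ := fun σ => RingEquiv.ext (tc σ)
  obtain ⟨s, d⟩ := quad_zero (M := fun σ τ => t (a (t⁻¹ * σ)) * a τ + if σ = t * τ then b τ else 0)
    fun x => by
      simp only [add_mul, sum_add_distrib]
      rw [CharTwo.add_eq_zero, sum_comm (f := fun σ τ => ite _ _ _ * _)]
      simp only [ite_mul, zero_mul, sum_ite_eq', mem_univ, if_true]
      rw [← Equiv.sum_comp (Equiv.mulLeft t)]
      have e1 := h x
      rw [hb, ha, map_sum, sum_mul_sum] at e1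
      simp only [map_mul, tc] at e1
      simp only [Equiv.coe_mulLeft, inv_mul_cancel_left]
      refine Eq.trans ?_ (e1.symm.trans rfl)
      exact sum_congr rfl fun σ _ => sum_congr rfl fun τ _ => by
        change _ * (t (σ x) * _) = _; ring
  have d' : ∀ τ, a τ ≠ 0 → a (t⁻¹ * τ) = 0 := fun τ hτ => by
    have := d τ
    rw [if_neg fun e => t1 (by simpa using e.symm), add_zero, mul_eq_zero, map_eq_zero] at this
    exact this.resolve_right hτ
  have u : ∀ σ τ, a σ ≠ 0 → a τ ≠ 0 → σ ≠ τ → τ = t * (t * σ) := fun σ τ h1 h2 h3 => by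
    by_contra h4
    have := s (t * σ) τ
    rw [if_neg fun e => h3 (mul_left_cancel e), if_neg h4, d' τ h2, inv_mul_cancel_left] at this
    simp [h1, h2] at this
  obtain ⟨σ, hσ⟩ : ∃ σ, a σ ≠ 0 := by
    by_contra hh
    push Not at hh
    exact hf (by simp [ha, hh])
  refine ⟨a σ, σ, fun x => (ha x).trans (sum_eq_single σ (fun τ _ hτ => ?_) (by simp))⟩
  by_contra hh
  have h1 := left_ne_zero_of_mul hh
  have e := u τ σ h1 hσ hτ
  rw [u σ τ hσ h1 hτ.symm] at e
  exact t4 (mul_right_cancel (b := σ) (by simpa [mul_assoc] using e.symm))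

theorem card_add {n : ℕ} (hF : Fintype.card F = 2 ^ n) :
    Nat.card (F ≃+* F) = n ∧ Nat.card (F →+ F) = 2 ^ n ^ 2 := by
  haveI := Fintype.ofFinite (F ≃+* F)
  have h1 : Nat.card (F ≃+* F) = n := by
    letI := ZMod.algebra F 2
    haveI : Fact (Nat.Prime 2) := ⟨Nat.prime_two⟩
    have := Module.card_eq_pow_finrank (K := ZMod 2) (V := F)
    rw [hF, ZMod.card] at this
    rw [card_ringEquiv_eq_finrank, Nat.pow_right_injective le_rfl this]
  refine ⟨h1, ?_⟩
  let Φ : ((F ≃+* F) → F) → (F →+ F) := fun c =>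
    AddMonoidHom.mk' (fun x => ∑ σ, c σ * σ x) fun x y => by simp [mul_add, sum_add_distrib]
  have : Function.Bijective Φ := ⟨fun c d e => funext fun σ => sub_eq_zero.1
    (coeff_eq_zero_of_sum (s := univ) (c := fun σ => c σ - d σ) (fun x => by
      simp only [sub_mul, sum_sub_distrib]; exact sub_eq_zero.2 (DFunLike.congr_fun e x)) σ (mem_univ _)),
    fun f => by obtain ⟨c, hc⟩ := exists_add_expand f; exact ⟨c, AddMonoidHom.ext fun x => (hc x).symm⟩⟩
  rw [← Nat.card_eq_of_bijective _ this, Nat.card_fun, h1, Nat.card_eq_fintype_card, hF, ← pow_mul, sq]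

theorem main {S : Type*} [Group S] {m : ℕ} (hm : 1 ≤ m) (hF : Fintype.card F = 2 ^ (2 * m + 1))
    (s : F × F ≃ S) (hs : ∀ a b c d, s (a, b) * s (c, d) = s (a + c, b + d + a ^ 2 ^ (m + 1) * c)) :
    IsElementaryAbelian 2 (pCore 2 (MulAut S)) ∧ Nat.card (pCore 2 (MulAut S)) = 2 ^ ((2 * m + 1) ^ 2) ∧
      Nat.card (MulAut S) = 2 ^ ((2 * m + 1) ^ 2) * ((2 * m + 1) * (2 ^ (2 * m + 1) - 1)) := by
  haveI : Fact (Nat.Prime 2) := ⟨Nat.prime_two⟩
  haveI : Finite S := Finite.of_equiv _ s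
  let t : F ≃+* F := RingEquiv.ofBijective (H15.Sz.tw hF).θ
    (Finite.injective_iff_bijective.1 (H15.Sz.tw hF).θ.injective)
  have ht : ∀ x, t x = x ^ 2 ^ (m + 1) := H15.Sz.tw_θ hF
  have tt : ∀ x, t (t x) = x ^ 2 := (H15.Sz.tw hF).sq
  simp only [← ht] at hs
  obtain ⟨y, y0, y1⟩ := H15.Sz.exists_ne_zero_one hm hF
  have yy : y ^ 2 ≠ y := fun e => y1 (mul_left_cancel₀ y0 (by rw [← sq, e, mul_one]))
  have t1 : t ≠ 1 := fun e => yy (by rw [← tt, e]; rfl)
  have t4 : t * t * (t * t) ≠ 1 := fun e => yy (by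
    have h4 : ∀ x : F, (x ^ 2) ^ 2 = x := fun x => by
      rw [← tt, ← tt]; exact DFunLike.congr_fun e x
    have : ∀ k : ℕ, y ^ 2 ^ (2 * k) = y := fun k => by
      induction k with
      | zero => simp
      | succ k ih => rw [mul_add, pow_add, pow_mul, ih, show 2 ^ (2 * 1) = 2 * 2 from rfl, pow_mul, h4]
    have e2 := FiniteField.pow_card y
    rwa [hF, pow_succ, pow_mul, this] at e2)
  have tc : ∀ (σ : F ≃+* F) x, σ (t x) = t (σ x) := fun σ x => by rw [ht, ht, map_pow]
  have s1 : s (0, 0) = 1 := by rw [← mul_eq_left (a := s (0, 0)), hs]; simp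
  have nn : Function.Surjective fun a => t a * a := Finite.surjective_of_injective fun a b e => by
    by_cases hb : b = 0
    · simpa [hb] using e
    have e1 : t (a / b) * (a / b) = 1 := by
      rw [map_div₀, div_mul_div_comm, div_eq_one_iff_eq (by simpa using hb)]; exact e
    have e2 := congrArg t e1
    rw [map_mul, tt, map_one, sq, mul_assoc, mul_comm (a / b) (t _), e1, mul_one] at e2
    exact (div_eq_one_iff_eq hb).1 e2
  let A : S → F := fun u => (s.symm u).1
  let B : S → F := fun u => (s.symm u).2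
  have eta : ∀ u, s (A u, B u) = u := fun u => s.apply_symm_apply u
  have As : ∀ a b, A (s (a, b)) = a := fun a b => by simp [A]
  have Bs : ∀ a b, B (s (a, b)) = b := fun a b => by simp [B]
  have Am : ∀ u v, A (u * v) = A u + A v := fun u v => by rw [← eta u, ← eta v, hs]; simp only [As]
  have Bm : ∀ u v, B (u * v) = B u + B v + t (A u) * A v := fun u v => by
    rw [← eta u, ← eta v, hs]; simp only [As, Bs]
  have sq' : ∀ u, u * u = s (0, t (A u) * A u) := fun u => by
    rw [← eta (u * u), Am, Bm]; simp only [CharTwo.add_self_eq_zero, zero_add]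
  have A0 : ∀ (α : MulAut S) b, A (α (s (0, b))) = 0 := fun α b => by
    have := sq' (α (s (0, b)))
    rw [← map_mul, sq', As, mul_zero, s1, map_one, ← s1] at this
    simpa using (congrArg Prod.snd (s.injective this)).symm
  have dec : ∀ u, u = s (A u, 0) * s (0, B u) := fun u => by rw [hs]; simp [eta]
  have Aα : ∀ (α : MulAut S) u, A (α u) = A (α (s (A u, 0))) := fun α u => by
    nth_rw 1 [dec u]; rw [map_mul, Am, A0, add_zero]
  let φ : MulAut S →* Equiv.Perm F := MonoidHom.toHomPerm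
    { toFun := fun α a => A (α (s (a, 0)))
      map_one' := funext fun a => As a 0
      map_mul' := fun α β => funext fun a => Aα α _ }
  have hφ : ∀ α a, φ α a = A (α (s (a, 0))) := fun _ _ => rfl
  have gα : ∀ (α : MulAut S) a, B (α (s (0, t a * a))) = t (φ α a) * φ α a := fun α a => by
    have := sq' (s (a, 0))
    rw [As] at this
    rw [← this, map_mul, sq', Bs, hφ]
  have mkA : ∀ (e : F × F ≃ F × F), (∀ a b c d, e (a + c, b + d + t a * c) =
      ((e (a, b)).1 + (e (c, d)).1, (e (a, b)).2 + (e (c, d)).2 + t (e (a, b)).1 * (e (c, d)).1)) →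
      ∃ α : MulAut S, ∀ p, α (s p) = s (e p) := fun e he =>
    ⟨MulEquiv.mk' (s.symm.trans (e.trans s)) fun u v => by
      obtain ⟨⟨a, b⟩, rfl⟩ := s.surjective u
      obtain ⟨⟨c, d⟩, rfl⟩ := s.surjective v
      rw [hs]
      simp only [Equiv.trans_apply, Equiv.symm_apply_apply]
      rw [he, ← hs], fun p => congrArg (fun q => s (e q)) (s.symm_apply_apply p)⟩
  have kz : ∀ α ∈ φ.ker, ∀ b, α (s (0, b)) = s (0, b) := fun α hα b => by
    obtain ⟨a, rfl⟩ := nn b
    rw [← eta (α _), A0, gα, show φ α = 1 from hα]; rfl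
  have kA : ∀ α ∈ φ.ker, ∀ u, A (α u) = A u := fun α hα u => by
    rw [Aα, ← hφ, show φ α = 1 from hα]; rfl
  have kf : ∀ α ∈ φ.ker, ∀ a b, α (s (a, b)) = s (a, B (α (s (a, 0))) + b) := fun α hα a b => by
    rw [dec (s (a, b)), map_mul, As, Bs, kz α hα, ← eta (α _), kA α hα, As, Bs, hs]; simp
  let κ : φ.ker → (F →+ F) := fun α => AddMonoidHom.mk' (fun a => B (α.1 (s (a, 0)))) fun a c => by
    have := congrArg B (map_mul α.1 (s (a, 0)) (s (c, 0)))
    rw [hs, kf α.1 α.2, Bs, Bm, kA α.1 α.2, kA α.1 α.2, As, As, zero_add, zero_add] at this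
    exact add_right_cancel this
  have ext : ∀ {α β : MulAut S}, (∀ a b, α (s (a, b)) = β (s (a, b))) → α = β := fun h =>
    MulEquiv.ext fun u => by rw [← eta u, h]
  have bκ : Function.Bijective κ := ⟨fun α β e => Subtype.ext (ext fun a b => by
      rw [kf _ α.2, kf _ β.2]; congr 3; exact DFunLike.congr_fun e a), fun h => by
    obtain ⟨α, hα⟩ := mkA ⟨fun p => (p.1, h p.1 + p.2), fun p => (p.1, -h p.1 + p.2), fun p => by simp,
      fun p => by simp⟩ fun a b c d => by simp; ring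
    exact ⟨⟨α, Equiv.ext fun a => by rw [hφ, hα]; exact As _ _⟩, AddMonoidHom.ext fun a => by
      change B (α _) = _
      rw [hα]; exact (Bs _ _).trans (add_zero _)⟩⟩
  let ψ : Fˣ × (F ≃+* F) → φ.range := fun p => ⟨p.2.toEquiv.trans (Units.mulLeft p.1), by
    obtain ⟨α, hα⟩ := mkA ((p.2.toEquiv.trans (Units.mulLeft p.1)).prodCongr (p.2.toEquiv.trans
      (Equiv.mulLeft₀ (t p.1 * p.1) (by simp)))) fun a b c d => by simp [tc]; constructor <;> ring
    exact ⟨α, Equiv.ext fun a => by rw [hφ, hα]; exact As _ _⟩⟩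
  have hψ : ∀ p a, (ψ p).1 a = p.1 * p.2 a := fun _ _ => rfl
  have bψ : Function.Bijective ψ := ⟨fun p q e => by
      have e1 : ∀ a, (p.1 : F) * p.2 a = q.1 * q.2 a := fun a => by rw [← hψ, e, hψ]
      have e2 : p.1 = q.1 := Units.ext (by simpa using e1 1)
      exact Prod.ext e2 (RingEquiv.ext fun a => mul_left_cancel₀ q.1.ne_zero (e2 ▸ e1 a)), by
    rintro ⟨_, α, rfl⟩
    have ad : ∀ a c, φ α (a + c) = φ α a + φ α c := fun a c => by
      rw [hφ, hφ, hφ, ← Am, ← map_mul, Aα α (_ * _), Am, As, As]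
    have z : φ α 0 = 0 := A0 α 0
    have nz : φ α 1 ≠ 0 := fun e => one_ne_zero ((φ α).injective (e.trans z.symm))
    obtain ⟨c, σ, h⟩ := key t tc t1 t4 (AddMonoidHom.mk' (φ α) ad)
      (AddMonoidHom.mk' (fun b => B (α (s (0, b)))) fun b d => by
        have := congrArg B (map_mul α (s (0, b)) (s (0, d)))
        rw [hs, Bm, A0, A0] at this
        simpa using this) nz (gα α)
    exact ⟨(Units.mk0 c (left_ne_zero_of_mul ((h 1).symm.trans_ne nz)), σ),
      Subtype.ext (Equiv.ext fun a => (h a).symm)⟩⟩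
  have c1 : Nat.card φ.ker = 2 ^ (2 * m + 1) ^ 2 := (Nat.card_eq_of_bijective _ bκ).trans (card_add hF).2
  have c2 : Nat.card φ.range = (2 * m + 1) * (2 ^ (2 * m + 1) - 1) := by
    rw [← Nat.card_eq_of_bijective _ bψ, Nat.card_prod, (card_add hF).1, Nat.card_units,
      Nat.card_eq_fintype_card, hF, mul_comm]
  have pc : pCore 2 (MulAut S) = φ.ker := by
    refine le_antisymm (fun α hα => ?_) (H23.le_pCore inferInstance (IsPGroup.of_card c1))
    obtain ⟨k, hk⟩ := H23.isPGroup_pCore 2 _ ⟨α, hα⟩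
    have h1 : φ.rangeRestrict α ^ 2 ^ k = 1 := by
      rw [← map_pow, show α ^ 2 ^ k = 1 from congrArg Subtype.val hk, map_one]
    refine congrArg Subtype.val ((pow_eq_one_iff_of_coprime (Nat.Coprime.pow_left k ?_)).1
      ⟨h1, pow_card_eq_one'⟩)
    rw [c2, Nat.coprime_two_left]
    exact Odd.mul ⟨m, rfl⟩ (Nat.Even.sub_odd (Nat.one_le_two_pow) (by simp [Nat.even_pow]) odd_one)
  rw [pc]
  refine ⟨⟨⟨⟨fun α β => Subtype.ext (ext fun a b => ?_)⟩⟩, fun α hα => ext fun a b => ?_⟩, c1, ?_⟩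
  · change α.1 (β.1 _) = β.1 (α.1 _)
    rw [kf _ β.2, kf _ α.2, kf _ α.2 a b, kf _ β.2 a (_ + _), add_left_comm]
  · rw [sq, MulAut.mul_apply, kf _ hα a b, kf _ hα, ← add_assoc, CharTwo.add_self_eq_zero, zero_add]; rfl
  · rw [← φ.ker.card_mul_index, Subgroup.index_ker, c1, c2]

end Cfsg.Agent.H22.SzA
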