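import Cfsg.Agent.H22.P648
import Cfsg.Agent.H26.Taussky

/-! Groups of order `64` with a fixed-point-free automorphism of order three inverted by an
involutory automorphism. -/

set_option autoImplicit false
set_option linter.style.haveILetI false

namespace Cfsg.Agent.H22.T64

open Subgroup
open scoped commutatorElement MatrixGroups
open U320 (card_sup_le normal_of_le_cen sq_mul cm_mul uu_congr)
open P648 (nrm zp nl)

variable {H : Type*} [Group H]

/-- the defining relations -/
structure Rl (a a' b b' c c' : H) : Prop where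
  sq : ∀ x ∈ [a, a', b, b', c, c'], x * x = 1
  cen : ∀ x ∈ [a, a', b, b', c], x * c = c * x ∧ x * c' = c' * x
  r1 : a' * a = a * a'
  r2 : b' * b = b * b'
  r3 : b * a = c * a * b
  r4 : b * a' = c' * a' * b
  r5 : b' * a = c' * a * b'
  r6 : b' * a' = c * c' * a' * b'

theorem Rl.card_le [Finite H] {a a' b b' c c' : H} (h : Rl a a' b b' c c') :
    Nat.card (closure {a, a', b, b', c, c'}) ≤ 64 := by
  have mz : ∀ (K : Subgroup H) x, x ∈ K ⊔ zpowers x := fun K x => mem_sup_right (mem_zpowers x)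
  have s2 : ∀ (K : Subgroup H), ∀ x ∈ [a, a', b, b', c, c'], x ^ 2 ∈ K := fun K x hx => by
    rw [pow_two, h.sq x hx]; exact one_mem _
  have c1 := card_sup_le (p := 2) (N := ⊥) (x := c') (nrm bot_le) (s2 _ _ (by simp))
  have c2 := card_sup_le (p := 2) (N := ⊥ ⊔ zpowers c') (x := c)
    (nrm (sup_le bot_le (zp (h.cen c (by simp)).2 (mz _ _)))) (s2 _ _ (by simp))
  rw [card_bot] at c1
  set N := ⊥ ⊔ zpowers c' ⊔ zpowers c with hN
  have m1 : c' ∈ N := mem_sup_left (mz _ _)
  have m2 : c ∈ N := mz _ _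
  have n1 : ∀ x ∈ [a, a', b, b', c], x ∈ normalizer (N : Set H) := fun x hx =>
    nrm (sup_le (sup_le bot_le (zp (h.cen x hx).2 m1)) (zp (h.cen x hx).1 m2))
  have c3 := card_sup_le (p := 2) (N := N) (x := a) (n1 _ (by simp)) (s2 _ _ (by simp))
  have c4 := card_sup_le (p := 2) (N := N ⊔ zpowers a) (x := a')
    (nrm (sup_le (nl (n1 _ (by simp)) le_sup_left) (zp h.r1 (mz _ _)))) (s2 _ _ (by simp))
  set M := N ⊔ zpowers a ⊔ zpowers a' with hM
  have l1 : N ≤ M := le_sup_left.trans le_sup_left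
  have m3 : a ∈ M := mem_sup_left (mz _ _)
  have m4 : a' ∈ M := mz _ _
  have c5 := card_sup_le (p := 2) (N := M) (x := b)
    (nrm (sup_le (sup_le (nl (n1 _ (by simp)) l1) (zp h.r3 (mul_mem (l1 m2) m3)))
      (zp h.r4 (mul_mem (l1 m1) m4)))) (s2 _ _ (by simp))
  have c6 := card_sup_le (p := 2) (N := M ⊔ zpowers b) (x := b')
    (nrm (sup_le (nl (nrm (sup_le (sup_le (nl (n1 _ (by simp)) l1) (zp h.r5 (mul_mem (l1 m1) m3)))
      (zp h.r6 (mul_mem (mul_mem (l1 m2) (l1 m1)) m4)))) le_sup_left) (zp h.r2 (mz _ _))))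
    (s2 _ _ (by simp))
  refine (card_le_of_le ((closure_le _).2 ?_)).trans (c6.trans (by omega))
  have l2 : M ≤ M ⊔ zpowers b ⊔ zpowers b' := le_sup_left.trans le_sup_left
  rintro _ (rfl | rfl | rfl | rfl | rfl | rfl)
  exacts [l2 m3, l2 m4, mem_sup_left (mz _ _), mz _ _, l2 (l1 m2), l2 (l1 m1)]

theorem Rl.hom {G K : Type*} [Group G] [Group K] [Finite G] [Finite K] {a a' b b' c c' : G}
    {x x' y y' z z' : K} (h : Rl a a' b b' c c') (h' : Rl x x' y y' z z')
    (hg : closure {a, a', b, b', c, c'} = ⊤) (hG : Nat.card G = 64) :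
    ∃ f : G →* K, f c = z ∧ f c' = z' := by
  have hD : Rl (a, x) (a', x') (b, y) (b', y') (c, z) (c', z') := by
    refine ⟨fun u hu => ?_, fun u hu => ?_, Prod.ext h.r1 h'.r1, Prod.ext h.r2 h'.r2,
      Prod.ext h.r3 h'.r3, Prod.ext h.r4 h'.r4, Prod.ext h.r5 h'.r5, Prod.ext h.r6 h'.r6⟩
    · exact Prod.ext (h.sq _ (List.mem_map_of_mem (f := Prod.fst) hu))
        (h'.sq _ (List.mem_map_of_mem (f := Prod.snd) hu))
    · have e1 := h.cen _ (List.mem_map_of_mem (f := Prod.fst) hu)
      have e2 := h'.cen _ (List.mem_map_of_mem (f := Prod.snd) hu)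
      exact ⟨Prod.ext e1.1 e2.1, Prod.ext e1.2 e2.2⟩
  have h1 := hD.card_le
  set D := closure ({(a, x), (a', x'), (b, y), (b', y'), (c, z), (c', z')} : Set (G × K)) with hD'
  let p₁ : D →* G := (MonoidHom.fst G K).comp D.subtype
  let p₂ : D →* K := (MonoidHom.snd G K).comp D.subtype
  have h3 : Function.Surjective p₁ := MonoidHom.range_eq_top.1 (eq_top_iff.2 (hg.ge.trans
    ((closure_le _).2 (by
      rintro _ (rfl | rfl | rfl | rfl | rfl | rfl)
      exacts [⟨⟨(_, x), subset_closure (by simp)⟩, rfl⟩, ⟨⟨(_, x'), subset_closure (by simp)⟩, rfl⟩,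
        ⟨⟨(_, y), subset_closure (by simp)⟩, rfl⟩, ⟨⟨(_, y'), subset_closure (by simp)⟩, rfl⟩,
        ⟨⟨(_, z), subset_closure (by simp)⟩, rfl⟩, ⟨⟨(_, z'), subset_closure (by simp)⟩, rfl⟩]))))
  let e := MulEquiv.ofBijective p₁ ((Nat.bijective_iff_surjective_and_card p₁).2
    ⟨h3, le_antisymm (by omega) (Nat.card_le_card_of_surjective _ h3)⟩)
  exact ⟨p₂.comp e.symm.toMonoidHom, congrArg p₂ (e.symm_apply_eq.2 rfl :
    e.symm c = ⟨(c, z), subset_closure (by simp)⟩), congrArg p₂ (e.symm_apply_eq.2 rfl :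
    e.symm c' = ⟨(c', z'), subset_closure (by simp)⟩)⟩

open Mb in
theorem model {T : Type*} [Group T] [Finite T] (hT : Nat.card T = 64) {a a' b b' c c' : T}
    (h : Rl a a' b b' c c') (hg : closure {a, a', b, b', c, c'} = ⊤)
    (hN : ∀ N : Subgroup T, N.Normal → c ∉ N → c' ∉ N → c * c' ∉ N → N = ⊥)
    {F : Type*} [Field F] [Fintype F] (hF : Fintype.card F = 4) :
    ∃ S : Sylow 2 PSL(3, F), Nonempty (T ≃* (S : Subgroup PSL(3, F))) := by
  haveI : Fact (Nat.Prime 3) := ⟨Nat.prime_three⟩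
  haveI : CharP F 2 := charP_of_card_eq_prime_pow (f := 2) hF
  have two : (2 : F) = 0 := CharP.cast_eq_zero F 2
  obtain ⟨l, hl⟩ := exists_prime_orderOf_dvd_card' (G := Fˣ) 3
    (by rw [Nat.card_units, Nat.card_eq_fintype_card, hF])
  rw [← orderOf_units] at hl
  generalize (l : F) = ω at hl
  have l3 : ω ^ 3 = 1 := by rw [← hl, pow_orderOf_eq_one]
  have l0 : ω ≠ 0 := fun e => by rw [e] at l3; simp at l3
  have l1 : ω - 1 ≠ 0 := fun e => by rw [sub_eq_zero.1 e, orderOf_one] at hl; omega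
  have l2 : ω ^ 2 + ω + 1 = 0 :=
    (mul_eq_zero.1 (show (ω - 1) * _ = 0 by linear_combination l3)).resolve_left l1
  let u : F → F → F → SL(3, F) := fun x y z => ⟨uu x y z, by simp [uu, Matrix.det_fin_three]⟩
  have um : ∀ x y z x' y' z', u x y z * u x' y' z' = u (x + x') (y + y') (z + z' + x * y') :=
    fun x y z x' y' z' => Subtype.ext (uu_mul _ _ _ _ _ _)
  have ue : ∀ {x y z x' y' z'}, x = x' → y = y' → z = z' → u x y z = u x' y' z' := fun a b c => by
    rw [a, b, c]
  have u0 : (1 : SL(3, F)) = u 0 0 0 := Subtype.ext uu_zero.symm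
  have hR : Rl (u 1 0 0) (u ω 0 0) (u 0 1 0) (u 0 ω 0) (u 0 0 1) (u 0 0 ω) := by
    refine ⟨fun x hx => ?_, fun x hx => ?_, ?_, ?_, ?_, ?_, ?_, ?_⟩
    · simp only [List.mem_cons, List.not_mem_nil, or_false] at hx
      rcases hx with rfl | rfl | rfl | rfl | rfl | rfl <;> rw [um, u0] <;>
        exact ue (by grind) (by grind) (by grind)
    · simp only [List.mem_cons, List.not_mem_nil, or_false] at hx
      rcases hx with rfl | rfl | rfl | rfl | rfl <;> refine ⟨?_, ?_⟩ <;>
        exact (um ..).trans ((ue (by ring) (by ring) (by ring)).trans (um ..).symm)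
    all_goals simp only [um]; exact ue (by grind) (by grind) (by grind)
  obtain ⟨f, f1, f2⟩ := h.hom hR hg hT
  have n1 : ∀ γ, γ ≠ 0 → u 0 0 γ ∉ center SL(3, F) := fun γ h0 h1 => h0 (by
    obtain ⟨r, -, h2⟩ := Matrix.SpecialLinearGroup.mem_center_iff.1 h1
    simpa [u, uu] using (congrFun (congrFun h2 0) 2).symm)
  have hf : Function.Injective ((QuotientGroup.mk' (center SL(3, F))).comp f) := by
    refine (MonoidHom.ker_eq_bot_iff _).1 (hN _ inferInstance ?_ ?_ ?_) <;>
      simp only [MonoidHom.mem_ker, MonoidHom.comp_apply, map_mul f, f1, f2, um,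
        QuotientGroup.mk'_apply, QuotientGroup.eq_one_iff]
    · exact n1 1 one_ne_zero
    · exact n1 ω l0
    · rw [add_zero]; exact n1 _ fun e => l1 (by grind)
  have cP : Nat.card PSL(3, F) = 2 ^ 6 * 315 := by
    have := H12.card_PSL_fin hF 3 (by norm_num)
    simp only [Fin.prod_univ_three] at this
    norm_num at this
    omega
  exact ⟨Sylow.ofCard ((QuotientGroup.mk' (center SL(3, F))).comp f).range (by
    rw [← Nat.card_congr (MonoidHom.ofInjective hf).toEquiv, hT, cP,
      Nat.factorization_mul (by norm_num) (by norm_num), Finsupp.add_apply,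
      Nat.factorization_pow_self Nat.prime_two, Nat.factorization_eq_zero_of_not_dvd (by norm_num)]
    norm_num), ⟨MonoidHom.ofInjective hf⟩⟩

theorem eight {P : Type*} [Group P] [Finite P] (h8 : Nat.card P = 8) (hc : commutator P ≠ ⊥) :
    Nonempty (P ≃* DihedralGroup 4) ∨ Nonempty (P ≃* QuaternionGroup 2) := by
  obtain ⟨a, ha⟩ := H26.exists_index_two_of_card_eight h8 hc
  rcases H26.exists_MC_or_modular (m := 2) le_rfl h8 _ inferInstance ha hc with
    ⟨e, f, X, Y, h, -⟩ | ⟨h, -⟩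
  · obtain rfl : e = 0 := h.he.resolve_right fun e => by omega
    rcases h.hf with rfl | rfl
    · exact .inl (H26.MC_dihedral_equiv h)
    · exact .inr (H26.MC_quaternion_equiv h)
  · omega

theorem struct {T : Type*} [Group T] [Finite T] (hT : Nat.card T = 64) (hna : ¬ IsMulCommutative T)
    {ρ x : MulAut T} (hρ : ρ ^ 3 = 1) (hx : x * x = 1) (hxr : x * ρ * x⁻¹ = ρ⁻¹)
    (hfp : ∀ y : T, ρ y = y → y = 1) {C : Subgroup T} (hC : ∀ y : T, y ∈ C ↔ x y = y) :
    Nat.card C = 8 ∧ commutator C ≠ ⊥ ∧ ∃ a a' b b' c c' : T, Rl a a' b b' c c' ∧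
      closure {a, a', b, b', c, c'} = ⊤ ∧
      ∀ N : Subgroup T, N.Normal → c ∉ N → c' ∉ N → c * c' ∉ N → N = ⊥ := by
  classical
  haveI : Fact (Nat.Prime 3) := ⟨Nat.prime_three⟩
  have pT : IsPGroup 2 T := IsPGroup.of_card (n := 6) hT
  have r3 : ∀ t, ρ (ρ (ρ t)) = t := fun t => congrArg (· t) hρ
  have x2 : ∀ t, x (x t) = t := fun t => congrArg (· t) hx
  have xr : ∀ t, x (ρ t) = ρ (ρ (x t)) := fun t => by
    have := congrArg (fun f : MulAut T => ρ (f (x t))) hxr
    simp only [MulAut.mul_apply, MulAut.inv_apply_self, MulAut.apply_inv_self] at this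
    rw [← r3 (x (ρ t)), this]
  have pr : ∀ t, t * ρ t * ρ (ρ t) = 1 := fun t => by
    simpa [List.range_succ, mul_assoc] using MonoidHom.FixedPointFree.prod_pow_eq_one (φ := ρ) hfp
      (n := 3) (funext r3) t
  have cm : ∀ t, t * ρ t = ρ t * t := fun t => by
    have h1 := pr t⁻¹
    rw [map_inv, map_inv, ← mul_inv_rev, ← mul_inv_rev, inv_eq_one] at h1
    rw [eq_inv_of_mul_eq_one_left (pr t), eq_inv_of_mul_eq_one_right h1]
  have inv4 : ∀ K : Subgroup T, (∀ k ∈ K, ρ k ∈ K) →
      K = ⊥ ∨ Nat.card K = 4 ∨ Nat.card K = 16 ∨ K = ⊤ := fun K hK => by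
    haveI := Fintype.ofFinite K
    let f : Function.End K := fun k => ⟨ρ k, hK _ k.2⟩
    have h1 := Equiv.Perm.card_fixedPoints_modEq (f := f) (p := 3) (n := 1)
      (funext fun k => Subtype.ext (r3 k))
    rw [show Fintype.card f.fixedPoints = 1 from Fintype.card_eq_one_iff.2 ⟨⟨1, Subtype.ext (map_one ρ)⟩,
      fun k => Subtype.ext (Subtype.ext (hfp _ (congrArg Subtype.val k.2)))⟩,
      ← Nat.card_eq_fintype_card, Nat.ModEq] at h1
    obtain ⟨m, hm, e⟩ := (Nat.dvd_prime_pow Nat.prime_two (m := 6)).1 (hT ▸ K.card_subgroup_dvd_card)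
    rw [e] at h1
    have : m = 0 ∨ m = 2 ∨ m = 4 ∨ m = 6 := by interval_cases m <;> simp_all
    rcases this with rfl | rfl | rfl | rfl
    · exact Or.inl (card_eq_one.1 e)
    · exact Or.inr (Or.inl e)
    · exact Or.inr (Or.inr (Or.inl e))
    · exact Or.inr (Or.inr (Or.inr (eq_top_of_card_eq _ (e.trans hT.symm))))
  have big : ∀ K L : Subgroup T, (∀ k ∈ L, ρ k ∈ L) → K ≤ L → ∀ t ∈ L, t ∉ K →
      (4 ≤ Nat.card K → 16 ≤ Nat.card L) ∧ (16 ≤ Nat.card K → L = ⊤) := fun K L hL h t h1 h2 => by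
    have h3 : Nat.card K < Nat.card L := not_le.1 fun h4 => h2 ((eq_of_le_of_card_ge h h4).ge h1)
    rcases inv4 L hL with h4 | h4 | h4 | h4
    · rw [h4, card_bot] at h3; exact ⟨by omega, by omega⟩
    · exact ⟨by omega, by omega⟩
    · exact ⟨by omega, by omega⟩
    · rw [h4, card_top, hT]; exact ⟨by omega, fun _ => rfl⟩
  have gen : ∀ K : Subgroup T, (∀ k ∈ K, ρ k ∈ K) → ∀ t, ∀ k ∈ K ⊔ zpowers t ⊔ zpowers (ρ t),
      ρ k ∈ K ⊔ zpowers t ⊔ zpowers (ρ t) := fun K hK t k hk =>
    (show _ ≤ (K ⊔ zpowers t ⊔ zpowers (ρ t)).comap ρ.toMonoidHom from sup_le (sup_le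
      (fun k hk => mem_sup_left (mem_sup_left (hK k hk)))
      (zpowers_le.2 (mem_sup_right (mem_zpowers _)))) (zpowers_le.2 (by
        change ρ (ρ t) ∈ K ⊔ zpowers t ⊔ zpowers (ρ t)
        rw [eq_inv_of_mul_eq_one_right (pr t)]
        exact inv_mem (mul_mem (mem_sup_left (mem_sup_right (mem_zpowers _)))
          (mem_sup_right (mem_zpowers _)))))) hk
  have Zr : ∀ z ∈ center T, ρ z ∈ center T := fun z hz => mem_center_iff.2 fun g => by
    rw [← r3 g, ← map_mul, mem_center_iff.1 hz, map_mul]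
  have Zt : center T ≠ ⊤ := fun e => hna ⟨⟨fun a b => mem_center_iff.1 (e.ge (mem_top b)) a⟩⟩
  have key : ∀ (N W : Subgroup T) [N.Normal], (∀ k ∈ W, ρ k ∈ W) → 16 ≤ Nat.card W →
      (∀ w, w ∈ W ↔ ∀ g, ⁅g, w⁆ ∈ N) → W = ⊤ := fun N W _ h1 h2 h3 => eq_top_iff.2 fun t _ => by
    by_contra ht
    have h4 := (big W _ (gen W h1 t) (le_sup_left.trans le_sup_left) t
      (mem_sup_left (mem_sup_right (mem_zpowers _))) ht).2 h2
    have h5 : ∀ g, g ∈ (centralizer {QuotientGroup.mk' N t}).comap (QuotientGroup.mk' N) ↔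
        ⁅g, t⁆ ∈ N := fun g => by
      rw [mem_comap, mem_centralizer_singleton_iff, ← commutatorElement_eq_one_iff_mul_comm,
        ← map_commutatorElement]
      exact QuotientGroup.eq_one_iff _
    refine ht ((h3 t).2 fun g => (h5 g).1 ((h4.ge.trans (sup_le (sup_le (fun w hw => (h5 w).2 ?_)
      (zpowers_le.2 ((h5 t).2 ?_))) (zpowers_le.2 ((h5 _).2 ?_)))) (mem_top g)))
    · rw [← commutatorElement_inv]; exact inv_mem ((h3 w).1 hw t)
    · rw [commutatorElement_self]; exact one_mem _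
    · rw [commutatorElement_eq_one_iff_mul_comm.2 (cm t).symm]; exact one_mem _
  haveI : Nontrivial T := Finite.one_lt_card_iff_nontrivial.1 (by omega)
  have cZ : Nat.card (center T) = 4 := by
    rcases inv4 _ Zr with h | h | h | h
    · exact absurd h ((nontrivial_iff_ne_bot _).1 pT.center_nontrivial)
    · exact h
    · exact absurd (key ⊥ _ Zr h.ge fun w => by
        simp only [mem_center_iff, mem_bot, commutatorElement_eq_one_iff_mul_comm]) Zt
    · exact absurd h Zt
  have TZ : ∀ g w : T, ⁅g, w⁆ ∈ center T := by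
    let W := (center (T ⧸ center T)).comap (QuotientGroup.mk' (center T))
    have h1 : ∀ w, w ∈ W ↔ ∀ g, ⁅g, w⁆ ∈ center T := fun w => by
      rw [mem_comap, mem_center_iff, (QuotientGroup.mk'_surjective _).forall]
      refine forall_congr' fun g => ?_
      rw [← commutatorElement_eq_one_iff_mul_comm, ← map_commutatorElement]
      exact QuotientGroup.eq_one_iff _
    have h2 : ∀ k ∈ W, ρ k ∈ W := fun k hk => (h1 _).2 fun g => by
      rw [← r3 g, ← map_commutatorElement]; exact Zr _ ((h1 k).1 hk _)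
    haveI : Nontrivial (T ⧸ center T) := QuotientGroup.nontrivial_iff.2 Zt
    obtain ⟨t, ht⟩ := (nontrivial_iff_exists_ne_one _).1 (pT.to_quotient (center T)).center_nontrivial
    obtain ⟨t, rfl⟩ := QuotientGroup.mk'_surjective _ t
    have h3 := (big (center T) W h2 (fun z hz => (h1 z).2 fun g => by
      rw [commutatorElement_eq_one_iff_mul_comm.2 (mem_center_iff.1 hz g)]; exact one_mem _) t ht.1
      fun h => ht.2 ((QuotientGroup.eq_one_iff _).2 h)).1 cZ.ge
    exact fun g w => (h1 w).1 ((key _ W h2 h3 h1).ge (mem_top w)) g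
  have sZ : ∀ z : center T, z * z = 1 := by
    let Ω : Subgroup T := { carrier := {z | z ∈ center T ∧ z * z = 1}
                            one_mem' := ⟨one_mem _, one_mul _⟩
                            mul_mem' := fun {a b} ha hb => ⟨mul_mem ha.1 hb.1, by
                              rw [mul_assoc, ← mul_assoc b, ← mem_center_iff.1 hb.1 a, mul_assoc, hb.2,
                                mul_one, ha.2]⟩
                            inv_mem' := fun {a} ha => ⟨inv_mem ha.1, by rw [← mul_inv_rev, ha.2, inv_one]⟩ }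
    have h1 : Ω ≤ center T := fun _ h => h.1
    have h2 := card_le_of_le h1
    obtain ⟨t, ht⟩ := exists_prime_orderOf_dvd_card' (G := center T) 2 (by rw [cZ]; norm_num)
    have h3 : Ω ≠ ⊥ := fun e => by
      rw [show t = 1 from Subtype.ext (mem_bot.1 (e.le ⟨t.2, congrArg Subtype.val (by
        rw [← pow_two, ← ht, pow_orderOf_eq_one] : t * t = 1)⟩)), orderOf_one] at ht
      omega
    rcases inv4 Ω (fun k hk => ⟨Zr k hk.1, by rw [← map_mul, hk.2, map_one]⟩) with h | h | h | h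
    · exact absurd h h3
    · exact fun z => Subtype.ext ((eq_of_le_of_card_ge h1 (by omega)).ge z.2).2
    · omega
    · rw [h, card_top] at h2; omega
  let β : T → T → center T := fun g w => ⟨⁅g, w⁆, TZ g w⟩
  let ζ : center T →* center T := (ρ.toMonoidHom.comp (center T).subtype).codRestrict _ fun z => Zr _ z.2
  have b1 : ∀ t g w, β t (g * w) = β t g * β t w := fun t g w => Subtype.ext (cm_mul rfl rfl)
  have b2 : ∀ g w, β g w = β w g := fun g w =>
    (inv_eq_of_mul_eq_one_right (sZ _)).symm.trans (Subtype.ext (commutatorElement_inv g w))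
  have b1' : ∀ t g w, β (g * w) t = β g t * β w t := fun t g w => by rw [b2, b1, b2, b2 t]
  have b3 : ∀ g, β g (ρ g) = 1 := fun g => Subtype.ext (commutatorElement_eq_one_iff_mul_comm.2 (cm g))
  have b0 : ∀ g, β g g = 1 := fun g => Subtype.ext (commutatorElement_self g)
  have b4 : ∀ g w, β (ρ g) (ρ w) = ζ (β g w) := fun g w => Subtype.ext (map_commutatorElement ρ g w).symm
  have b5 : ∀ g w, β g (ρ w) = β (ρ g) w := fun g w => by
    have := b3 (g * w)
    rw [map_mul, b1, b1', b1', b3, b3, one_mul, mul_one, b2] at this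
    exact (eq_inv_of_mul_eq_one_right this).trans (inv_eq_of_mul_eq_one_right (sZ _))
  have b6 : ∀ g w, β g (ρ w) = ζ (ζ (β g w)) := fun g w => by rw [← b4, ← b4, ← b5, ← b5, r3]
  have z3 : ∀ z : center T, z * ζ z * ζ (ζ z) = 1 := fun z => Subtype.ext (pr z)
  have cz : ∀ y z : center T, y * z = z * y := fun y z => Subtype.ext (mem_center_iff.1 z.2 y)
  have z4 : ∀ z : center T, ζ (ζ (ζ z)) = z := fun z => Subtype.ext (r3 z)
  have sq : ∀ g : T, g * g ∈ center T := fun g => mem_center_iff.2 fun w =>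
    commutatorElement_eq_one_iff_mul_comm.1 (congrArg Subtype.val ((b1 w g g).trans (sZ _)))
  have inj : ∀ K : Subgroup T, (∀ k ∈ K, ρ k ∈ K) → ∃ f : ↥(C ⊓ K) × ↥(C ⊓ K) → K,
      Function.Injective f ∧ ∀ p, (f p : T) = p.1 * ρ p.2 := fun K hK =>
    ⟨fun p => ⟨p.1 * ρ p.2, mul_mem p.1.2.2 (hK _ p.2.2.2)⟩, fun p q h => by
      have h1 : (p.1 : T) * ρ p.2 = q.1 * ρ q.2 := congrArg Subtype.val h
      have h2 : ρ (p.2 * (q.2 : T)⁻¹) = (p.1 : T)⁻¹ * q.1 := by
        rw [map_mul, map_inv, mul_inv_eq_iff_eq_mul, mul_assoc, ← h1, inv_mul_cancel_left]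
      have h3 := (hC _).1 (h2 ▸ C.mul_mem (C.inv_mem p.1.2.1) q.1.2.1)
      rw [xr, (hC _).1 (C.mul_mem p.2.2.1 (C.inv_mem q.2.2.1))] at h3
      have h4 := mul_inv_eq_one.1 (hfp _ (ρ.injective h3))
      rw [h4, mul_left_inj] at h1
      exact Prod.ext (Subtype.ext h1) (Subtype.ext h4), fun _ => rfl⟩
  have cC : Nat.card C = 8 := by
    obtain ⟨f, hf, -⟩ := inj ⊤ fun _ _ => trivial
    have h1 := Nat.card_le_card_of_injective f hf
    rw [Nat.card_prod, inf_top_eq, card_top, hT] at h1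
    have h2 : C.index ≤ Nat.card C := Nat.card_le_card_of_injective
      (fun q : T ⧸ C => (⟨ρ (q.out / x q.out) / ρ (ρ (q.out / x q.out)), (hC _).2 (by
        have : x (q.out / x q.out) = (q.out / x q.out)⁻¹ := by rw [map_div, x2, inv_div]
        generalize q.out / x q.out = y at this
        rw [map_div, xr, xr, xr, this, r3, map_inv, map_inv, div_eq_mul_inv, div_eq_mul_inv, inv_inv]
        exact (show Commute _ _ from cm (ρ y)).inv_right.eq.symm)⟩ : C)) fun p q h => by
        have h3 := ρ.injective (MonoidHom.FixedPointFree.commutatorMap_injective (φ := ρ) hfp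
          (congrArg Subtype.val h))
        rw [← p.out_eq', ← q.out_eq', QuotientGroup.eq, hC, map_mul, map_inv, inv_mul_eq_iff_eq_mul,
          ← mul_assoc, ← div_eq_mul_inv, ← inv_div p.out, h3, inv_div, div_mul_cancel]
    have h3 := C.card_mul_index
    rw [hT] at h3
    have h4 : Nat.card C ≤ 8 := by nlinarith
    have h5 : 8 ≤ Nat.card C := by nlinarith
    omega
  have cc : ∀ u, ∀ g ∈ centralizer {u}, ρ g ∈ centralizer ({u} : Set T) := fun u g hg => by
    have h1 : β u g = 1 := Subtype.ext (commutatorElement_eq_one_iff_mul_comm.2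
      (mem_centralizer_singleton_iff.1 hg).symm)
    have h2 := b6 u g
    rw [h1, map_one, map_one] at h2
    exact mem_centralizer_singleton_iff.2
      (commutatorElement_eq_one_iff_mul_comm.1 (congrArg Subtype.val h2)).symm
  obtain ⟨u, uC, v, vC, uv⟩ : ∃ u ∈ C, ∃ v ∈ C, β u v ≠ 1 := by
    by_contra h0
    push Not at h0
    have h1 := card_le_of_le (show C ≤ center T from fun u hu => mem_center_iff.2 fun g => by
      obtain ⟨f, hf, hf'⟩ := inj ⊤ fun _ _ => trivial
      obtain ⟨p, hp⟩ := ((Nat.bijective_iff_injective_and_card f).2 ⟨hf, by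
        rw [Nat.card_prod, inf_top_eq, card_top, hT, cC]⟩).2 ⟨g, trivial⟩
      have h2 : ∀ w ∈ C, w ∈ centralizer ({u} : Set T) := fun w hw => mem_centralizer_singleton_iff.2
        (commutatorElement_eq_one_iff_mul_comm.1 (congrArg Subtype.val (h0 w hw u hu)))
      rw [show g = p.1 * ρ p.2 from (congrArg Subtype.val hp).symm.trans (hf' p)]
      exact mem_centralizer_singleton_iff.1 (mul_mem (h2 _ p.1.2.1) (cc u _ (h2 _ p.2.2.1))))
    omega
  have uvC : ⁅u, v⁆ ∈ C := mul_mem (mul_mem (mul_mem uC vC) (inv_mem uC)) (inv_mem vC)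
  refine ⟨cC, fun e => uv (Subtype.ext (congrArg (fun y : C => y.1) (mem_bot.1 (e.le
    (commutator_mem_commutator (mem_top (⟨u, uC⟩ : C)) (mem_top ⟨v, vC⟩)))))), ?_⟩
  have two : ∀ w ∈ C, w * w = (1 : center T) ∨ w * w = β u v := fun w hw => by
    obtain ⟨f, hf, -⟩ := inj _ Zr
    have h1 := Nat.card_le_card_of_injective f hf
    rw [Nat.card_prod, cZ] at h1
    by_contra h0
    push Not at h0
    have h2 : ({1, ⁅u, v⁆, w * w} : Set T).ncard ≤ Nat.card (C ⊓ center T : Subgroup T) := by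
      refine Set.ncard_le_ncard (t := ((C ⊓ center T : Subgroup T) : Set T)) ?_ (Set.toFinite _)
      rintro _ (rfl | rfl | rfl)
      exacts [one_mem _, ⟨uvC, TZ u v⟩, ⟨mul_mem hw hw, sq w⟩]
    have h3 : ⁅u, v⁆ ≠ 1 := fun e => uv (Subtype.ext e)
    have h4 : w * w ≠ 1 := h0.1
    rw [Set.ncard_insert_of_notMem (by simp [h3.symm, h4.symm]), Set.ncard_pair (Ne.symm h0.2)] at h2
    nlinarith
  obtain ⟨a, b, aa, bb, ab⟩ : ∃ a b : T, a * a = 1 ∧ b * b = 1 ∧ β a b ≠ 1 := by
    rcases two u uC with h1 | h1 <;> rcases two v vC with h2 | h2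
    · exact ⟨u, v, h1, h2, uv⟩
    · exact ⟨u, u * v, h1, (sq_mul h1 h2 (w := β v u) rfl).trans (by rw [b2, mul_one, sZ]; rfl),
        by rwa [b1, b0, one_mul]⟩
    · exact ⟨u * v, v, (sq_mul h1 h2 (w := β v u) rfl).trans (by rw [b2, mul_one, sZ]; rfl), h2,
        by rwa [b1', b0, mul_one]⟩
    · have h3 : ρ v * ρ v = ζ (β u v) := by rw [← map_mul, h2]; rfl
      have h4 : ρ (ρ v) * ρ (ρ v) = ζ (ζ (β u v)) := by rw [← map_mul, h3]; rfl
      refine ⟨u * ρ v, u * ρ (ρ v), (sq_mul h1 h3 (w := β (ρ v) u) rfl).trans ?_,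
        (sq_mul h1 h4 (w := β (ρ (ρ v)) u) rfl).trans ?_, ?_⟩
      · rw [b2, b6, mul_assoc, cz, z3]; rfl
      · rw [b2, b6, b6, z4, cz (ζ _), z3]; rfl
      · rw [b1, b1', b1', b0, b3, one_mul, mul_one, b2, b6 u (ρ v), b6, z4]
        intro e
        have := z3 (β u v)
        rw [mul_assoc, cz (ζ _), e, mul_one] at this
        exact uv this
  have sw : ∀ g w, w * g = (β g w : T) * g * w := fun g w => by
    rw [b2]; simp only [β, commutatorElement_def]; group
  have e1 : ζ (β a b) = β a b * ζ (ζ (β a b)) := by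
    have := z3 (β a b)
    rw [mul_assoc, cz (ζ _), ← mul_assoc] at this
    exact (eq_inv_of_mul_eq_one_right this).trans (inv_eq_of_mul_eq_one_right (sZ _))
  have ar : ∀ g : T, g * g = 1 → ρ (ρ g) = ρ g * g := fun g hg => by
    rw [eq_inv_of_mul_eq_one_right (pr g), mul_inv_rev, inv_eq_of_mul_eq_one_right hg,
      inv_eq_of_mul_eq_one_right (by rw [← map_mul, hg, map_one])]
  refine ⟨a, ρ a, b, ρ b, β a b, ζ (ζ (β a b)), ⟨fun y hy => ?_, fun y _ =>
    ⟨mem_center_iff.1 (β a b).2 y, mem_center_iff.1 (ζ _).2 y⟩, (cm a).symm, (cm b).symm, sw a b,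
    by rw [sw (ρ a), ← b5, b6], by rw [sw a, b6], by rw [sw (ρ a), b4, ← Subgroup.coe_mul, ← e1]⟩, ?_,
    fun N hN n1 n2 n3 => ?_⟩
  · simp only [List.mem_cons, List.not_mem_nil, or_false] at hy
    rcases hy with rfl | rfl | rfl | rfl | rfl | rfl
    exacts [aa, by rw [← map_mul, aa, map_one], bb, by rw [← map_mul, bb, map_one],
      congrArg Subtype.val (sZ _), congrArg Subtype.val (sZ _)]
  · set L := closure {a, ρ a, b, ρ b, (β a b : T), (ζ (ζ (β a b)) : T)} with hL
    have m1 : a ∈ L := subset_closure (by simp)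
    have m2 : b ∈ L := subset_closure (by simp)
    have m3 : (β a b : T) ∈ L := subset_closure (by simp)
    have hr : ∀ k ∈ L, ρ k ∈ L := show L ≤ L.comap ρ.toMonoidHom from (closure_le _).2 (by
      have m4 : ρ a ∈ L := subset_closure (by simp)
      have m5 : ρ b ∈ L := subset_closure (by simp)
      rintro _ (rfl | rfl | rfl | rfl | rfl | rfl)
      · exact m4
      · exact (show ρ (ρ a) ∈ L by rw [ar a aa]; exact mul_mem m4 m1)
      · exact m5
      · exact (show ρ (ρ b) ∈ L by rw [ar b bb]; exact mul_mem m5 m2)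
      · change ((ζ (β a b) : center T) : T) ∈ L
        rw [e1]; exact mul_mem m3 (subset_closure (by simp))
      · change ((ζ (ζ (ζ (β a b))) : center T) : T) ∈ L
        rw [z4]; exact m3)
    have h1 : 4 ≤ Nat.card (L ⊓ center T : Subgroup T) := by
      rcases inv4 (L ⊓ center T) fun k hk => ⟨hr k hk.1, Zr k hk.2⟩ with h | h | h | h
      · exact absurd (Subtype.ext (mem_bot.1 (h.le ⟨m3, (β a b).2⟩))) ab
      · omega
      · omega
      · rw [h, card_top]; omega
    have h2 := (big _ (L ⊓ centralizer {a}) (fun k hk => ⟨hr k hk.1, cc a k hk.2⟩)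
      (inf_le_inf_left L (center_le_centralizer _)) a ⟨m1, mem_centralizer_singleton_iff.2 rfl⟩ fun h =>
        ab (Subtype.ext (commutatorElement_eq_one_iff_mul_comm.2 (mem_center_iff.1 h.2 b).symm))).1 h1
    exact (big _ L hr inf_le_left b m2 fun h => ab (Subtype.ext
      (commutatorElement_eq_one_iff_mul_comm.2 (mem_centralizer_singleton_iff.1 h.2).symm))).2 h2
  · have h1 : N ⊓ center T = ⊥ := eq_bot_iff.2 fun y hy => by
      have s1 : (β a b : T) * β a b = 1 := congrArg Subtype.val (sZ _)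
      have m1 := (β a b).2
      have m2 := (ζ (ζ (β a b))).2
      generalize (β a b : T) = c at *
      generalize (ζ (ζ (β a b)) : T) = d at *
      by_contra y1
      have u1 : c ≠ 1 := fun e => n1 (e ▸ one_mem N)
      have v1 : d ≠ 1 := fun e => n2 (e ▸ one_mem N)
      have cd : c * d ≠ 1 := fun e => n3 (e ▸ one_mem N)
      have cd' : c ≠ d := fun e => cd (by rw [← e, s1])
      have h3 : ({1, c, d, c * d, y} : Set T).ncard ≤ 4 := by
        rw [← cZ]
        refine Set.ncard_le_ncard (t := (center T : Set T)) ?_ (Set.toFinite _)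
        rintro _ (rfl | rfl | rfl | rfl | rfl)
        exacts [one_mem _, m1, m2, mul_mem m1 m2, hy.2]
      have x2 : c ≠ y := fun e => n1 (e ▸ hy.1)
      have x3 : d ≠ y := fun e => n2 (e ▸ hy.1)
      have x4 : c * d ≠ y := fun e => n3 (e ▸ hy.1)
      rw [Set.ncard_insert_of_notMem (by simp [u1.symm, v1.symm, cd.symm, Ne.symm y1]),
        Set.ncard_insert_of_notMem (by simp [cd', v1, x2]), Set.ncard_insert_of_notMem (by simp [u1, x3]),
        Set.ncard_pair x4] at h3
      omega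
    exact eq_bot_iff.2 fun y hy => h1.le ⟨hy, mem_center_iff.2 fun g =>
      commutatorElement_eq_one_iff_mul_comm.1 (mem_bot.1 (h1.le ⟨commutator_le_right ⊤ N
        (commutator_mem_commutator trivial hy), TZ g y⟩))⟩

end Cfsg.Agent.H22.T64
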