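import Cfsg.Agent.H11.Fus
import Cfsg.Agent.H11.Count
import Cfsg.Agent.H1.SylowIn
import Cfsg.Agent.H1.Quaternion

/-! A consequence of Thompson's transfer lemma for dihedral supplements. -/

set_option autoImplicit false
set_option linter.style.haveILetI false

namespace Cfsg.Agent.H22.TD

open Subgroup MulAction Cfsg.Agent.H1

/-- A 2-element acting semiregularly with an odd number of cycles on `G / Q` is an odd permutation. -/
theorem no_semireg {G : Type*} [Group G] [Finite G] (hp : ∀ (ψ : G →* ℤˣ) (g : G), ψ g = 1) (Q : Subgroup G)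
    {x : G} {k m : ℕ} (hx : orderOf x = 2 ^ (k + 1)) (hc : ∀ (g : G) (i : ℕ), g⁻¹ * x ^ i * g ∈ Q → x ^ i = 1)
    (hm : Odd m) (hi : Q.index = 2 ^ (k + 1) * m) : False := by
  classical
  have := Fintype.ofFinite (G ⧸ Q)
  have h1 : ∀ (i : ℕ) (y : G ⧸ Q), (toPermHom G (G ⧸ Q) x ^ i) y = y → 2 ^ (k + 1) ∣ i := fun i y e => by
    obtain ⟨g, rfl⟩ := QuotientGroup.mk_surjective y
    rw [← map_pow] at e
    exact hx ▸ orderOf_dvd_of_pow_eq_one (hc g i (by simpa [mul_assoc] using QuotientGroup.eq.1 e.symm))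
  have h2 := hp (Equiv.Perm.sign.comp (toPermHom G (G ⧸ Q))) x
  have h3 := hx ▸ orderOf_map_dvd (toPermHom G (G ⧸ Q)) x
  rw [MonoidHom.comp_apply] at h2
  generalize toPermHom G (G ⧸ Q) x = σ at h1 h2 h3
  have h4 : σ.cycleType = Multiset.replicate _ (2 ^ (k + 1)) := Multiset.eq_replicate_card.2 fun n hn => by
    refine Nat.dvd_antisymm ((Equiv.Perm.dvd_of_mem_cycleType hn).trans h3) ?_
    obtain ⟨c, τ, rfl, a, b, rfl⟩ := Equiv.Perm.mem_cycleType_iff.1 hn
    obtain ⟨y, hy, -⟩ := id b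
    refine h1 _ y ?_
    rw [a.commute.mul_pow, ← b.orderOf, pow_orderOf_eq_one, one_mul,
      Equiv.Perm.pow_apply_eq_self_of_apply_eq_self ((a y).resolve_left hy)]
  have h5 := σ.sum_cycleType
  rw [show σ.support = Finset.univ from Finset.eq_univ_of_forall fun y => Equiv.Perm.mem_support.2 fun e => by
    simpa using h1 1 y e, Finset.card_univ, ← Nat.card_eq_fintype_card, ← index_eq_card, hi] at h5
  have h6 : σ.cycleType.card = m := by
    rw [h4, Multiset.sum_replicate, smul_eq_mul, mul_comm] at h5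
    exact Nat.eq_of_mul_eq_mul_left (by positivity) h5
  rw [Equiv.Perm.sign_of_cycleType, h5, h6, (Even.add_odd (by simp [Nat.even_mul, Nat.even_pow]) hm).neg_one_pow] at h2
  exact absurd h2 (by decide)

theorem dih_sq {n : ℕ} (hn : 2 ≤ n) (C : Subgroup (DihedralGroup n)) (hC : IsCyclic C)
    (hi : C.index = 2) {y : DihedralGroup n} (hy : y ∉ C) : y * y = 1 := by
  haveI : NeZero n := ⟨by omega⟩
  obtain ⟨c, rfl⟩ := (Subgroup.isCyclic_iff_exists_zpowers_eq_top C).1 hC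
  have h1 := (zpowers c).card_mul_index
  rw [hi, DihedralGroup.nat_card, Nat.card_zpowers] at h1
  cases y with
  | sr i => simp
  | r i =>
    cases c with
    | sr j =>
      rw [DihedralGroup.orderOf_sr] at h1
      obtain rfl : n = 2 := by omega
      clear hy
      revert i; decide
    | r j =>
      exfalso
      apply hy
      have h2 : ∀ k : ZMod n, DihedralGroup.r k ∈ zpowers (DihedralGroup.r (1 : ZMod n)) :=
        fun k => ⟨k.val, by simp⟩
      have h3 : zpowers (DihedralGroup.r j) = zpowers (DihedralGroup.r (1 : ZMod n)) :=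
        eq_of_le_of_card_ge (zpowers_le.2 (h2 j)) (by
          rw [Nat.card_zpowers, Nat.card_zpowers, DihedralGroup.orderOf_r_one]; omega)
      rw [h3]; exact h2 i

theorem main {G : Type*} [Group G] [Finite G] (L T S D C : Subgroup G) (hL : pResidual 2 L = ⊤)
    (hTL : T ≤ L) (hT2 : IsPGroup 2 T) (hTsyl : ¬ 2 ∣ T.relIndex L)
    (hS2 : IsPGroup 2 S) (hSsyl : ¬ 2 ∣ S.index) (hTS : T ≤ S)
    (hDS : D ≤ S) (hDih : ∃ n : ℕ, 2 ≤ n ∧ Nonempty (D ≃* DihedralGroup n)) (hDT : D ⊓ T = ⊥)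
    (hTD : T ⊔ D = S) (hTDc : Nat.card T * Nat.card D = Nat.card S)
    (hCD : C ≤ D) (hC : IsCyclic C) (hCi : C.relIndex D = 2)
    (h1 : ∀ x ∈ D, x ∉ C → orderOf x = 2 → ∀ g : G, g * x * g⁻¹ ∈ T ⊔ C → False)
    (h2 : ∀ c ∈ C, orderOf c = 2 → ∀ g : G, g * c * g⁻¹ ∈ T → False) :
    ∃ K : Subgroup G, K.Normal ∧ K ⊔ D = ⊤ ∧
      ∀ T' : Subgroup G, T' ≤ L → IsPGroup 2 T' → ¬ 2 ∣ T'.relIndex L →
        T' ≤ K ∧ ¬ 2 ∣ T'.relIndex K := by
  haveI : Fact (Nat.Prime 2) := ⟨Nat.prime_two⟩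
  set R := pResidual 2 G with hR
  haveI hRn : R.Normal := H3.pResidual_normal
  have hS : IsSylowIn 2 S ⊤ := ⟨le_top, hS2, by rwa [relIndex_top_right]⟩
  have hLR : L ≤ R := by
    have : (pResidual 2 L).map L.subtype ≤ R := by
      rw [pResidual, MonoidHom.map_closure]
      refine closure_mono ?_
      rintro _ ⟨x, hx, rfl⟩
      simpa using hx
    rwa [hL, ← MonoidHom.range_eq_map, range_subtype] at this
  have hsq : ∀ x ∈ D, x ∉ C → orderOf x = 2 := by
    intro x hx hxC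
    obtain ⟨n, hn, ⟨φ⟩⟩ := hDih
    have h3 := dih_sq hn ((C.subgroupOf D).map φ.toMonoidHom)
      (isCyclic_of_surjective _ ((subgroupOfEquivOfLe hCD).symm.trans
        (equivMapOfInjective _ φ.toMonoidHom φ.injective)).surjective)
      (by rw [index_map_of_bijective φ.bijective]; exact hCi) (y := φ ⟨x, hx⟩) (by
        rintro ⟨y, hy, e⟩
        have := φ.injective e
        subst this
        exact hxC hy)
    rw [← map_mul, MulEquiv.map_eq_one_iff] at h3
    exact H11.orderOf_two_of (fun h => hxC (h ▸ one_mem _)) (congrArg Subtype.val h3)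
  have hcomp : (T.subgroupOf S).IsComplement' (D.subgroupOf S) := by
    refine isComplement'_of_card_mul_and_disjoint ?_ ?_
    · rw [Nat.card_congr (subgroupOfEquivOfLe hTS).toEquiv,
        Nat.card_congr (subgroupOfEquivOfLe hDS).toEquiv, hTDc]
    · rw [disjoint_def]
      intro x a b
      exact Subtype.ext (mem_bot.1 (hDT ▸ (⟨b, a⟩ : (x : G) ∈ D ⊓ T)))
  have hdec : ∀ s ∈ S, ∃ t ∈ T, ∃ d ∈ D, t * d = s := by
    intro s hs
    obtain ⟨⟨t, d⟩, e⟩ := hcomp.surjective ⟨s, hs⟩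
    exact ⟨t, t.2, d, d.2, congrArg Subtype.val e⟩
  obtain ⟨x, hxD, hxC⟩ : ∃ x ∈ D, x ∉ C := by
    by_contra hn
    push Not at hn
    rw [relIndex_eq_one.2 hn] at hCi
    omega
  have hTCS : T ⊔ C ≤ S := sup_le hTS (hCD.trans hDS)
  have hTC : (T ⊔ C).relIndex S = 2 := by
    refine H11.relIndex_eq_two_of (hDS hxD) (fun h => h1 x hxD hxC (hsq x hxD hxC) 1 (by simpa)) ?_
    intro s hs
    obtain ⟨t, ht, d, hd, rfl⟩ := hdec s hs
    by_cases hdC : d ∈ C
    · exact Or.inl (mul_mem_sup ht hdC)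
    · right
      rw [mul_assoc]
      exact mul_mem_sup ht ((H11.mul_mem_iff_of_relIndex_two hCi hd hxD).2 (by simp [hdC, hxC]))
  have hidx : (T ⊔ C).index % 4 = 2 := by
    have := relIndex_mul_index hTCS
    rw [hTC] at this
    omega
  have hD0 : D ⊓ R ≤ C := by
    rintro y ⟨hy, hyR⟩
    by_contra hyC
    have ho := hsq y hy hyC
    rcases H11.thompson_transfer hidx (H11.mul_self_of_orderOf_two ho) with ⟨M, a, b⟩ | ⟨g, hg⟩
    · haveI := M.normal_of_index_eq_two a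
      exact b (H11.pResidual_le_of_index (p := 2) (k := 1) a hyR)
    · exact h1 y hy hyC ho g hg
  have hS0 : IsSylowIn 2 (S ⊓ R) R := hS.inf le_top (by rw [normalizer_eq_top]; exact le_top)
  have hTR : T ≤ R := hTL.trans hLR
  have hT0 : T ≤ S ⊓ R := le_inf hTS hTR
  have hbot : D ⊓ R = ⊥ := by
    haveI : IsCyclic (D ⊓ R : Subgroup G) := Subgroup.isCyclic_of_le hD0
    obtain ⟨d, hd⟩ := (Subgroup.isCyclic_iff_exists_zpowers_eq_top (D ⊓ R)).1 inferInstance
    have hdm : d ∈ D ⊓ R := hd ▸ mem_zpowers d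
    by_contra hne
    obtain ⟨k, hk⟩ := (IsPGroup.iff_orderOf.1 hS2) ⟨d, hDS hdm.1⟩
    rw [Subgroup.orderOf_mk] at hk
    obtain ⟨k, rfl⟩ : ∃ j, k = j + 1 := by
      rcases k with _ | k
      · rw [pow_zero, orderOf_eq_one_iff] at hk
        rw [← hd, hk, zpowers_one_eq_bot] at hne
        exact absurd rfl hne
      · exact ⟨k, rfl⟩
    have hc0 : ((D ⊓ R).subgroupOf (S ⊓ R)).IsComplement' (T.subgroupOf (S ⊓ R)) := by
      refine IsComplement'.symm (isComplement'_of_disjoint_and_mul_eq_univ ?_ ?_)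
      · rw [disjoint_def]
        intro x a b
        exact Subtype.ext (mem_bot.1 (hDT ▸ (⟨b.1, a⟩ : (x : G) ∈ D ⊓ T)))
      · rw [Set.eq_univ_iff_forall]
        rintro ⟨s, hs, hsR⟩
        obtain ⟨t, ht, e, he, rfl⟩ := hdec s hs
        have heR : e ∈ R := by simpa using mul_mem (inv_mem (hTR ht)) hsR
        exact ⟨⟨t, hT0 ht⟩, ht, ⟨e, hDS he, heR⟩, ⟨he, heR⟩, rfl⟩
    have h3 := hc0.index_eq_card
    rw [Nat.card_congr (subgroupOfEquivOfLe (inf_le_inf_right R hDS)).toEquiv, ← hd, Nat.card_zpowers,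
      hk] at h3
    refine no_semireg (G := R) (fun ψ g => ?_) (T.subgroupOf R) (x := ⟨d, hdm.2⟩) (k := k)
      (m := (S ⊓ R).relIndex R) (by rw [Subgroup.orderOf_mk, hk]) (fun g i h => ?_)
      (Nat.odd_iff.2 (by have := hS0.not_dvd; omega)) ?_
    · have h4 : pResidual 2 R ≤ ψ.ker := by
        rw [pResidual, closure_le]
        intro y hy
        have h5 := orderOf_map_dvd ψ y
        have h6 : orderOf (ψ y) ∣ 2 := orderOf_dvd_of_pow_eq_one (Int.units_sq _)
        exact orderOf_eq_one_iff.1 (Nat.eq_one_of_dvd_coprimes hy h5 h6)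
      exact h4 (H3.pResidual_pResidual (p := 2) (G := G) ▸ mem_top g)
    · by_contra h0
      have h4 : d ^ i ≠ 1 := fun e => h0 (Subtype.ext e)
      obtain ⟨j, a, b⟩ := exists_pow_notMem_pow_succ_mem hS2 (A := ⊥)
        (c := ⟨d ^ i, pow_mem (hDS hdm.1) i⟩) (fun e => h4 (congrArg Subtype.val (mem_bot.1 e)))
      rw [mem_bot, Subtype.ext_iff] at a b
      simp only [SubmonoidClass.mk_pow, OneMemClass.coe_one] at a b
      refine h2 ((d ^ i) ^ 2 ^ j) (pow_mem (pow_mem (hD0 hdm) i) _)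
        (H11.orderOf_two_of a (by rw [← pow_two, ← pow_mul, ← pow_succ, b])) (g : G)⁻¹ ?_
      rw [← conj_pow]
      exact pow_mem (by simpa [mem_subgroupOf] using h) _
    · rw [← h3]
      exact (relIndex_mul_relIndex T (S ⊓ R) R hT0 inf_le_right).symm
  have hST : S ⊓ R = T := by
    refine le_antisymm ?_ hT0
    rintro s ⟨hs, hsR⟩
    obtain ⟨t, ht, e, he, rfl⟩ := hdec s hs
    have heR : e ∈ R := by simpa using mul_mem (inv_mem (hTR ht)) hsR
    rw [mem_bot.1 (hbot.le ⟨he, heR⟩), mul_one]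
    exact ht
  rw [hST] at hS0
  refine ⟨R, hRn, ?_, fun T' a b c => ⟨a.trans hLR, ?_⟩⟩
  · obtain ⟨P, rfl⟩ := hS.exists_sylow_top
    rw [eq_top_iff, ← H3.pResidual_sup_sylow P, ← hTD]
    exact sup_le le_sup_left (sup_le (hTR.trans le_sup_left) le_sup_right)
  · exact (hS0.of_card_eq (a.trans hLR)
      (IsSylowIn.card_eq (⟨a, b, c⟩ : IsSylowIn 2 T' L) ⟨hTL, hT2, hTsyl⟩)).not_dvd

end Cfsg.Agent.H22.TD
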