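import Cfsg.Agent.H22.Sy1
import Cfsg.Agent.H26.AltOdd
import Cfsg.Agent.H1.Frattini
import Cfsg.Prelude.Def_LocalEven

/-! Alternating groups in which a `3`-subgroup lies in a unique maximal subgroup. -/

set_option autoImplicit false
set_option linter.style.haveILetI false

namespace Cfsg.Agent.H22.Tm

open Equiv Equiv.Perm Subgroup Cfsg.Agent.H6.HS Cfsg.Agent.H22.Sy MulAction

variable {Ω : Type} [Fintype Ω] [DecidableEq Ω] {S M : Subgroup (Perm Ω)}

theorem exists_z (hS : IsPGroup 3 S) (hfix : ∀ x, ∃ s ∈ S, s x ≠ x) :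
    ∃ z : Perm Ω, z ^ 3 = 1 ∧ (∀ s ∈ S, s * z = z * s) ∧ ∀ x, z x ≠ x := by
  classical
  haveI : Fact (Nat.Prime 3) := ⟨Nat.prime_three⟩
  obtain ⟨z, hz, hmax⟩ := Finset.exists_max_image
    (Finset.univ.filter fun z : Perm Ω => z ^ 3 = 1 ∧ ∀ s ∈ S, s * z = z * s)
    (fun z => z.support.card) ⟨1, by simp⟩
  simp only [Finset.mem_filter, Finset.mem_univ, true_and] at hz hmax
  refine ⟨z, hz.1, hz.2, fun x hx => ?_⟩
  let ρ := toPermHom S (orbit S x)
  haveI : Nontrivial ρ.range := by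
    obtain ⟨s, hs, h⟩ := hfix x
    exact (nontrivial_iff_exists_ne_one _).2 ⟨ρ ⟨s, hs⟩, ⟨_, rfl⟩, fun e =>
      h (congrArg (fun g : Perm (orbit S x) => (g ⟨x, mem_orbit_self x⟩).1) e)⟩
  have hP : IsPGroup 3 ρ.range := hS.of_surjective _ ρ.rangeRestrict_surjective
  haveI := hP.center_nontrivial
  obtain ⟨u, hu⟩ := exists_prime_orderOf_dvd_card' (G := center ρ.range) 3 (by
    obtain ⟨k, hk, e⟩ := (hP.to_subgroup (center ρ.range)).nontrivial_iff_card.1 inferInstance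
    exact e ▸ dvd_pow_self 3 hk.ne')
  set v : Perm Ω := ofSubtype u.1.1 with hv
  have h1 : ∀ y, y ∉ orbit S x → v y = y := fun y hy => ofSubtype_apply_of_not_mem _ hy
  have h2 : ∀ y : orbit S x, v y = u.1.1 y := fun y => ofSubtype_apply_coe _ y
  have h3 : v ^ 3 = 1 := by
    rw [hv, ← map_pow, ← Subgroup.coe_pow, ← Subgroup.coe_pow, ← hu, pow_orderOf_eq_one]
    exact map_one _
  have h4 : ∀ s ∈ S, s * v = v * s := fun s hs => Equiv.ext fun y => by
    by_cases hy : y ∈ orbit S x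
    · have := congrArg (fun g : ρ.range => (g.1 ⟨y, hy⟩).1)
        (mem_center_iff.1 u.2 ⟨ρ ⟨s, hs⟩, _, rfl⟩)
      rw [Perm.mul_apply, Perm.mul_apply, h2 ⟨y, hy⟩]
      exact this.trans (h2 (ρ ⟨s, hs⟩ ⟨y, hy⟩)).symm
    · rw [Perm.mul_apply, Perm.mul_apply, h1 y hy, h1]
      rintro ⟨t, ht⟩
      exact hy ⟨(⟨s, hs⟩ : S)⁻¹ * t, by
        change s⁻¹ (t.1 x) = y
        rw [show t.1 x = s y from ht]; simp⟩
  have h5 : Perm.Disjoint z v := fun y => by
    by_cases hy : y ∈ orbit S x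
    · obtain ⟨t, rfl⟩ := hy
      exact Or.inl (by
        change z (t.1 x) = t.1 x
        rw [← Perm.mul_apply, ← hz.2 _ t.2, Perm.mul_apply, hx])
    · exact Or.inr (h1 y hy)
  have h6 := hmax (z * v) ⟨by rw [h5.commute.mul_pow, hz.1, h3, one_mul], fun s hs => by
    rw [← mul_assoc, hz.2 s hs, mul_assoc, h4 s hs, mul_assoc]⟩
  rw [h5.card_support_mul, add_le_iff_nonpos_right, Nat.le_zero, card_support_eq_zero, hv,
    map_eq_one_iff _ ofSubtype_injective] at h6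
  rw [show u = 1 from Subtype.ext (Subtype.ext h6), orderOf_one] at hu
  omega

theorem exists_three {x y w : Ω} (h1 : x ≠ y) (h2 : x ≠ w) (h3 : y ≠ w) :
    ∃ c : Perm Ω, c.IsThreeCycle ∧ c x = y ∧ c y = w ∧ c w = x ∧
      ∀ t, t ≠ x → t ≠ y → t ≠ w → c t = t := by
  refine ⟨swap x w * swap x y, isThreeCycle_swap_mul_swap_same h2 h1 h3.symm, ?_, ?_, ?_,
    fun t a b c => ?_⟩
  · simp [swap_apply_of_ne_of_ne h1.symm h3]
  · simp
  · simp [swap_apply_of_ne_of_ne h2.symm h3.symm]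
  · simp [swap_apply_of_ne_of_ne a b, swap_apply_of_ne_of_ne a c]

omit [DecidableEq Ω] in
theorem exists_not_mem {B : Finset Ω} (h : B.card < Fintype.card Ω) : ∃ x, x ∉ B := by
  by_contra h0
  push Not at h0
  rw [Finset.eq_univ_iff_forall.2 h0] at h
  exact lt_irrefl _ h

theorem R_smul {g : Perm Ω} (hg : g ∈ M) {x y : Ω} (h : R M x y) : R M (g x) (g y) := by
  rcases h with rfl | ⟨c, hc, h3, hx, hy⟩
  · exact Or.inl rfl
  · exact Or.inr ⟨g * c * g⁻¹, mul_mem (mul_mem hg hc) (inv_mem hg), three_conj h3 g,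
      by simpa [mem_supp_conj] using hx, by simpa [mem_supp_conj] using hy⟩

/-- the cycle of an element of order three -/
def T (z : Perm Ω) (x : Ω) : Finset Ω := {x, z x, z (z x)}

omit [Fintype Ω] in
theorem T_symm {z : Perm Ω} (h3 : z ^ 3 = 1) {x y : Ω} : y ∈ T z x ↔ x ∈ T z y := by
  have e3 : ∀ t, z (z (z t)) = t := fun t => congrArg (· t) h3
  have : ∀ x y, y ∈ T z x → x ∈ T z y := fun x y => by
    simp only [T, Finset.mem_insert, Finset.mem_singleton]
    rintro (rfl | rfl | rfl) <;> simp [e3]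
  exact ⟨this x y, this y x⟩

omit [Fintype Ω] in
theorem T_trans {z : Perm Ω} (h3 : z ^ 3 = 1) {x y w : Ω} (h1 : y ∈ T z x) (h2 : w ∈ T z y) :
    w ∈ T z x := by
  have e3 : ∀ t, z (z (z t)) = t := fun t => congrArg (· t) h3
  simp only [T, Finset.mem_insert, Finset.mem_singleton] at *
  rcases h1 with rfl | rfl | rfl <;> rcases h2 with rfl | rfl | rfl <;> simp [e3]

/-- the hypotheses: every proper overgroup of `S` in the alternating group lies in `M` -/
structure Hy (S M : Subgroup (Perm Ω)) : Prop where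
  five : 5 ≤ Fintype.card Ω
  pg : IsPGroup 3 S
  ne : ¬ alternatingGroup Ω ≤ M
  le : ∀ K : Subgroup (Perm Ω), S ≤ K → ¬ alternatingGroup Ω ≤ K → K ⊓ alternatingGroup Ω ≤ M

namespace Hy

variable (h : Hy S M)
include h

theorem not_all : ¬ ∀ x y, R M x y := fun h1 => h.ne fun g hg =>
  AB_le_of_R (O := Finset.univ) (fun x _ y _ => h1 x y) ⟨fun x hx => absurd (Finset.mem_univ x) hx, hg⟩

theorem rel {r : Ω → Ω → Prop} (hr : Equivalence r) (hS : ∀ s ∈ S, ∀ a b, r (s a) (s b) ↔ r a b)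
    {a b : Ω} (hab : ¬ r a b) {x y u : Ω} (h1 : x ≠ y) (h2 : x ≠ u) (h3 : y ≠ u) (hy : r x y)
    (hu : r x u) : R M x y := by
  let K : Subgroup (Perm Ω) :=
    { carrier := {g | ∀ a b, r (g a) (g b) ↔ r a b}
      one_mem' := fun _ _ => Iff.rfl
      mul_mem' := fun {g k} hg hk a b => (hg _ _).trans (hk a b)
      inv_mem' := fun {g} hg a b => by rw [← hg]; simp }
  obtain ⟨w, hw⟩ : ∃ w, ¬ r x w := by
    by_contra h0
    push Not at h0
    exact hab (hr.trans (hr.symm (h0 a)) (h0 b))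
  have hK : ¬ alternatingGroup Ω ≤ K := fun hK => by
    have e1 : y ≠ w := fun e => hw (e ▸ hy)
    have e2 : u ≠ w := fun e => hw (e ▸ hu)
    obtain ⟨c, c3, c1, -, -, c2⟩ := exists_three e1 h3 e2.symm
    have := (hK c3.mem_alternatingGroup x y).2 hy
    rw [c1, c2 x h1 (fun e => hw (e ▸ hr.refl _)) h2] at this
    exact hw this
  obtain ⟨c, c3, c1, c2, c4, c5⟩ := exists_three h1 h2 h3
  have h4 : ∀ t, r t (c t) := fun t => by
    by_cases a : t = x
    · rw [a, c1]; exact hy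
    by_cases b : t = y
    · rw [b, c2]; exact hr.trans (hr.symm hy) hu
    by_cases d : t = u
    · rw [d, c4]; exact hr.symm hu
    rw [c5 t a b d]; exact hr.refl _
  exact Or.inr ⟨c, h.le K hS hK ⟨fun a b => ⟨fun e => hr.trans (hr.trans (h4 a) e) (hr.symm (h4 b)),
    fun e => hr.trans (hr.trans (hr.symm (h4 a)) e) (h4 b)⟩, c3.mem_alternatingGroup⟩, c3,
    mem_support.2 (by rw [c1]; exact h1.symm), mem_support.2 (by rw [c2]; exact h3.symm)⟩

theorem rel_set {B : Set Ω} (hB : ∀ s ∈ S, ∀ a, s a ∈ B ↔ a ∈ B) {b : Ω} (hb : b ∉ B)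
    {x y u : Ω} (h1 : x ≠ y) (h2 : x ≠ u) (h3 : y ≠ u) (hx : x ∈ B) (hy : y ∈ B) (hu : u ∈ B) :
    R M x y :=
  h.rel (r := fun a b => a ∈ B ↔ b ∈ B) ⟨fun _ => Iff.rfl, Iff.symm, Iff.trans⟩
    (fun s hs a b => by rw [hB s hs, hB s hs]) (a := x) (b := b) (fun e => hb (e.1 hx)) h1 h2 h3
    (iff_of_true hx hy) (iff_of_true hx hu)

omit h [Fintype Ω] [DecidableEq Ω] in
theorem orbit_inv (x : Ω) : ∀ s ∈ S, ∀ a, s a ∈ orbit S x ↔ a ∈ orbit S x := fun s hs a =>
  ⟨fun e => by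
    have := mem_orbit_of_mem_orbit (⟨s, hs⟩ : S)⁻¹ e
    change s⁻¹ (s a) ∈ _ at this
    simpa using this,
    fun e => mem_orbit_of_mem_orbit (⟨s, hs⟩ : S) e⟩

theorem fixed {a : Ω} (ha : ∀ s ∈ S, s a = a) : ∃ k, 2 ≤ k ∧ Fintype.card Ω = 3 ^ k + 1 := by
  haveI : Fact (Nat.Prime 3) := ⟨Nat.prime_three⟩
  have h5 := h.five
  have hao : ∀ b, b ≠ a → a ∉ orbit S b := by
    rintro b hb ⟨s, hs⟩
    exact hb (s.1.injective (hs.trans (ha _ s.2).symm))
  obtain ⟨b, hb⟩ := exists_not_mem (B := {a}) (by simp; omega)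
  rw [Finset.mem_singleton] at hb
  by_cases h1 : ∀ c, c ≠ a → c ∈ orbit S b
  · obtain ⟨k, hk⟩ := h.pg.card_orbit b
    have e : orbit S b = {a}ᶜ := Set.ext fun c => ⟨fun hc e => hao b hb (e ▸ hc), h1 c⟩
    rw [e, Nat.card_coe_set_eq, Set.ncard_compl, Set.ncard_singleton, Nat.card_eq_fintype_card] at hk
    refine ⟨k, ?_, by omega⟩
    by_contra h2
    obtain rfl | rfl : k = 0 ∨ k = 1 := by omega
    all_goals omega
  exfalso
  push Not at h1
  obtain ⟨c, hc, hcb⟩ := h1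
  have h2 : ∀ x y, x ≠ a → y ≠ a → R M x y := fun x y hx hy => by
    by_cases e : x = y
    · exact Or.inl e
    obtain ⟨u, hu⟩ := exists_not_mem (B := {a, x, y}) (Finset.card_le_three.trans_lt (by omega))
    simp only [Finset.mem_insert, Finset.mem_singleton, not_or] at hu
    exact h.rel_set (B := {a}ᶜ) (fun s hs t => not_congr
      ⟨fun e => s.injective (e.trans (ha s hs).symm), fun e => by rw [e]; exact ha s hs⟩)
      (b := a) (by simp) e (Ne.symm hu.2.1) (Ne.symm hu.2.2) hx hy hu.1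
  obtain ⟨d, hd⟩ := exists_not_mem (B := {a, b, c}) (Finset.card_le_three.trans_lt (by omega))
  simp only [Finset.mem_insert, Finset.mem_singleton, not_or] at hd
  obtain ⟨t, ht, h3⟩ : ∃ t, t ≠ a ∧ R M a t := by
    by_cases e : d ∈ orbit S b
    · have e1 : b ∉ orbit S c := fun e => hcb (mem_orbit_symm.1 e)
      exact ⟨b, hb, h.rel_set (B := (orbit S c)ᶜ) (fun s hs t => not_congr (orbit_inv c s hs t))
        (b := c) (by simp) (Ne.symm hb) (Ne.symm hd.1) (Ne.symm hd.2.1) (hao c hc) e1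
        fun e2 => e1 (by rw [← orbit_eq_iff.2 e2, orbit_eq_iff.2 e]; exact mem_orbit_self b)⟩
    · exact ⟨c, hc, h.rel_set (B := (orbit S b)ᶜ) (fun s hs t => not_congr (orbit_inv b s hs t))
        (b := b) (by simp) hc.symm (Ne.symm hd.1) (Ne.symm hd.2.2) (hao b hb) hcb e⟩
  have h4 : ∀ x, R M a x := fun x => by
    by_cases e : x = a
    · exact Or.inl e.symm
    · exact h3.trans (h2 t x ht e)
  exact h.not_all fun x y => (h4 x).symm.trans (h4 y)

theorem cent {z : Perm Ω} (h3 : z ^ 3 = 1) (hz : ∀ s ∈ S, s * z = z * s) (hf : ∀ x, z x ≠ x)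
    {x y w : Ω} (h1 : y ∉ T z x) (h2 : w ∉ T z x) (h4 : w ∉ T z y) : ∃ g ∈ M, g x = y ∧ g y = w := by
  have h5 := h.five
  have hK : ¬ alternatingGroup Ω ≤ centralizer {z} := fun hK => by
    obtain ⟨a, ha⟩ := exists_not_mem (B := {x, z x}) (Finset.card_le_two.trans_lt (by omega))
    obtain ⟨b, hb⟩ := exists_not_mem (B := {x, z x, a}) (Finset.card_le_three.trans_lt (by omega))
    simp only [Finset.mem_insert, Finset.mem_singleton, not_or] at ha hb
    obtain ⟨c, c3, c1, -, -, c2⟩ := exists_three (Ne.symm ha.2) (Ne.symm hb.2.1) (Ne.symm hb.2.2)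
    have := congrArg (· x) (mem_centralizer_singleton_iff.1 (hK c3.mem_alternatingGroup))
    simp only [Perm.mul_apply] at this
    rw [c1, c2 x (hf x).symm (Ne.symm ha.1) (Ne.symm hb.1)] at this
    exact ha.2 this
  have e3 : ∀ t, z (z (z t)) = t := fun t => congrArg (· t) h3
  have n1 := (T_symm h3).not.1 h1
  have n2 := (T_symm h3).not.1 h2
  have n4 := (T_symm h3).not.1 h4
  simp only [T, Finset.mem_insert, Finset.mem_singleton, not_or] at h1 h2 h4 n1 n2 n4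
  obtain ⟨c, c3, c1, c2, -, c4⟩ := exists_three n1.1 n2.1 n4.1
  have f2 : ∀ t, z (z t) ≠ t := fun t e => hf t (by rw [← e, e3, e])
  have hP : ∀ t, c t ≠ t → c (z t) = z t ∧ c (z (z t)) = z (z t) := fun t ht => by
    have : t = x ∨ t = y ∨ t = w := by
      by_contra h0
      push Not at h0
      exact ht (c4 t h0.1 h0.2.1 h0.2.2)
    rcases this with rfl | rfl | rfl
    · exact ⟨c4 _ (hf _) (Ne.symm h1.2.1) (Ne.symm h2.2.1),
        c4 _ (f2 _) (Ne.symm h1.2.2) (Ne.symm h2.2.2)⟩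
    · exact ⟨c4 _ (Ne.symm n1.2.1) (hf _) (Ne.symm h4.2.1),
        c4 _ (Ne.symm n1.2.2) (f2 _) (Ne.symm h4.2.2)⟩
    · exact ⟨c4 _ (Ne.symm n2.2.1) (Ne.symm n4.2.1) (hf _),
        c4 _ (Ne.symm n2.2.2) (Ne.symm n4.2.2) (f2 _)⟩
  have d1 : Perm.Disjoint c (z * c * (z * z)) := fun t => by
    by_cases e : c t = t
    · exact Or.inl e
    · exact Or.inr (by simp only [Perm.mul_apply]; rw [(hP t e).2, e3])
  have d2 : Perm.Disjoint c (z * z * c * z) := fun t => by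
    by_cases e : c t = t
    · exact Or.inl e
    · exact Or.inr (by simp only [Perm.mul_apply]; rw [(hP t e).1, e3])
  have e4 : z * (z * z) = 1 := by rw [← h3, pow_three]
  have hg : ∀ t, c t ≠ t → (c * (z * c * (z * z)) * (z * z * c * z)) t = c t := fun t ht => by
    rw [Perm.mul_apply, Perm.mul_apply, (d2 t).resolve_left ht, (d1 t).resolve_left ht]
  refine ⟨c * (z * c * (z * z)) * (z * z * c * z), h.le (centralizer {z})
    (fun s hs => mem_centralizer_singleton_iff.2 (hz s hs)) hK ⟨mem_centralizer_singleton_iff.2 ?_, ?_⟩,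
    by rw [hg x (by rw [c1]; exact h1.1), c1], by rw [hg y (by rw [c2]; exact h4.1), c2]⟩
  · have a1 : z * c = z * c * (z * z) * z := by rw [mul_assoc _ (z * z), mul_assoc z z, e4, mul_one]
    have a2 : z * (z * c * (z * z)) = z * z * c * z * z := by simp only [mul_assoc]
    have a3 : z * (z * z * c * z) = c * z := by rw [← mul_assoc, ← mul_assoc, e4, one_mul]
    generalize z * c * (z * z) = c₁ at *
    generalize z * z * c * z = c₂ at *
    rw [← mul_assoc z, ← mul_assoc z, a1, mul_assoc c₁, a2, mul_assoc c₁, mul_assoc c₂, a3,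
      d1.commute.eq, mul_assoc c₁, d2.commute.eq]
    simp only [mul_assoc]
  · have : sign z ^ 3 = 1 := by rw [← map_pow, h3, map_one]
    rw [pow_three, Int.units_mul_self, mul_one] at this
    simp [mem_alternatingGroup, c3.sign, this]

theorem big {z : Perm Ω} (h3 : z ^ 3 = 1) (hz : ∀ s ∈ S, s * z = z * s) (hf : ∀ x, z x ≠ x)
    (hn : 12 ≤ Fintype.card Ω) {x y : Ω} (h1 : y ∉ T z x) (h2 : R M x y) : False := by
  have key : ∀ x y, y ∉ T z x → R M x y → ∀ w, w ∉ T z x → w ∉ T z y → R M x w :=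
    fun x y h1 h2 w a b => by
      obtain ⟨g, hg, e1, e2⟩ := h.cent h3 hz hf h1 a b
      exact h2.trans (e1 ▸ e2 ▸ R_smul hg h2)
  have c3 : ∀ t, (T z t).card ≤ 3 := fun t => Finset.card_le_three
  obtain ⟨a, ha⟩ := exists_not_mem (B := T z x ∪ T z y)
    ((Finset.card_union_le _ _).trans_lt (by have := c3 x; have := c3 y; omega))
  obtain ⟨b, hb⟩ := exists_not_mem (B := T z x ∪ T z y ∪ T z a) ((Finset.card_union_le _ _).trans_lt
    (by have := Finset.card_union_le (T z x) (T z y); have := c3 x; have := c3 y; have := c3 a; omega))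
  simp only [Finset.mem_union, not_or] at ha hb
  have r1 := key x y h1 h2 a ha.1 ha.2
  have r2 := key x y h1 h2 b hb.1.1 hb.1.2
  have r3 : ∀ w, R M x w := fun w => by
    by_cases e : w ∈ T z x ∨ w ∈ T z y
    · refine r1.trans (key a b hb.2 (r1.symm.trans r2) w (fun e' => ?_) fun e' => ?_)
      · exact e.elim (fun e => ha.1 (T_trans h3 e ((T_symm h3).1 e')))
          fun e => ha.2 (T_trans h3 e ((T_symm h3).1 e'))
      · exact e.elim (fun e => hb.1.1 (T_trans h3 e ((T_symm h3).1 e')))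
          fun e => hb.1.2 (T_trans h3 e ((T_symm h3).1 e'))
    · exact key x y h1 h2 w (fun e' => e (Or.inl e')) fun e' => e (Or.inr e')
  exact h.not_all fun a b => (r3 a).symm.trans (r3 b)

omit h [Fintype Ω] in
theorem pick (z : Perm Ω) {B : Set Ω} (hB : 5 ≤ B.ncard) :
    ∃ x ∈ B, ∃ y ∈ B, ∃ u ∈ B, y ∉ T z x ∧ x ≠ y ∧ x ≠ u ∧ y ≠ u := by
  have aux : ∀ C : Finset Ω, C.card ≤ 4 → ∃ t ∈ B, t ∉ C := fun C hC => by
    by_contra h0
    push Not at h0
    have := Set.ncard_le_ncard (show B ⊆ (C : Set Ω) from h0) C.finite_toSet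
    rw [Set.ncard_coe_finset] at this
    omega
  obtain ⟨x, hx, -⟩ := aux ∅ (by simp)
  obtain ⟨y, hy, h1⟩ := aux (T z x) (Finset.card_le_three.trans (by norm_num))
  obtain ⟨u, hu, h2⟩ := aux {x, y} (Finset.card_le_two.trans (by norm_num))
  simp only [Finset.mem_insert, Finset.mem_singleton, not_or] at h2
  exact ⟨x, hx, y, hy, u, hu, h1, fun e => h1 (by simp [T, e]), Ne.symm h2.1, Ne.symm h2.2⟩

theorem free (hfix : ∀ x, ∃ s ∈ S, s x ≠ x) : Fintype.card Ω = 6 ∨ Fintype.card Ω = 9 := by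
  haveI : Fact (Nat.Prime 3) := ⟨Nat.prime_three⟩
  have h5 := h.five
  obtain ⟨z, h3, hz, hf⟩ := exists_z h.pg hfix
  have hd : 3 ∣ Fintype.card Ω := by
    by_contra h0
    obtain ⟨a, ha⟩ := exists_fixed_point_of_prime (n := 1) h0 (σ := z) (by rw [pow_one, h3])
    exact hf a ha
  by_contra hn
  have hn : 12 ≤ Fintype.card Ω := by omega
  obtain ⟨a, -⟩ := exists_not_mem (B := (∅ : Finset Ω)) (by simp; omega)
  by_cases ht : ∀ b, b ∈ orbit S a
  · obtain ⟨K, hK, hle⟩ := (eq_top_or_exists_le_coatom (stabilizer S a)).resolve_left fun e => by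
      obtain ⟨s, hs, h1⟩ := hfix a
      exact h1 (e.ge (mem_top (⟨s, hs⟩ : S)))
    have hi := H1.index_eq_of_isCoatom h.pg hK
    haveI : K.Normal := by
      haveI := h.pg.isNilpotent
      exact NormalizerCondition.normal_of_coatom K Group.normalizerCondition_of_isNilpotent hK
    let r : Ω → Ω → Prop := fun b c => ∃ k ∈ K, (k : Perm Ω) b = c
    have hr : Equivalence r := ⟨fun b => ⟨1, one_mem _, rfl⟩,
      fun ⟨k, hk, e⟩ => ⟨k⁻¹, inv_mem hk, by rw [← e]; simp⟩,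
      fun ⟨k, hk, e⟩ ⟨l, hl, e'⟩ => ⟨l * k, mul_mem hl hk, by rw [← e', ← e]; rfl⟩⟩
    obtain ⟨s, hs⟩ : ∃ s, s ∉ K := by
      by_contra h0
      push Not at h0
      exact hK.1 (eq_top_iff.2 fun s _ => h0 s)
    have h1 : ¬ r a ((s : Perm Ω) a) := fun ⟨k, hk, e⟩ => hs (by
      have : k⁻¹ * s ∈ K := hle (by
        change (k : Perm Ω)⁻¹ ((s : Perm Ω) a) = a
        rw [← e]; simp)
      simpa using mul_mem hk this)
    have h2 : Fintype.card Ω = (orbit K a).ncard * 3 := by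
      rw [← hi, ← index_stabilizer, ← Nat.card_eq_fintype_card, ← Set.ncard_univ,
        ← Set.eq_univ_of_forall ht, ← index_stabilizer, ← relIndex_mul_index hle]
      rfl
    obtain ⟨k, hk⟩ := h.pg.card_orbit a
    rw [Set.eq_univ_of_forall ht, Nat.card_univ, Nat.card_eq_fintype_card] at hk
    have h4 : 27 ≤ Fintype.card Ω := by
      rw [hk] at hn ⊢
      refine Nat.pow_le_pow_right (n := 3) (i := 3) (by norm_num) (not_lt.1 fun h0 => ?_)
      have := Nat.pow_le_pow_right (n := 3) (by norm_num) (show k ≤ 2 by omega)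
      omega
    obtain ⟨x, ⟨k1, e1⟩, y, ⟨k2, e2⟩, u, ⟨k3, e3⟩, n1, n2, n3, n4⟩ :=
      pick z (B := orbit K a) (by omega)
    have r1 : r a x := ⟨k1, k1.2, e1⟩
    refine h.big h3 hz hf hn n1 (h.rel hr (fun t ht b c => ⟨fun ⟨k, hk, e⟩ => ?_, fun ⟨k, hk, e⟩ => ?_⟩)
      h1 n2 n3 n4 (hr.trans (hr.symm r1) ⟨k2, k2.2, e2⟩) (hr.trans (hr.symm r1) ⟨k3, k3.2, e3⟩))
    · exact ⟨(⟨t, ht⟩ : S)⁻¹ * k * ⟨t, ht⟩, Normal.conj_mem' inferInstance k hk _, by
        change t⁻¹ ((k : Perm Ω) (t b)) = c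
        rw [e]; simp⟩
    · exact ⟨(⟨t, ht⟩ : S) * k * (⟨t, ht⟩ : S)⁻¹, Normal.conj_mem inferInstance k hk _, by
        change t ((k : Perm Ω) (t⁻¹ (t b))) = t c
        rw [← e]; simp⟩
  · push Not at ht
    obtain ⟨b, hb⟩ := ht
    have h1 := Set.ncard_add_ncard_compl (orbit S a)
    rw [Nat.card_eq_fintype_card] at h1
    by_cases h2 : 5 ≤ (orbit S a).ncard
    · obtain ⟨x, hx, y, hy, u, hu, n1, n2, n3, n4⟩ := pick z h2
      exact h.big h3 hz hf hn n1 (h.rel_set (orbit_inv a) hb n2 n3 n4 hx hy hu)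
    · obtain ⟨x, hx, y, hy, u, hu, n1, n2, n3, n4⟩ := pick z (B := (orbit S a)ᶜ) (by omega)
      exact h.big h3 hz hf hn n1 (h.rel_set (fun s hs t => not_congr (orbit_inv a s hs t))
        (b := a) (by simp) n2 n3 n4 hx hy hu)

theorem main : Fintype.card Ω = 6 ∨ Fintype.card Ω = 9 ∨ ∃ k, 2 ≤ k ∧ Fintype.card Ω = 3 ^ k + 1 := by
  by_cases hfix : ∀ x, ∃ s ∈ S, s x ≠ x
  · exact (h.free hfix).elim Or.inl fun e => Or.inr (Or.inl e)
  · push Not at hfix
    obtain ⟨a, ha⟩ := hfix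
    exact Or.inr (Or.inr (h.fixed ha))

end Hy

theorem alt_case {X : Type*} [Group X] [Finite X] (h5 : 5 ≤ Fintype.card Ω) (hX : IsPMinimal 3 X)
    (e : X ≃* alternatingGroup Ω) :
    Fintype.card Ω = 6 ∨ Fintype.card Ω = 9 ∨ ∃ k, 2 ≤ k ∧ Fintype.card Ω = 3 ^ k + 1 := by
  haveI : Fact (Nat.Prime 3) := ⟨Nat.prime_three⟩
  obtain ⟨P⟩ : Nonempty (Sylow 3 X) := inferInstance
  obtain ⟨-, M, ⟨hM, hPM⟩, hu⟩ := hX P
  let φ : X →* Perm Ω := (alternatingGroup Ω).subtype.comp e.toMonoidHom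
  have hφ : ∀ g (hg : g ∈ alternatingGroup Ω), φ (e.symm ⟨g, hg⟩) = g := fun g hg => by simp [φ]
  refine Hy.main (S := (P : Subgroup X).map φ) (M := M.map φ)
    ⟨h5, P.isPGroup'.map _, fun h => hM.1 ?_, fun K h1 h2 => ?_⟩
  · refine eq_top_iff.2 fun g _ => ?_
    obtain ⟨k, hk, e'⟩ := h (e g).2
    exact e.injective (Subtype.ext e' : e k = e g) ▸ hk
  · obtain ⟨N, hN, hle⟩ := (eq_top_or_exists_le_coatom (K.comap φ)).resolve_left
      fun h => h2 fun g hg => hφ g hg ▸ h.ge (mem_top _)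
    obtain rfl := hu N ⟨hN, (map_le_iff_le_comap.1 h1).trans hle⟩
    exact fun g hg => ⟨_, hle (by rw [mem_comap, hφ g hg.2]; exact hg.1), hφ g hg.2⟩

theorem mem_of_odd {X : Type*} [Group X] [Finite X] {N : Subgroup X} [N.Normal]
    (hN : centralizer (N : Set X) ≤ N) (h5 : 5 ≤ Fintype.card Ω) (e : N ≃* alternatingGroup Ω) {x : X}
    (hx : Odd (orderOf x)) : x ∈ N := by
  let φ : X →* MulAut (alternatingGroup Ω) := (MulAut.congr e).toMonoidHom.comp MulAut.conjNormal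
  have h1 : Odd (orderOf (φ x)) := hx.of_dvd_nat (orderOf_map_dvd φ x)
  obtain ⟨g, hg⟩ := H26.mem_range_conjNormal_of_odd h5 _ h1
  rw [← hg, orderOf_injective _ (H26.conjNormal_alt_injective (by omega))] at h1
  have h2 : g ∈ alternatingGroup Ω := by
    have := congrArg sign (pow_orderOf_eq_one g)
    rw [map_pow, map_one] at this
    rcases Int.units_eq_one_or (sign g) with h | h
    · exact h
    · rw [h, h1.neg_one_pow] at this
      exact absurd this (by decide)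
  have h3 : ((e.symm ⟨g, h2⟩ : N) : X)⁻¹ * x ∈ N := hN (mem_centralizer_iff.2 fun y hy => by
    have h4 := congrArg (fun f : MulAut (alternatingGroup Ω) => e.symm (f (e ⟨y, hy⟩))) hg
    have h5 : MulAut.conjNormal g (e ⟨y, hy⟩) = ⟨g, h2⟩ * e ⟨y, hy⟩ * (⟨g, h2⟩ : alternatingGroup Ω)⁻¹ :=
      rfl
    simp only [h5, φ, map_mul, map_inv, MulEquiv.symm_apply_apply] at h4
    have h6 : ((e.symm ⟨g, h2⟩ : N) : X) * y * ((e.symm ⟨g, h2⟩ : N) : X)⁻¹ = x * y * x⁻¹ := by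
      simpa using congrArg Subtype.val h4
    generalize ((e.symm ⟨g, h2⟩ : N) : X) = a at h6
    calc y * (a⁻¹ * x) = a⁻¹ * (a * y * a⁻¹) * x := by group
      _ = _ := by rw [h6]; group)
  simpa using mul_mem (e.symm ⟨g, h2⟩).2 h3

end Cfsg.Agent.H22.Tm
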